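import Cfsg.Agent.Lib.NoDiv.Defs

/-!
# No divisibility: group theory of the final case, part A
-/

set_option autoImplicit false
set_option linter.unusedSectionVars false
set_option linter.style.haveILetI false

namespace Cfsg.Agent.Lib.NoDiv.GLA

open Cfsg Cfsg.Agent.Lib.NoDiv.Defs

universe u

variable {G : Type u} [Group G] [Finite G] {C E : Subgroup G} {g z : G} {o p : ℕ}

/-- Descending to a quotient: a commutator in the kernel means commuting images. -/
theorem comm_of_mem {Q : Type*} [Group Q] (π : G →* Q) {a b : G} (h : π (a * b * a⁻¹ * b⁻¹) = 1) :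
    π a * π b = π b * π a := by
  simp only [map_mul, map_inv] at h
  calc π a * π b = (π a * π b * (π a)⁻¹ * (π b)⁻¹) * (π b * π a) := by group
    _ = π b * π a := by rw [h, one_mul]

theorem mem_of_comm {Q : Type*} [Group Q] (π : G →* Q) {a b : G} (h : π a * π b = π b * π a) :
    π (a * b * a⁻¹ * b⁻¹) = 1 := by
  simp only [map_mul, map_inv]
  rw [h]
  group

/-- A normal `L` above `K`, inside the nilpotent `E`, with `L ≤ K ⊔ [L, E]`, lies in `K`. -/
theorem le_of_le_sup_commutator {K L : Subgroup G} (hK : K.Normal)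
    (hnil : Group.IsNilpotent E) (hLE : L ≤ E) (hle : L ≤ K ⊔ ⁅L, E⁆) : L ≤ K := by
  haveI := hK
  let π := QuotientGroup.mk' K
  have hker : π.ker = K := QuotientGroup.ker_mk' K
  have h1 : L.map π ≤ ⁅L.map π, E.map π⁆ := by
    rw [← Subgroup.map_commutator]
    intro x hx
    obtain ⟨l, hl, rfl⟩ := hx
    obtain ⟨k, hk, t, ht, e⟩ := Subgroup.mem_sup_of_normal_left.mp (hle hl)
    refine ⟨t, ht, ?_⟩
    rw [← e, map_mul]
    have : π k = 1 := by
      rw [← MonoidHom.mem_ker, hker]; exact hk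
    rw [this, one_mul]
  obtain ⟨n, hn⟩ := (Subgroup.isNilpotent_iff_lowerCentralSeries E).1 hnil
  have key : ∀ m : ℕ, L.map π ≤ (E.map π).lowerCentralSeries m := by
    intro m
    induction m with
    | zero => exact Subgroup.map_mono hLE
    | succ m ih =>
      rw [Subgroup.lowerCentralSeries_succ]
      exact h1.trans (Subgroup.commutator_mono ih le_rfl)
  have h2 := key n
  rw [← Subgroup.map_lowerCentralSeries, hn, Subgroup.map_bot] at h2
  intro l hl
  have : π l = 1 := by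
    have := h2 (Subgroup.mem_map_of_mem π hl)
    simpa using this
  rw [← hker, MonoidHom.mem_ker]
  exact this

theorem chief_comm (h : Cam C E g z o p) {K L : Subgroup G} (hc : Chief K L) (hL : L ≤ E) :
    ∀ w ∈ L, ∀ e ∈ E, w * e * w⁻¹ * e⁻¹ ∈ K := by
  haveI := hc.nK
  haveI := hc.nL
  haveI := h.nE
  have hN : (K ⊔ ⁅L, E⁆).Normal := Subgroup.sup_normal _ _
  have hcases := hc.min _ hN le_sup_left
    (sup_le hc.le (Subgroup.commutator_le_left L E))
  have hle : ⁅L, E⁆ ≤ K := by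
    rcases hcases with h1 | h1
    · rw [← h1]; exact le_sup_right
    · exfalso
      have h2 : L ≤ K := le_of_le_sup_commutator hc.nK h.hnil hL (by rw [h1])
      exact hc.ne (le_antisymm hc.le h2)
  intro w hw e he
  exact hle (Subgroup.commutator_mem_commutator hw he)

theorem semireg (h : Cam C E g z o p) {K L : Subgroup G} (hc : Chief K L) (hL : L ≤ E)
    {c : G} (hcC : c ∈ C) :
    (∀ w ∈ L, c * w * c⁻¹ * w⁻¹ ∈ K) ∨ (∀ w ∈ L, c * w * c⁻¹ * w⁻¹ ∈ K → w ∈ K) := by
  haveI := hc.nK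
  haveI := hc.nL
  haveI := h.nE
  haveI := h.hC
  let π := QuotientGroup.mk' K
  have hmem : ∀ t, π t = 1 ↔ t ∈ K := fun t => by simp [π]
  have hcomm : ∀ w ∈ L, ∀ e ∈ E, π w * π e = π e * π w := fun w hw e he =>
    comm_of_mem π ((hmem _).2 (chief_comm h hc hL w hw e he))
  -- the subgroup of fixed points
  let M : Subgroup G :=
    { carrier := {w | w ∈ L ∧ c * w * c⁻¹ * w⁻¹ ∈ K}
      one_mem' := ⟨L.one_mem, by simp [K.one_mem]⟩
      mul_mem' := by
        rintro x y ⟨hx, hx'⟩ ⟨hy, hy'⟩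
        refine ⟨L.mul_mem hx hy, (hmem _).1 ?_⟩
        have h1 : π (c * x * c⁻¹) = π x := by
          have := (hmem _).2 hx'
          simp only [map_mul, map_inv] at this ⊢
          calc _ = (π c * π x * (π c)⁻¹ * (π x)⁻¹) * π x := by group
            _ = π x := by rw [this, one_mul]
        have h2 : π (c * y * c⁻¹) = π y := by
          have := (hmem _).2 hy'
          simp only [map_mul, map_inv] at this ⊢
          calc _ = (π c * π y * (π c)⁻¹ * (π y)⁻¹) * π y := by group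
            _ = π y := by rw [this, one_mul]
        have e : c * (x * y) * c⁻¹ * (x * y)⁻¹ = (c * x * c⁻¹) * (c * y * c⁻¹) * y⁻¹ * x⁻¹ := by
          group
        rw [e, map_mul, map_mul, map_mul, h1, h2, map_inv, map_inv]
        group
      inv_mem' := by
        rintro x ⟨hx, hx'⟩
        refine ⟨L.inv_mem hx, (hmem _).1 ?_⟩
        have h1 : π (c * x * c⁻¹) = π x := by
          have := (hmem _).2 hx'
          simp only [map_mul, map_inv] at this ⊢
          calc _ = (π c * π x * (π c)⁻¹ * (π x)⁻¹) * π x := by group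
            _ = π x := by rw [this, one_mul]
        have e : c * x⁻¹ * c⁻¹ * x⁻¹⁻¹ = (c * x * c⁻¹)⁻¹ * x := by group
        rw [e, map_mul, map_inv, h1]
        group }
  have hMK : K ≤ M := by
    intro k hk
    refine ⟨hc.le hk, ?_⟩
    have h1 : c * k * c⁻¹ ∈ K := hc.nK.conj_mem k hk c
    exact K.mul_mem h1 (K.inv_mem hk)
  have hML : M ≤ L := fun w hw => hw.1
  have hMn : M.Normal := by
    constructor
    rintro w ⟨hw, hw'⟩ y
    have hyw : y * w * y⁻¹ ∈ L := hc.nL.conj_mem w hw y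
    refine ⟨hyw, ?_⟩
    have hwC : w ∈ C := h.leC (hL hw)
    have h1 : y * w * y⁻¹ * w⁻¹ ∈ E := hL (L.mul_mem hyw (L.inv_mem hw))
    obtain ⟨b, hb, hbw⟩ := h.cf2 y w hwC h1
    rw [← hbw]
    refine (hmem _).1 ?_
    have h2 : π (c * w * c⁻¹) = π w := by
      have := (hmem _).2 hw'
      simp only [map_mul, map_inv] at this ⊢
      calc _ = (π c * π w * (π c)⁻¹ * (π w)⁻¹) * π w := by group
        _ = π w := by rw [this, one_mul]
    have hcb : c * b * c⁻¹ * b⁻¹ ∈ E := h.cE c hcC b hb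
    have hbwb : b * w * b⁻¹ ∈ L := hc.nL.conj_mem w hw b
    have h3 := hcomm _ hbwb _ hcb
    -- `c b w b⁻¹ c⁻¹ = e (b (c w c⁻¹) b⁻¹) e⁻¹` with `e = [c, b]`
    set e := c * b * c⁻¹ * b⁻¹ with he
    have e1 : c * (b * w * b⁻¹) * c⁻¹ = e * (b * (c * w * c⁻¹) * b⁻¹) * e⁻¹ := by
      rw [he]; group
    have e2 : π (b * (c * w * c⁻¹) * b⁻¹) = π (b * w * b⁻¹) := by
      rw [map_mul π (b * (c * w * c⁻¹)) b⁻¹, map_mul π b (c * w * c⁻¹), h2]
      simp only [map_mul]
    have e3 : π (c * (b * w * b⁻¹) * c⁻¹) = π (b * w * b⁻¹) := by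
      rw [e1, map_mul, map_mul, e2, map_inv, ← h3]
      group
    rw [map_mul, e3, map_inv]
    group
  rcases hc.min M hMn hMK hML with h1 | h1
  · right
    intro w hw hw'
    rw [← h1]
    exact ⟨hw, hw'⟩
  · left
    intro w hw
    have : w ∈ M := by rw [h1]; exact hw
    exact this.2

theorem elem (h : Cam C E g z o p) {K L : Subgroup G} (hc : Chief K L) (hL : L ≤ E) :
    ∃ l : ℕ, l.Prime ∧ ∀ w ∈ L, w ^ l ∈ K := by
  haveI := hc.nK
  haveI := hc.nL
  let π := QuotientGroup.mk' K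
  have hmem : ∀ t, π t = 1 ↔ t ∈ K := fun t => by simp [π]
  have hcomm : ∀ w ∈ L, ∀ e ∈ L, π w * π e = π e * π w := fun w hw e he =>
    comm_of_mem π ((hmem _).2 (chief_comm h hc hL w hw e (hL he)))
  -- a nontrivial element of `L / K`
  obtain ⟨w₀, hw₀, hw₀K⟩ : ∃ w ∈ L, w ∉ K := by
    by_contra hcon
    push Not at hcon
    exact hc.ne (le_antisymm hc.le hcon)
  have h1 : π w₀ ≠ 1 := fun hh => hw₀K ((hmem _).1 hh)
  have hord : orderOf (π w₀) ≠ 1 := by
    intro hh; exact h1 (orderOf_eq_one_iff.1 hh)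
  obtain ⟨l, hl, hld⟩ := Nat.exists_prime_and_dvd hord
  obtain ⟨m, hm⟩ := hld
  have hpos : 0 < orderOf (π w₀) := orderOf_pos _
  -- `u = w₀ ^ m` has order `l` modulo `K`
  have hu1 : π (w₀ ^ m) ≠ 1 := by
    rw [map_pow]
    intro hh
    have := orderOf_dvd_of_pow_eq_one hh
    have hm0 : 0 < m := Nat.pos_of_ne_zero (by
      rintro rfl
      rw [mul_zero] at hm
      omega)
    have hle := Nat.le_of_dvd hm0 this
    rw [hm] at hle
    have := hl.two_le
    nlinarith
  have hu2 : π (w₀ ^ m) ^ l = 1 := by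
    rw [map_pow, ← pow_mul, mul_comm, ← hm, pow_orderOf_eq_one]
  have huL : w₀ ^ m ∈ L := L.pow_mem hw₀ m
  let M : Subgroup G :=
    { carrier := {w | w ∈ L ∧ π w ^ l = 1}
      one_mem' := ⟨L.one_mem, by simp⟩
      mul_mem' := by
        rintro x y ⟨hx, hx'⟩ ⟨hy, hy'⟩
        refine ⟨L.mul_mem hx hy, ?_⟩
        rw [map_mul, (show Commute (π x) (π y) from hcomm x hx y hy).mul_pow, hx', hy', one_mul]
      inv_mem' := by
        rintro x ⟨hx, hx'⟩
        refine ⟨L.inv_mem hx, ?_⟩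
        rw [map_inv, inv_pow, hx', inv_one] }
  have hMK : K ≤ M := by
    intro k hk
    refine ⟨hc.le hk, ?_⟩
    rw [(hmem k).2 hk, one_pow]
  have hML : M ≤ L := fun w hw => hw.1
  have hMn : M.Normal := by
    constructor
    rintro w ⟨hw, hw'⟩ y
    refine ⟨hc.nL.conj_mem w hw y, ?_⟩
    have : π (y * w * y⁻¹) ^ l = π y * π w ^ l * (π y)⁻¹ := by
      rw [map_mul, map_mul, map_inv]
      exact conj_pow
    rw [this, hw']
    group
  refine ⟨l, hl, ?_⟩
  rcases hc.min M hMn hMK hML with h2 | h2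
  · exfalso
    have : w₀ ^ m ∈ M := ⟨huL, hu2⟩
    rw [h2] at this
    exact hu1 ((hmem _).2 this)
  · intro w hw
    have : w ∈ M := by rw [h2]; exact hw
    have h3 := this.2
    rw [← map_pow] at h3
    exact (hmem _).1 h3

theorem fpf_of_coprime (h : Cam C E g z o p) {x y w : G} {s t : ℕ} {N : Subgroup G} (hN : N.Normal)
    (hx : x ∈ C) (hy : y * x * y⁻¹ * x⁻¹ ∉ E) (hs : x ^ s = 1) (hw : w ∈ E)
    (hxw : x * w * x⁻¹ * w⁻¹ ∈ N) (ht : w ^ t ∈ N) (hst : Nat.Coprime s t) : w ∈ N := by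
  haveI := hN
  let π := QuotientGroup.mk' N
  have hmem : ∀ t, π t = 1 ↔ t ∈ N := fun t => by simp [π]
  have hc : Commute (π x) (π w) := comm_of_mem π ((hmem _).2 hxw)
  obtain ⟨b, _, hb⟩ := h.cf1 y x hx hy w hw
  have h1 : (x * w) ^ s = 1 := by
    rw [← hb, conj_pow, hs]
    group
  have h2 : π w ^ s = 1 := by
    have h3 : π (x * w) ^ s = 1 := by rw [← map_pow, h1, map_one]
    rw [map_mul, hc.mul_pow, ← map_pow, hs, map_one, one_mul] at h3
    exact h3
  have h3 : π w ^ t = 1 := by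
    rw [← map_pow]; exact (hmem _).2 ht
  have h4 : orderOf (π w) ∣ Nat.gcd s t :=
    Nat.dvd_gcd (orderOf_dvd_of_pow_eq_one h2) (orderOf_dvd_of_pow_eq_one h3)
  rw [hst.gcd_eq_one, Nat.dvd_one, orderOf_eq_one_iff] at h4
  exact (hmem _).1 h4

theorem H_inf_U (h : Cam C E g z o p) {x : G} (hx : x ∈ h.H) (hxg : g * x * g⁻¹ * x⁻¹ ∈ E) :
    x ∈ E := by
  haveI := h.nE
  haveI := h.hC
  let π := QuotientGroup.mk' E
  have hmem : ∀ t, π t = 1 ↔ t ∈ E := fun t => by simp [π]
  obtain ⟨hxC, c, hc, hxc⟩ := hx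
  have h1 : π (g * c * g⁻¹) = π x * π c := by
    have := (hmem _).2 hxc
    simp only [map_mul, map_inv] at this ⊢
    calc _ = π x * ((π x)⁻¹ * (π g * π c * (π g)⁻¹ * (π c)⁻¹)) * π c := by group
      _ = π x * π c := by rw [this, mul_one]
  have hgx : π g * π x * (π g)⁻¹ = π x := by
    have := (hmem _).2 hxg
    simp only [map_mul, map_inv] at this
    calc _ = (π g * π x * (π g)⁻¹ * (π x)⁻¹) * π x := by group
      _ = π x := by rw [this, one_mul]
  have hgc : π g * π c * (π g)⁻¹ = π x * π c := by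
    simpa only [map_mul, map_inv] using h1
  have hj : ∀ j : ℕ, π g ^ j * π c * (π g ^ j)⁻¹ = π x ^ j * π c := by
    intro j
    induction j with
    | zero => simp
    | succ j ih =>
      rw [pow_succ' (π g) j, pow_succ (π x) j]
      calc π g * π g ^ j * π c * (π g * π g ^ j)⁻¹
          = π g * (π g ^ j * π c * (π g ^ j)⁻¹) * (π g)⁻¹ := by group
        _ = π g * (π x ^ j * π c) * (π g)⁻¹ := by rw [ih]
        _ = (π g * π x * (π g)⁻¹) ^ j * (π g * π c * (π g)⁻¹) := by
            rw [conj_pow]; group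
        _ = π x ^ j * (π x * π c) := by rw [hgx, hgc]
        _ = π x ^ j * π x * π c := by group
  have hgo : π (g ^ o) * π c = π c * π (g ^ o) :=
    comm_of_mem π ((hmem _).2 (h.cE _ h.hgo c hc))
  have hxo : π x ^ o = 1 := by
    have h2 := hj o
    rw [← map_pow, hgo, map_pow] at h2
    have h3 : π c * π g ^ o * (π g ^ o)⁻¹ = π c := by group
    rw [h3] at h2
    have h4 : π x ^ o * π c = 1 * π c := by rw [one_mul, ← h2]
    exact mul_right_cancel h4
  obtain ⟨k, hk, hk'⟩ := h.hk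
  have hxk : π x ^ k = 1 := by
    have h2 := (hmem _).2 (hk' c hc)
    rw [map_pow] at h2
    have h3 : π (g * c * g⁻¹ * c⁻¹) = π x := by
      rw [map_mul, h1, map_inv]; group
    rw [h3] at h2
    exact h2
  have h4 : orderOf (π x) ∣ Nat.gcd k o :=
    Nat.dvd_gcd (orderOf_dvd_of_pow_eq_one hxk) (orderOf_dvd_of_pow_eq_one hxo)
  rw [hk.gcd_eq_one, Nat.dvd_one, orderOf_eq_one_iff] at h4
  exact (hmem _).1 h4

end Cfsg.Agent.Lib.NoDiv.GLA
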