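import Cfsg.Agent.Lib.NoDiv.XLemma
import Cfsg.Agent.Lib.Char.RelGraph
import Cfsg.Agent.Lib.Blk89.ItoMichler
import Mathlib.Tactic

/-!
# No divisibility: class structure when all nonlinear characters of `C` are invariant
-/

set_option autoImplicit false
set_option linter.unusedSectionVars false
set_option linter.style.haveILetI false

namespace Cfsg.Agent.Lib.NoDiv.Camina

open Cfsg Module Cfsg.Agent.Lib.NoDiv.Defs Cfsg.Agent.Lib.NoDiv.XLemma
open Cfsg.Agent.Lib.Char.Basic Cfsg.Agent.Lib.Char.Ortho Cfsg.Agent.Lib.Char.Complete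
open Cfsg.Agent.Lib.Char.Conj Cfsg.Agent.Lib.Char.Clifford Cfsg.Agent.Lib.Char.Induced
open Cfsg.Agent.Lib.Char.CliffordCorr Cfsg.Agent.Lib.Char.Linear Cfsg.Agent.Lib.Char.Degree
open Cfsg.Agent.Lib.Char.DetChar
open Cfsg.Agent.Lib.Char.GoingDown
open scoped ComplexConjugate

universe u

/-- A homomorphism stabilising a character has order dividing the degree. -/
theorem pow_deg_eq_one {K : Type u} [Group K] [Finite K] (δ : K →* ℂˣ) {ξ : K → ℂ}
    (hξ : IsCharacter K ξ) (h : (fun c => ((δ c : ℂˣ) : ℂ) * ξ c) = ξ) (k : K) :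
    δ k ^ charDegree ξ = 1 := by
  have hd : ξ 1 = (charDegree ξ : ℕ) := (charDegree_natCast hξ).symm
  have h1 := detChar_mul_hom δ hξ hd k
  rw [h] at h1
  have h2 := Cfsg.Agent.Lib.Char.RelGraph.detChar_ne_zero hξ k
  have h3 : (((δ k ^ charDegree ξ : ℂˣ)) : ℂ) = 1 := by
    rw [Units.val_pow_eq_pow_val]
    have h4 : (((δ k : ℂˣ) : ℂ) ^ charDegree ξ - 1) * detChar ξ k = 0 := by
      rw [sub_mul, ← h1, one_mul, sub_self]
    have h5 := (mul_eq_zero.mp h4).resolve_right h2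
    exact sub_eq_zero.mp h5
  exact Units.ext h3

/-- Linear characters separate modulo the derived subgroup. -/
theorem exists_hom_ne {K : Type u} [Group K] [Finite K] {L : Subgroup K} (hL : L.Normal)
    (hab : ∀ a b : K, a * b * a⁻¹ * b⁻¹ ∈ L) {x : K} (hx : x ∉ L) :
    ∃ β : K →* ℂˣ, (∀ l ∈ L, β l = 1) ∧ β x ≠ 1 := by
  have h1 := annih_dualOf hL hab
  rw [← h1] at hx
  have h2 : ¬ ∀ μ ∈ dualOf L, μ x = 1 := hx
  push Not at h2
  obtain ⟨μ, hμ, hμx⟩ := h2
  exact ⟨μ, hμ, hμx⟩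

/-- A homomorphism to `ℂˣ` kills the derived subgroup. -/
theorem hom_commutator {K : Type u} [Group K] (β : K →* ℂˣ) {x : K} (hx : x ∈ commutator K) :
    β x = 1 :=
  MonoidHom.mem_ker.mp (Abelianization.commutator_subset_ker β hx)

variable {G : Type u} [Group G] [Fintype G] {C : Subgroup G} [Fintype C]

theorem mem_comm_iff (c : C) : (c : G) ∈ (⁅C, C⁆ : Subgroup G) ↔ c ∈ commutator C := by
  rw [← Subgroup.map_subtype_commutator]
  constructor
  · rintro ⟨y, hy, hyc⟩
    have : y = c := Subtype.ext hyc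
    rwa [← this]
  · intro h
    exact ⟨c, h, rfl⟩

/-- The commutator as an element of `C`. -/
def cm (hC : C.Normal) (h : G) (c : C) : C :=
  ⟨h * c * h⁻¹ * (c : G)⁻¹, C.mul_mem (hC.conj_mem c c.2 h) (C.inv_mem c.2)⟩

theorem conjHom_eq (hC : C.Normal) (h : G) (β : C →* ℂˣ) (c : C) :
    conjHom hC h β c = β (cm hC h c) * β c := by
  rw [conjHom_apply, ← map_mul]
  congr 1
  apply Subtype.ext
  simp [cm]

section Inv

variable (hC : C.Normal)
  (hinv : ∀ ξ : IrrCharacter C, (ξ : C → ℂ) 1 ≠ 1 → ∀ g, conjOn hC g (ξ : C → ℂ) = ξ)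

include hinv

/-- Stability under `β ^ h / β`. -/
theorem stab_conj_div {ξ : C → ℂ} (hξ : IsIrrCharacter C ξ) (hξ1 : ξ 1 ≠ 1) (h : G)
    (β : C →* ℂˣ) : mulH (conjHom hC h β * β⁻¹) ξ = ξ := by
  have hirr : IsIrrCharacter C (mulH β ξ) :=
    Cfsg.Agent.Lib.CharZeros.Gallagher.isIrrCharacter_mul_linear
      (isCharacter_of_isIrrCharacter (isIrrCharacter_of_hom β)) (by simp) hξ
  have h1 : mulH β ξ 1 ≠ 1 := by simpa [mulH] using hξ1
  have h2 := hinv ⟨_, hirr⟩ h1 h
  have h3 := hinv ⟨_, hξ⟩ hξ1 h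
  change conjOn hC h (mulH β ξ) = mulH β ξ at h2
  change conjOn hC h ξ = ξ at h3
  rw [conjOn_mulH, h3] at h2
  rw [hom_mul_comm, mulH_mul, h2, mulH_inv_cancel]

/-- Nonlinear characters vanish where `h` moves modulo the derived subgroup. -/
theorem vanish {ξ : C → ℂ} (hξ : IsIrrCharacter C ξ) (hξ1 : ξ 1 ≠ 1) (h : G) (c : C)
    (hc : cm hC h c ∉ commutator C) : ξ c = 0 := by
  have hab : ∀ a b : C, a * b * a⁻¹ * b⁻¹ ∈ commutator C := fun a b =>
    Subgroup.commutator_mem_commutator (Subgroup.mem_top a) (Subgroup.mem_top b)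
  obtain ⟨β, -, hβ⟩ := exists_hom_ne (inferInstance) hab hc
  have h1 := congrFun (stab_conj_div hC hinv hξ hξ1 h β) c
  simp only [mulH, MonoidHom.mul_apply, MonoidHom.inv_apply, conjHom_eq] at h1
  have h2 : ((β (cm hC h c) * β c * (β c)⁻¹ : ℂˣ) : ℂ) = ((β (cm hC h c) : ℂˣ) : ℂ) := by
    rw [mul_inv_cancel_right]
  rw [h2] at h1
  have h3 : (((β (cm hC h c) : ℂˣ) : ℂ) - 1) * ξ c = 0 := by
    rw [sub_mul, h1, one_mul, sub_self]
  refine (mul_eq_zero.mp h3).resolve_left ?_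
  intro h4
  exact hβ (Units.ext (sub_eq_zero.mp h4))

/-- The power statement. -/
theorem pow_mem {ξ : C → ℂ} (hξ : IsIrrCharacter C ξ) (hξ1 : ξ 1 ≠ 1) (h : G) (c : C) :
    cm hC h c ^ charDegree ξ ∈ commutator C := by
  by_contra hcon
  have hab : ∀ a b : C, a * b * a⁻¹ * b⁻¹ ∈ commutator C := fun a b =>
    Subgroup.commutator_mem_commutator (Subgroup.mem_top a) (Subgroup.mem_top b)
  obtain ⟨β, -, hβ⟩ := exists_hom_ne (inferInstance) hab hcon
  apply hβ
  have h1 := pow_deg_eq_one (conjHom hC h β * β⁻¹) (isCharacter_of_isIrrCharacter hξ)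
    (stab_conj_div hC hinv hξ hξ1 h β) c
  simp only [MonoidHom.mul_apply, MonoidHom.inv_apply, conjHom_eq, mul_inv_cancel_right] at h1
  rwa [map_pow]

/-- The first class statement. -/
theorem class_eq (h : G) (c : C) (hc : cm hC h c ∉ commutator C) {e : C} (he : e ∈ commutator C) :
    ∃ b : C, b * c * b⁻¹ = c * e := by
  classical
  have := finite_irrCharacter (G := C)
  letI := Fintype.ofFinite (IrrCharacter C)
  -- the centraliser
  have h1 := sum_irr_mul_conj c c
  rw [if_pos (IsConj.refl c)] at h1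
  have h2 : ∀ χ : IrrCharacter C, (χ : C → ℂ) c * conj ((χ : C → ℂ) c) =
      if (χ : C → ℂ) 1 = 1 then 1 else 0 := by
    intro χ
    by_cases hχ : (χ : C → ℂ) 1 = 1
    · rw [if_pos hχ]
      obtain ⟨lam, hlam⟩ := exists_hom_of_deg_one (isCharacter_of_isIrrCharacter χ.2) hχ
      rw [hlam]
      have h3 : ‖((lam c : ℂˣ) : ℂ)‖ = 1 := by
        have hk0 := orderOf_pos c
        have h4 : ((lam c : ℂˣ) : ℂ) ^ orderOf c = 1 := by
          rw [← Units.val_pow_eq_pow_val, ← map_pow, pow_orderOf_eq_one, map_one, Units.val_one]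
        exact Complex.norm_eq_one_of_pow_eq_one h4 hk0.ne'
      rw [Complex.mul_conj, Complex.normSq_eq_norm_sq, h3]
      simp
    · rw [if_neg hχ, vanish hC hinv χ.2 hχ h c hc]
      simp
  simp only [h2] at h1
  rw [Finset.sum_boole] at h1
  have h3 : (Finset.univ.filter fun χ : IrrCharacter C => (χ : C → ℂ) 1 = 1).card =
      (commutator C).index := by
    rw [← card_linear_eq_index, Nat.card_eq_fintype_card, Fintype.card_subtype]
  rw [h3] at h1
  have h4 : (commutator C).index = Nat.card (Subgroup.centralizer ({c} : Set C)) := by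
    exact_mod_cast h1
  have h5 := card_isConj_mul_card_centralizer c
  have h6 := (commutator C).card_mul_index
  rw [← h4] at h5
  have h7 : Nat.card {x : C // IsConj x c} = Nat.card (commutator C) := by
    have h8 : 0 < (commutator C).index := Nat.pos_of_ne_zero Subgroup.index_ne_zero_of_finite
    exact Nat.eq_of_mul_eq_mul_right h8 (h5.trans h6.symm)
  -- comparing the class with the coset
  have hmem : ∀ x : {x : C // IsConj x c}, c⁻¹ * (x : C) ∈ commutator C := by
    rintro ⟨x, hx⟩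
    obtain ⟨b, hb⟩ := isConj_iff.mp (IsConj.symm hx)
    have : c⁻¹ * x = c⁻¹ * (b * c * b⁻¹) * (c⁻¹ * c) := by rw [hb]; group
    change c⁻¹ * x ∈ _
    rw [this]
    have h9 : c⁻¹ * (b * c * b⁻¹) * (c⁻¹ * c) = c⁻¹ * b * c⁻¹⁻¹ * b⁻¹ := by group
    rw [h9]
    exact Subgroup.commutator_mem_commutator (Subgroup.mem_top _) (Subgroup.mem_top _)
  let φ : {x : C // IsConj x c} → commutator C := fun x => ⟨_, hmem x⟩
  have hφinj : Function.Injective φ := by
    intro a b hab
    have h8 : c⁻¹ * (a : C) = c⁻¹ * (b : C) := congrArg Subtype.val hab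
    exact Subtype.ext (mul_left_cancel h8)
  have hφbij : Function.Bijective φ :=
    (Nat.bijective_iff_injective_and_card φ).mpr ⟨hφinj, h7⟩
  obtain ⟨x, hx⟩ := hφbij.2 ⟨e, he⟩
  have h8 : c⁻¹ * (x : C) = e := congrArg Subtype.val hx
  obtain ⟨b, hb⟩ := isConj_iff.mp (IsConj.symm x.2)
  refine ⟨b, ?_⟩
  rw [hb, ← h8]
  group

/-- The second class statement. -/
theorem class_conj (h : G) (c : C) (hc : cm hC h c ∈ commutator C) :
    ∃ b : C, b * c * b⁻¹ = ⟨h * c * h⁻¹, hC.conj_mem c c.2 h⟩ := by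
  have h1 : IsConj c (⟨h * c * h⁻¹, hC.conj_mem c c.2 h⟩ : C) := by
    rw [isConj_iff_forall_irr]
    intro χ
    by_cases hχ : (χ : C → ℂ) 1 = 1
    · obtain ⟨lam, hlam⟩ := exists_hom_of_deg_one (isCharacter_of_isIrrCharacter χ.2) hχ
      rw [hlam]
      have h2 : lam (⟨h * c * h⁻¹, hC.conj_mem c c.2 h⟩ : C) = lam (cm hC h c) * lam c := by
        rw [← conjHom_eq, conjHom_apply]
      beta_reduce
      rw [h2, hom_commutator lam hc, one_mul]
    · have h2 := congrFun (hinv χ hχ h) c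
      rw [conjOn_apply] at h2
      exact h2.symm
  exact isConj_iff.mp h1

end Inv

end Cfsg.Agent.Lib.NoDiv.Camina
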