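import Cfsg.Agent.Lib.NoDiv.Camina
import Mathlib.Tactic

/-!
# No divisibility: the consequences of the top analysis
-/

set_option autoImplicit false
set_option linter.unusedSectionVars false
set_option linter.style.haveILetI false

namespace Cfsg.Agent.Lib.NoDiv.Mid

open Cfsg Module Cfsg.Agent.Lib.NoDiv.Defs Cfsg.Agent.Lib.NoDiv.XLemma Cfsg.Agent.Lib.NoDiv.Camina
open Cfsg.Agent.Lib.Char.Basic Cfsg.Agent.Lib.Char.Ortho Cfsg.Agent.Lib.Char.Complete
open Cfsg.Agent.Lib.Char.Conj Cfsg.Agent.Lib.Char.Clifford Cfsg.Agent.Lib.Char.Induced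
open Cfsg.Agent.Lib.Char.CliffordCorr Cfsg.Agent.Lib.Char.Linear Cfsg.Agent.Lib.Char.Degree
open Cfsg.Agent.Lib.Char.FreeAction Cfsg.Agent.Lib.Char.DegDvd Cfsg.Agent.Lib.Char.GoingDown

universe u

variable {G : Type u} [Group G] [Fintype G] {C Z : Subgroup G} [Fintype C] {p : ℕ}

/-- The output of the top analysis. -/
structure TopD (C Z : Subgroup G) (p : ℕ) : Prop where
  hp : p.Prime
  hC : C.Normal
  hZn : Z.Normal
  hZC : Z ≤ C
  hZne : Z ≠ C
  hCt : C ≠ ⊤
  hab : ∀ a b : G, a * b * a⁻¹ * b⁻¹ ∈ C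
  hCZ : ∀ a ∈ C, ∀ b ∈ C, a * b * a⁻¹ * b⁻¹ ∈ Z
  hCp : ∀ c ∈ C, c ^ p ∈ Z
  hfpf : ∀ h, h ∉ C → ∀ c ∈ C, h * c * h⁻¹ * c⁻¹ ∈ Z → c ∈ Z
  hD : ∃ d ∈ charDegrees G, d ≠ 1 ∧ d ≠ C.index
  hd : ∀ d ∈ charDegrees G, d ≠ 1 → d ≠ C.index → p ∣ d ∧ Nat.Coprime d C.index

theorem index_one_lt (hCt : C ≠ ⊤) : 1 < C.index := by
  have h0 : C.index ≠ 0 := Subgroup.index_ne_zero_of_finite
  have h1 : C.index ≠ 1 := fun h => hCt (Subgroup.index_eq_one.mp h)
  omega

theorem TopD.not_dvd (t : TopD C Z p) : ¬ p ∣ C.index := by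
  obtain ⟨d, hd, hd1, hdm⟩ := t.hD
  obtain ⟨h1, h2⟩ := t.hd d hd hd1 hdm
  intro h3
  have h4 := Nat.dvd_gcd h1 h3
  rw [h2] at h4
  exact t.hp.one_lt.ne' (Nat.dvd_one.mp h4)

/-- The degree data over a constituent. -/
theorem deg_data (hC : C.Normal) {ξ : C → ℂ} {χ : G → ℂ} (hξ : IsIrrCharacter C ξ)
    (hχ : IsIrrCharacter G χ) (hcon : classInner (fun n : C => χ n) ξ ≠ 0) :
    ∃ e : ℕ, 0 < e ∧ charDegree χ = e * (inertia hC ξ).index * charDegree ξ ∧
      e * (inertia hC ξ).index ∣ C.index := by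
  classical
  obtain ⟨e₀, t₀, h1, h2⟩ := dvd_index_of_constituent hC hξ hχ hcon
  obtain ⟨e, he⟩ := exists_nat_classInner
    (isCharacter_restrict C (isCharacter_of_isIrrCharacter hχ)) (isCharacter_of_isIrrCharacter hξ)
  have h3 := deg_eq_of_constituent hC hχ hξ hcon
  rw [he] at h3 hcon
  have hξc := isCharacter_of_isIrrCharacter hξ
  have hχc := isCharacter_of_isIrrCharacter hχ
  have hd : ξ 1 = (charDegree ξ : ℕ) := (charDegree_natCast hξc).symm
  have hd' : χ 1 = (charDegree χ : ℕ) := (charDegree_natCast hχc).symm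
  have hd0 : ((charDegree ξ : ℕ) : ℂ) ≠ 0 := by
    rw [← hd]
    exact irr_one_ne_zero hξ
  have h4 : e₀ * t₀ = e * (inertia hC ξ).index := by
    have h5 : ((e₀ * t₀ : ℕ) : ℂ) * ξ 1 = (e : ℂ) * ((inertia hC ξ).index : ℂ) * ξ 1 := by
      rw [← h1, h3]
    rw [hd] at h5
    have h6 := mul_right_cancel₀ hd0 h5
    exact_mod_cast h6
  refine ⟨e, Nat.pos_of_ne_zero (fun h => hcon (by simp [h])), ?_, h4 ▸ h2⟩
  rw [hd, hd'] at h3
  exact_mod_cast h3

theorem charDegree_mem (χ : G → ℂ) (hχ : IsIrrCharacter G χ) : charDegree χ ∈ charDegrees G :=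
  ⟨⟨χ, hχ⟩, rfl⟩

theorem charDegree_eq_one_iff {K : Type u} [Group K] {χ : K → ℂ} (hχ : IsCharacter K χ) :
    charDegree χ = 1 ↔ χ 1 = 1 := by
  have hd := charDegree_natCast hχ
  constructor
  · intro h
    rw [h] at hd
    simpa using hd.symm
  · intro h
    rw [h] at hd
    exact_mod_cast hd

namespace TopD

/-- An admissible homomorphism of exponent `p`. -/
theorem exists_delta (t : TopD C Z p) :
    ∃ δ : C →* ℂˣ, (∀ z : C, (z : G) ∈ Z → δ z = 1) ∧ δ ≠ 1 ∧ ∀ c, δ c ^ p = 1 := by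
  classical
  have hex : ∃ c ∈ C, c ∉ Z := by
    by_contra hcon
    push Not at hcon
    exact t.hZne (le_antisymm t.hZC hcon)
  obtain ⟨c, hc, hcZ⟩ := hex
  let Z' : Subgroup C := Z.subgroupOf C
  have hZ'n : Z'.Normal := t.hZn.subgroupOf C
  have hab' : ∀ a b : C, a * b * a⁻¹ * b⁻¹ ∈ Z' := fun a b => t.hCZ a a.2 b b.2
  have hc' : (⟨c, hc⟩ : C) ∉ Z' := hcZ
  obtain ⟨β, hβ, hβc⟩ := exists_hom_ne hZ'n hab' hc'
  refine ⟨β, fun z hz => hβ z hz, fun h => hβc (by rw [h]; rfl), fun a => ?_⟩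
  rw [← map_pow]
  exact hβ _ (t.hCp a a.2)

/-- The index is a degree. -/
theorem index_mem (t : TopD C Z p) : C.index ∈ charDegrees G := by
  classical
  obtain ⟨δ, hδ, hδ1, -⟩ := t.exists_delta
  have hirr := isIrrCharacter_of_hom δ
  have hin : ∀ g : G, conjOn t.hC g (fun c => ((δ c : ℂˣ) : ℂ)) = (fun c => ((δ c : ℂˣ) : ℂ)) →
      g ∈ C := by
    intro g hg
    by_contra hgC
    apply hδ1
    apply conjHom_fix t.hC t.hZn t.hZC (t.hfpf g hgC) δ hδ
    refine MonoidHom.ext fun c => ?_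
    have h1 := congrFun hg c
    rw [conjOn_apply] at h1
    exact Units.ext h1
  have hind := isIrrCharacter_indFun_of_inertia_le t.hC hirr hin
  have h1 : charDegree (indFun C (fun c => ((δ c : ℂˣ) : ℂ))) = C.index := by
    apply charDegree_eq_of_eq_natCast
    rw [indFun_one]
    simp
  rw [← h1]
  exact charDegree_mem _ hind

/-- The main consequence. -/
theorem mid (t : TopD C Z p) (hnd : NoDiv G) {ξ : C → ℂ} (hξ : IsIrrCharacter C ξ) (hξ1 : ξ 1 ≠ 1) :
    (∀ g, conjOn t.hC g ξ = ξ) ∧ p ∣ charDegree ξ ∧ Nat.Coprime (charDegree ξ) C.index ∧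
      charDegree ξ ∈ charDegrees G := by
  classical
  obtain ⟨χ', hχ'⟩ := Cfsg.Agent.Lib.Blk89.ItoMichler.exists_irr_over (G := G) (N := C) hξ
  set χ : G → ℂ := χ'.1 with hχdef
  have hχ : IsIrrCharacter G χ := χ'.2
  have hξc := isCharacter_of_isIrrCharacter hξ
  have hχc := isCharacter_of_isIrrCharacter hχ
  obtain ⟨e, he0, hdeg, hdvd⟩ := deg_data t.hC hξ hχ hχ'
  have hξd1 : charDegree ξ ≠ 1 := fun h => hξ1 ((charDegree_eq_one_iff hξc).mp h)
  have hξd0 : 0 < charDegree ξ := charDegree_pos hξ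
  have hI0 : 0 < (inertia t.hC ξ).index := Nat.pos_of_ne_zero Subgroup.index_ne_zero_of_finite
  have hm := index_one_lt (C := C) t.hCt
  have hχd1 : charDegree χ ≠ 1 := by
    rw [hdeg]
    intro h
    exact hξd1 (Nat.eq_one_of_mul_eq_one_left h)
  have hχ1 : χ 1 ≠ 1 := fun h => hχd1 ((charDegree_eq_one_iff hχc).mpr h)
  have hmem : charDegree χ ∈ charDegrees G := charDegree_mem χ hχ
  rcases xlemma t.hC t.hZC t.hZn t.hab t.hCZ t.hfpf hnd hξ hχ hχ1 hχ' with hc | hc
  · -- inertia group equal to `C`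
    exfalso
    have hI : inertia t.hC ξ = C := by
      apply le_antisymm
      · intro g hg
        exact hc g hg
      · exact le_inertia t.hC (isClassFunction_of_isIrrCharacter hξ)
    rw [hI] at hdeg
    have h1 : C.index ∣ charDegree χ := by
      rw [hdeg]
      exact (dvd_mul_left _ _).trans (dvd_mul_right _ _)
    have h2 : C.index < charDegree χ := by
      rw [hdeg]
      have h3 : 2 ≤ charDegree ξ := by omega
      have h4 : 0 < C.index := by omega
      nlinarith [Nat.mul_le_mul_right C.index he0]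
    exact hnd _ t.index_mem _ hmem hm h2 h1
  · -- stabilised by the admissible homomorphisms
    obtain ⟨δ, hδ, hδ1, hδp⟩ := t.exists_delta
    have hp : p ∣ charDegree ξ := by
      by_contra hnp
      have hcop : Nat.Coprime p (charDegree ξ) := (Nat.Prime.coprime_iff_not_dvd t.hp).mpr hnp
      apply hδ1
      refine MonoidHom.ext fun c => ?_
      have h1 := pow_deg_eq_one δ hξc (hc δ hδ) c
      have h2 := hδp c
      have h3 := pow_gcd_eq_one.mpr ⟨h2, h1⟩
      rw [Nat.Coprime.gcd_eq_one hcop, pow_one] at h3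
      simpa using h3
    have hpχ : p ∣ charDegree χ := by
      rw [hdeg]
      exact hp.trans (dvd_mul_left _ _)
    have hχm : charDegree χ ≠ C.index := by
      intro h
      exact t.not_dvd (h ▸ hpχ)
    obtain ⟨-, hcop⟩ := t.hd _ hmem hχd1 hχm
    have hone : e * (inertia t.hC ξ).index = 1 := by
      have h1 : e * (inertia t.hC ξ).index ∣ charDegree χ := by
        rw [hdeg]
        exact dvd_mul_right _ _
      have h2 := Nat.dvd_gcd h1 hdvd
      rw [hcop] at h2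
      exact Nat.dvd_one.mp h2
    have hI1 : (inertia t.hC ξ).index = 1 := Nat.eq_one_of_mul_eq_one_left hone
    have hItop : inertia t.hC ξ = ⊤ := Subgroup.index_eq_one.mp hI1
    have hdd : charDegree χ = charDegree ξ := by
      rw [hdeg, hone, one_mul]
    refine ⟨fun g => ?_, hp, hdd ▸ hcop, hdd ▸ hmem⟩
    have : g ∈ inertia t.hC ξ := by
      rw [hItop]
      trivial
    exact this

/-- No divisibility passes to `C`. -/
theorem noDiv_C (t : TopD C Z p) (hnd : NoDiv G) : NoDiv C := by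
  rintro a ⟨ξ, rfl⟩ b ⟨ξ', rfl⟩ h1 h2 h3
  have hξc := isCharacter_of_isIrrCharacter ξ.2
  have hξ'c := isCharacter_of_isIrrCharacter ξ'.2
  have ha : (ξ : C → ℂ) 1 ≠ 1 := fun h => h1.ne' ((charDegree_eq_one_iff hξc).mpr h)
  have hb : (ξ' : C → ℂ) 1 ≠ 1 := fun h => by
    have := (charDegree_eq_one_iff hξ'c).mpr h
    omega
  exact hnd _ (t.mid hnd ξ.2 ha).2.2.2 _ (t.mid hnd ξ'.2 hb).2.2.2 h1 h2 h3

/-- The end of the argument. -/
theorem card_three (t : TopD C Z p) (hnd : NoDiv G)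
    (hx : ∃ x, ∀ ξ : IrrCharacter C, (ξ : C → ℂ) 1 ≠ 1 → charDegree (ξ : C → ℂ) = x) :
    Nat.card (charDegrees G) = 3 := by
  classical
  obtain ⟨x, hx⟩ := hx
  obtain ⟨d₀, hd₀, hd₀1, hd₀m⟩ := t.hD
  have hm := index_one_lt (C := C) t.hCt
  -- a degree other than `1`, `m` is `x`
  have hkey : ∀ d ∈ charDegrees G, d ≠ 1 → d ≠ C.index → d = x := by
    rintro d ⟨χ, rfl⟩ hd1 hdm
    obtain ⟨-, hcop⟩ := t.hd _ ⟨χ, rfl⟩ hd1 hdm
    have hχc := isCharacter_of_isIrrCharacter χ.2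
    have hne : (fun n : C => (χ : G → ℂ) n) ≠ 0 := by
      intro h
      have := congrFun h 1
      apply irr_one_ne_zero χ.2
      simpa using this
    have hcf : IsClassFunction C (fun n : C => (χ : G → ℂ) n) :=
      isClassFunction_of_isCharacter (isCharacter_restrict C hχc)
    obtain ⟨ξ, hξ, hcon⟩ := exists_irr_constituent hcf hne
    obtain ⟨e, he0, hdeg, hdvd⟩ := deg_data t.hC hξ χ.2 hcon
    have hone : e * (inertia t.hC ξ).index = 1 := by
      have h1 : e * (inertia t.hC ξ).index ∣ charDegree (χ : G → ℂ) := by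
        rw [hdeg]
        exact dvd_mul_right _ _
      have h2 := Nat.dvd_gcd h1 hdvd
      rw [hcop] at h2
      exact Nat.dvd_one.mp h2
    rw [hone, one_mul] at hdeg
    rw [hdeg]
    apply hx ⟨ξ, hξ⟩
    intro h
    apply hd1
    rw [hdeg]
    exact (charDegree_eq_one_iff (isCharacter_of_isIrrCharacter hξ)).mpr h
  have hdx := hkey d₀ hd₀ hd₀1 hd₀m
  have hone : 1 ∈ charDegrees G := by
    refine ⟨⟨_, isIrrCharacter_of_hom (1 : G →* ℂˣ)⟩, ?_⟩
    apply charDegree_eq_of_eq_natCast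
    simp
  have hset : charDegrees G = {1, C.index, d₀} := by
    ext d
    simp only [Set.mem_insert_iff, Set.mem_singleton_iff]
    constructor
    · intro hd
      by_cases h1 : d = 1
      · exact Or.inl h1
      by_cases h2 : d = C.index
      · exact Or.inr (Or.inl h2)
      exact Or.inr (Or.inr ((hkey d hd h1 h2).trans hdx.symm))
    · rintro (rfl | rfl | rfl)
      · exact hone
      · exact t.index_mem
      · exact hd₀
  rw [hset, Nat.card_coe_set_eq, Set.ncard_insert_of_notMem, Set.ncard_insert_of_notMem,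
    Set.ncard_singleton]
  · simpa using hd₀m.symm
  · simp only [Set.mem_insert_iff, Set.mem_singleton_iff, not_or]
    exact ⟨by omega, fun h => hd₀1 h.symm⟩

end TopD

end Cfsg.Agent.Lib.NoDiv.Mid
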