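import Cfsg.Agent.Lib.NoDiv.Defs
import Cfsg.Agent.Lib.Char.FreeAction
import Cfsg.Agent.Lib.Char.DegDvd
import Cfsg.Agent.Lib.Char.CliffordCorr
import Cfsg.Agent.Lib.Char.Degree
import Cfsg.Agent.Lib.Char.DetChar
import Cfsg.Agent.Lib.Char.GoingDown
import Cfsg.Agent.Lib.CharZeros.Gallagher
import Mathlib.Tactic

/-!
# No divisibility among character degrees: the basic dichotomy
-/

set_option autoImplicit false
set_option linter.unusedSectionVars false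
set_option linter.style.haveILetI false

namespace Cfsg.Agent.Lib.NoDiv.XLemma

open Cfsg Module Cfsg.Agent.Lib.NoDiv.Defs
open Cfsg.Agent.Lib.Char.Basic Cfsg.Agent.Lib.Char.Ortho Cfsg.Agent.Lib.Char.Complete
open Cfsg.Agent.Lib.Char.Conj Cfsg.Agent.Lib.Char.Clifford Cfsg.Agent.Lib.Char.Induced
open Cfsg.Agent.Lib.Char.CliffordCorr Cfsg.Agent.Lib.Char.Linear Cfsg.Agent.Lib.Char.Degree
open Cfsg.Agent.Lib.Char.FreeAction Cfsg.Agent.Lib.Char.DegDvd Cfsg.Agent.Lib.Char.IndRep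
open Cfsg.Agent.Lib.Char.GoingDown

universe u

/-- An element acting without fixed points modulo `Z` on `A` is surjective modulo `Z`. -/
theorem exists_comm_mod {G : Type u} [Group G] [Finite G] {A Z : Subgroup G} (hZA : Z ≤ A)
    (hZn : Z.Normal) (h : G) (hA : ∀ a ∈ A, h * a * h⁻¹ ∈ A)
    (hf : ∀ a ∈ A, h * a * h⁻¹ * a⁻¹ ∈ Z → a ∈ Z) :
    ∀ a ∈ A, ∃ b ∈ A, a⁻¹ * (h * b * h⁻¹ * b⁻¹) ∈ Z := by
  classical
  have hcm : ∀ a ∈ A, h * a * h⁻¹ * a⁻¹ ∈ A := fun a ha => A.mul_mem (hA a ha) (A.inv_mem ha)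
  let Z' : Subgroup A := Z.subgroupOf A
  let f0 : A → A := fun a => ⟨h * a * h⁻¹ * (a : G)⁻¹, hcm a a.2⟩
  have hwell : ∀ a b : A, a⁻¹ * b ∈ Z' → (f0 a)⁻¹ * f0 b ∈ Z' := by
    intro a b hab
    have h1 : (a : G)⁻¹ * (b : G) ∈ Z := hab
    change ((f0 a)⁻¹ * f0 b : A).1 ∈ Z
    change (h * a * h⁻¹ * (a : G)⁻¹)⁻¹ * (h * b * h⁻¹ * (b : G)⁻¹) ∈ Z
    set t : G := (a : G)⁻¹ * (b : G) with ht
    have h2 : (b : G) = a * t := by simp [ht]
    have h3 := hZn.conj_mem _ h1 h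
    have h4 := hZn.conj_mem _ (Z.mul_mem h3 (Z.inv_mem h1)) a
    have h5 : (h * a * h⁻¹ * (a : G)⁻¹)⁻¹ * (h * b * h⁻¹ * (b : G)⁻¹) =
        a * (h * t * h⁻¹ * t⁻¹) * (a : G)⁻¹ := by
      rw [h2]
      group
    rw [h5]
    exact h4
  have hinj : ∀ a b : A, (f0 a)⁻¹ * f0 b ∈ Z' → a⁻¹ * b ∈ Z' := by
    intro a b hab
    have h1 : (h * a * h⁻¹ * (a : G)⁻¹)⁻¹ * (h * b * h⁻¹ * (b : G)⁻¹) ∈ Z := hab
    change (a : G)⁻¹ * (b : G) ∈ Z
    apply hf _ (A.mul_mem (A.inv_mem a.2) b.2)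
    have h2 := hZn.conj_mem _ h1 (a : G)⁻¹
    have h3 : h * ((a : G)⁻¹ * (b : G)) * h⁻¹ * ((a : G)⁻¹ * (b : G))⁻¹ =
        (a : G)⁻¹ * ((h * a * h⁻¹ * (a : G)⁻¹)⁻¹ * (h * b * h⁻¹ * (b : G)⁻¹)) * (a : G)⁻¹⁻¹ := by
      group
    rw [h3]
    exact h2
  let F : (A ⧸ Z') → (A ⧸ Z') := Quotient.map' f0 (by
    intro a b hab
    rw [QuotientGroup.leftRel_apply] at hab ⊢
    exact hwell a b hab)
  have hFinj : Function.Injective F := by
    intro x y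
    induction x using QuotientGroup.induction_on with | _ a => ?_
    induction y using QuotientGroup.induction_on with | _ b => ?_
    intro hxy
    have h1 : ((f0 a : A) : A ⧸ Z') = ((f0 b : A) : A ⧸ Z') := hxy
    rw [QuotientGroup.eq] at h1
    exact QuotientGroup.eq.2 (hinj a b h1)
  have hFsurj := Finite.injective_iff_surjective.mp hFinj
  intro a ha
  obtain ⟨x, hx⟩ := hFsurj ((⟨a, ha⟩ : A) : A ⧸ Z')
  induction x using QuotientGroup.induction_on with | _ b => ?_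
  have h1 : ((f0 b : A) : A ⧸ Z') = ((⟨a, ha⟩ : A) : A ⧸ Z') := hx
  rw [eq_comm, QuotientGroup.eq] at h1
  exact ⟨b, b.2, h1⟩

section Hom

variable {G : Type u} [Group G] {C : Subgroup G}

/-- Twist of a function by a homomorphism. -/
def mulH (δ : C →* ℂˣ) (ξ : C → ℂ) : C → ℂ := fun c => (δ c : ℂ) * ξ c

/-- Conjugate of a homomorphism. -/
def conjHom (hC : C.Normal) (g : G) (δ : C →* ℂˣ) : C →* ℂˣ :=
  δ.comp (conjEquiv hC g).toMonoidHom

theorem conjHom_apply (hC : C.Normal) (g : G) (δ : C →* ℂˣ) (c : C) :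
    conjHom hC g δ c = δ ⟨g * c * g⁻¹, hC.conj_mem c c.2 g⟩ := rfl

theorem conjOn_mulH (hC : C.Normal) (g : G) (δ : C →* ℂˣ) (ξ : C → ℂ) :
    conjOn hC g (mulH δ ξ) = mulH (conjHom hC g δ) (conjOn hC g ξ) := rfl

theorem mulH_mul (δ δ' : C →* ℂˣ) (ξ : C → ℂ) : mulH (δ * δ') ξ = mulH δ (mulH δ' ξ) := by
  funext c
  simp [mulH, mul_assoc]

theorem mulH_one (ξ : C → ℂ) : mulH (1 : C →* ℂˣ) ξ = ξ := by
  funext c
  simp [mulH]

theorem mulH_inv_cancel (δ : C →* ℂˣ) (ξ : C → ℂ) : mulH δ⁻¹ (mulH δ ξ) = ξ := by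
  have h : δ⁻¹ * δ = 1 := by
    ext c
    simp
  rw [← mulH_mul, h, mulH_one]

/-- Commutative group bookkeeping. -/
theorem comm_aux {A : Type*} [CommGroup A] {x y a b : A} (h : x * a⁻¹ = y * b⁻¹) :
    x * y⁻¹ = a * b⁻¹ := by
  have h1 : x = y * b⁻¹ * a := by rw [← h, inv_mul_cancel_right]
  rw [h1]
  have h2 : y * b⁻¹ * a * y⁻¹ = (y * y⁻¹) * (a * b⁻¹) := by ac_rfl
  rw [h2, mul_inv_cancel, one_mul]

theorem hom_mul_comm {C : Type*} [Group C] (a b : C →* ℂˣ) : a * b = b * a := by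
  refine MonoidHom.ext fun c => ?_
  simp only [MonoidHom.mul_apply]
  exact mul_comm _ _

theorem hom_aux {C : Type*} [Group C] {x y a b : C →* ℂˣ} (h : x * a⁻¹ = y * b⁻¹) :
    x * y⁻¹ = a * b⁻¹ := by
  refine MonoidHom.ext fun c => ?_
  have h1 := DFunLike.congr_fun h c
  simp only [MonoidHom.mul_apply, MonoidHom.inv_apply] at h1 ⊢
  exact comm_aux h1

theorem conjHom_mul (hC : C.Normal) (g : G) (δ δ' : C →* ℂˣ) :
    conjHom hC g (δ * δ') = conjHom hC g δ * conjHom hC g δ' := rfl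

theorem conjHom_inv (hC : C.Normal) (g : G) (δ : C →* ℂˣ) :
    conjHom hC g δ⁻¹ = (conjHom hC g δ)⁻¹ := rfl

end Hom

variable {G : Type u} [Group G] [Fintype G]

/-- Injective endomorphism argument: if `ξ` is fixed by `h`, `h` has no fixed point on the
admissible homomorphisms, and `δ ^ h / δ` stabilises `ξ`, then `δ` stabilises `ξ`. -/
theorem stab_of_conj_div {C Z : Subgroup G} [Finite C] (hC : C.Normal) (hZn : Z.Normal) (hZC : Z ≤ C)
    {h : G} (hfix : ∀ δ : C →* ℂˣ, (∀ z : C, (z : G) ∈ Z → δ z = 1) → conjHom hC h δ = δ → δ = 1)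
    {ξ : C → ℂ} (hξ : conjOn hC h ξ = ξ) {δ : C →* ℂˣ} (hδ : ∀ z : C, (z : G) ∈ Z → δ z = 1)
    (hdiv : mulH (conjHom hC h δ * δ⁻¹) ξ = ξ) : mulH δ ξ = ξ := by
  classical
  have := finite_hom (K := C)
  -- admissibility is preserved
  have hadm : ∀ {a : C →* ℂˣ}, (∀ z : C, (z : G) ∈ Z → a z = 1) →
      ∀ z : C, (z : G) ∈ Z → conjHom hC h a z = 1 := by
    intro a ha z hz
    rw [conjHom_apply]
    exact ha _ (hZn.conj_mem _ hz h)
  let S : Subgroup (C →* ℂˣ) :=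
    { carrier := {a | (∀ z : C, (z : G) ∈ Z → a z = 1) ∧ mulH a ξ = ξ}
      one_mem' := ⟨fun z _ => rfl, mulH_one ξ⟩
      mul_mem' := by
        rintro a b ⟨ha, ha'⟩ ⟨hb, hb'⟩
        refine ⟨fun z hz => ?_, ?_⟩
        · rw [MonoidHom.mul_apply, ha z hz, hb z hz, one_mul]
        · rw [mulH_mul, hb', ha']
      inv_mem' := by
        rintro a ⟨ha, ha'⟩
        refine ⟨fun z hz => ?_, ?_⟩
        · rw [MonoidHom.inv_apply, ha z hz, inv_one]
        · have := mulH_inv_cancel a ξ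
          rwa [ha'] at this }
  have hSmem : ∀ a, a ∈ S ↔ (∀ z : C, (z : G) ∈ Z → a z = 1) ∧ mulH a ξ = ξ := fun _ => Iff.rfl
  -- `S` is stable under conjugation by `h`
  have hSconj : ∀ a ∈ S, conjHom hC h a ∈ S := by
    rintro a ⟨ha, ha'⟩
    refine ⟨hadm ha, ?_⟩
    have h1 := conjOn_mulH hC h a ξ
    rw [ha', hξ] at h1
    exact h1.symm
  let φ : S → S := fun a => ⟨conjHom hC h a * (a : C →* ℂˣ)⁻¹,
    S.mul_mem (hSconj a a.2) (S.inv_mem a.2)⟩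
  have hφinj : Function.Injective φ := by
    intro a b hab
    have h1 : conjHom hC h (a : C →* ℂˣ) * (a : C →* ℂˣ)⁻¹ =
        conjHom hC h (b : C →* ℂˣ) * (b : C →* ℂˣ)⁻¹ := congrArg Subtype.val hab
    have h2 : (a : C →* ℂˣ) * (b : C →* ℂˣ)⁻¹ = 1 := by
      apply hfix
      · intro z hz
        rw [MonoidHom.mul_apply, MonoidHom.inv_apply, a.2.1 z hz, b.2.1 z hz]
        simp
      · rw [conjHom_mul, conjHom_inv]
        exact hom_aux h1
    apply Subtype.ext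
    exact mul_inv_eq_one.mp h2
  have hφsurj := Finite.injective_iff_surjective.mp hφinj
  have hdivS : conjHom hC h δ * δ⁻¹ ∈ S := by
    refine ⟨fun z hz => ?_, hdiv⟩
    rw [MonoidHom.mul_apply, MonoidHom.inv_apply, hadm hδ z hz, hδ z hz]
    simp
  obtain ⟨σ, hσ⟩ := hφsurj ⟨_, hdivS⟩
  have h1 : conjHom hC h (σ : C →* ℂˣ) * (σ : C →* ℂˣ)⁻¹ = conjHom hC h δ * δ⁻¹ :=
    congrArg Subtype.val hσ
  have h2 : δ * (σ : C →* ℂˣ)⁻¹ = 1 := by
    apply hfix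
    · intro z hz
      rw [MonoidHom.mul_apply, MonoidHom.inv_apply, hδ z hz, σ.2.1 z hz]
      simp
    · rw [conjHom_mul, conjHom_inv]
      exact hom_aux h1.symm
  have h3 : δ = (σ : C →* ℂˣ) := mul_inv_eq_one.mp h2
  rw [h3]
  exact σ.2.2

/-- Admissible homomorphisms have no fixed point under an element outside `C`. -/
theorem conjHom_fix {C Z : Subgroup G} (hC : C.Normal) (hZn : Z.Normal) (hZC : Z ≤ C)
    {h : G} (hf : ∀ c ∈ C, h * c * h⁻¹ * c⁻¹ ∈ Z → c ∈ Z)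
    (δ : C →* ℂˣ) (hδ : ∀ z : C, (z : G) ∈ Z → δ z = 1) (hfix : conjHom hC h δ = δ) : δ = 1 := by
  classical
  ext ⟨c, hc⟩
  obtain ⟨b, hb, hbz⟩ := exists_comm_mod hZC hZn h (fun a ha => hC.conj_mem a ha h) hf c hc
  have hb' : h * b * h⁻¹ ∈ C := hC.conj_mem b hb h
  have h1 := hδ ⟨c⁻¹ * (h * b * h⁻¹ * b⁻¹), C.mul_mem (C.inv_mem hc) (C.mul_mem hb' (C.inv_mem hb))⟩ hbz
  have h2 : δ ⟨h * b * h⁻¹, hb'⟩ = δ ⟨b, hb⟩ := by
    have := DFunLike.congr_fun hfix ⟨b, hb⟩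
    rwa [conjHom_apply] at this
  have h3 : (⟨c⁻¹ * (h * b * h⁻¹ * b⁻¹), C.mul_mem (C.inv_mem hc) (C.mul_mem hb' (C.inv_mem hb))⟩ : C)
      = (⟨c, hc⟩ : C)⁻¹ * ((⟨h * b * h⁻¹, hb'⟩ : C) * (⟨b, hb⟩ : C)⁻¹) := rfl
  rw [h3, map_mul, map_mul, map_inv, map_inv, h2, mul_inv_cancel, mul_one] at h1
  have h4 : δ ⟨c, hc⟩ = 1 := inv_eq_one.mp h1
  simpa using h4

/-- The dichotomy. -/
theorem xlemma {C Z : Subgroup G} [Fintype C] (hC : C.Normal) (hZC : Z ≤ C) (hZn : Z.Normal)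
    (hab : ∀ a b : G, a * b * a⁻¹ * b⁻¹ ∈ C)
    (hCZ : ∀ a ∈ C, ∀ b ∈ C, a * b * a⁻¹ * b⁻¹ ∈ Z)
    (hfpf : ∀ h, h ∉ C → ∀ c ∈ C, h * c * h⁻¹ * c⁻¹ ∈ Z → c ∈ Z)
    (hnd : NoDiv G)
    {ξ : C → ℂ} (hξ : IsIrrCharacter C ξ) {χ : G → ℂ} (hχ : IsIrrCharacter G χ)
    (hχ1 : χ 1 ≠ 1) (hcon : classInner (fun n : C => χ n) ξ ≠ 0) :
    (∀ g, conjOn hC g ξ = ξ → g ∈ C) ∨
    (∀ δ : C →* ℂˣ, (∀ z : C, (z : G) ∈ Z → δ z = 1) → (fun c => (δ c : ℂ) * ξ c) = ξ) := by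
  classical
  by_cases hcase : ∀ g, conjOn hC g ξ = ξ → g ∈ C
  · exact Or.inl hcase
  right
  push Not at hcase
  obtain ⟨h₁, hh₁, hh₁C⟩ := hcase
  -- numerics for `χ`
  have hχc := isCharacter_of_isIrrCharacter hχ
  have hξc := isCharacter_of_isIrrCharacter hξ
  obtain ⟨e, t, hχdeg, hetdvd⟩ := dvd_index_of_constituent hC hξ hχ hcon
  obtain ⟨e', he', hsq⟩ := exists_sq_mul_index hC hab hχ hξ hcon
  have hdeg2 := deg_eq_of_constituent hC hχ hξ hcon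
  rw [he'] at hdeg2
  obtain ⟨d, hd⟩ := exists_deg_of_isCharacter hξc
  have hd0 : (d : ℂ) ≠ 0 := by
    rw [← hd]
    exact irr_one_ne_zero hξ
  have het : e * t = e' * (inertia hC ξ).index := by
    have h1 : ((e * t : ℕ) : ℂ) * ξ 1 = (e' : ℂ) * ((inertia hC ξ).index : ℂ) * ξ 1 := by
      rw [← hχdeg, hdeg2]
    rw [hd] at h1
    have h2 := mul_right_cancel₀ hd0 h1
    exact_mod_cast h2
  have hCidx : C.index ≠ 0 := Subgroup.index_ne_zero_of_finite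
  have hstab : Nat.card (stab C χ) ≤ C.index := by
    have := finite_hom (K := G)
    have h1 : Nat.card (stab C χ) ≤ Nat.card (dualOf C) :=
      Nat.card_mono (Set.toFinite _) (stab_le_dualOf C χ)
    rwa [card_dualOf hC hab] at h1
  have hle : C ≤ inertia hC ξ := le_inertia hC (isClassFunction_of_isIrrCharacter hξ)
  have hIne : inertia hC ξ ≠ C := fun h => hh₁C (by rw [← h]; exact hh₁)
  have htlt : (inertia hC ξ).index < C.index := by
    have h1 : C.relIndex (inertia hC ξ) * (inertia hC ξ).index = C.index :=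
      Subgroup.relIndex_mul_index hle
    have h2 : C.relIndex (inertia hC ξ) ≠ 1 := by
      intro h
      exact hIne (le_antisymm (Subgroup.relIndex_eq_one.mp h) hle)
    have h3 : C.relIndex (inertia hC ξ) ≠ 0 := by
      intro h
      rw [h, zero_mul] at h1
      exact hCidx h1.symm
    have h4 : 0 < (inertia hC ξ).index := Nat.pos_of_ne_zero (Subgroup.index_ne_zero_of_finite)
    nlinarith [Nat.lt_of_le_of_ne (Nat.pos_of_ne_zero h3) (Ne.symm h2)]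
  have hetlt : e * t < C.index := by
    rw [het]
    have hsq' : e' ^ 2 * (inertia hC ξ).index ≤ C.index := by
      rw [hsq]
      exact hstab
    rcases Nat.lt_or_ge e' 2 with h | h
    · interval_cases e'
      · have h4 : 0 < C.index := Nat.pos_of_ne_zero hCidx
        omega
      · simpa using htlt
    · have h4 : 0 < (inertia hC ξ).index := Nat.pos_of_ne_zero (Subgroup.index_ne_zero_of_finite)
      nlinarith
  -- Claim A
  have hA : ∀ δ : C →* ℂˣ, ∃ h, h ∉ C ∧ conjOn hC h (mulH δ ξ) = mulH δ ξ := by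
    intro δ
    by_contra hno
    push Not at hno
    have hin : ∀ g : G, conjOn hC g (mulH δ ξ) = mulH δ ξ → g ∈ C := by
      intro g hg
      by_contra hgC
      exact hno g hgC hg
    have hδirr : IsIrrCharacter C (mulH δ ξ) :=
      Cfsg.Agent.Lib.CharZeros.Gallagher.isIrrCharacter_mul_linear
        (isCharacter_of_isIrrCharacter (isIrrCharacter_of_hom δ)) (by simp)
        hξ
    have hind := isIrrCharacter_indFun_of_inertia_le hC hδirr hin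
    have hb1 : indFun C (mulH δ ξ) 1 = ((C.index * d : ℕ) : ℂ) := by
      rw [indFun_one]
      simp [mulH, hd]
    have hab' : charDegree (indFun C (mulH δ ξ)) = C.index * d :=
      charDegree_eq_of_eq_natCast hb1
    have hχdeg' : χ 1 = ((e * t * d : ℕ) : ℂ) := by
      rw [hχdeg, hd]
      push_cast
      ring
    have haa : charDegree χ = e * t * d := charDegree_eq_of_eq_natCast hχdeg'
    have hχpos : e * t * d ≠ 0 := by
      intro h
      rw [h] at hχdeg'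
      exact irr_one_ne_zero hχ (by simpa using hχdeg')
    have hχne1 : e * t * d ≠ 1 := by
      intro h
      rw [h] at hχdeg'
      exact hχ1 (by simpa using hχdeg')
    have hdpos : 0 < d := by
      rcases Nat.eq_zero_or_pos d with h | h
      · rw [h] at hd0
        simp at hd0
      · exact h
    refine hnd (e * t * d) ⟨⟨χ, hχ⟩, haa⟩ (C.index * d) ⟨⟨_, hind⟩, hab'⟩ ?_ ?_ ?_
    · omega
    · exact Nat.mul_lt_mul_of_pos_right hetlt hdpos
    · exact Nat.mul_dvd_mul_right hetdvd d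
  -- the final argument
  have hfixall : ∀ h, h ∉ C → ∀ δ : C →* ℂˣ, (∀ z : C, (z : G) ∈ Z → δ z = 1) →
      conjHom hC h δ = δ → δ = 1 := fun h hh δ hδ hfix =>
    conjHom_fix hC hZn hZC (hfpf h hh) δ hδ hfix
  have hadm : ∀ (h : G) {a : C →* ℂˣ}, (∀ z : C, (z : G) ∈ Z → a z = 1) →
      ∀ z : C, (z : G) ∈ Z → conjHom hC h a z = 1 := by
    intro h a ha z hz
    rw [conjHom_apply]
    exact ha _ (hZn.conj_mem _ hz h)
  intro δ hδ
  change mulH δ ξ = ξ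
  obtain ⟨h₂, hh₂, hh₂fix⟩ := hA δ
  rw [conjOn_mulH] at hh₂fix
  -- `ξ ^ h₂ = ε ξ`
  set ε : C →* ℂˣ := conjHom hC h₂ δ⁻¹ * δ with hε
  have hεadm : ∀ z : C, (z : G) ∈ Z → ε z = 1 := by
    intro z hz
    rw [hε, MonoidHom.mul_apply, hδ z hz, mul_one, conjHom_inv, MonoidHom.inv_apply,
      hadm h₂ hδ z hz, inv_one]
  have hξ2 : conjOn hC h₂ ξ = mulH ε ξ := by
    have h1 : conjOn hC h₂ ξ = mulH (conjHom hC h₂ δ)⁻¹ (mulH (conjHom hC h₂ δ) (conjOn hC h₂ ξ)) :=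
      (mulH_inv_cancel _ _).symm
    rw [hh₂fix] at h1
    rw [h1, hε, conjHom_inv, mulH_mul]
  -- commutation modulo `C`
  have hcomm : conjOn hC (h₁ * h₂) ξ = conjOn hC (h₂ * h₁) ξ := by
    have h1 : h₁ * h₂ = (h₁ * h₂ * h₁⁻¹ * h₂⁻¹) * (h₂ * h₁) := by group
    rw [h1, conjOn_mul, conjOn_of_mem hC (isClassFunction_of_isIrrCharacter hξ) (hab h₁ h₂)]
  rw [conjOn_mul, hh₁, conjOn_mul, hξ2, conjOn_mulH, hh₁] at hcomm
  -- `ε ^ h₁ / ε` stabilises `ξ`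
  have hε1 : mulH (conjHom hC h₁ ε * ε⁻¹) ξ = ξ := by
    rw [hom_mul_comm, mulH_mul, ← hcomm, mulH_inv_cancel]
  have hεS := stab_of_conj_div hC hZn hZC (hfixall h₁ hh₁C) hh₁ hεadm hε1
  have hξ3 : conjOn hC h₂ ξ = ξ := by rw [hξ2, hεS]
  have hδ1 : mulH (conjHom hC h₂ δ * δ⁻¹) ξ = ξ := by
    rw [hξ3] at hh₂fix
    rw [hom_mul_comm, mulH_mul, hh₂fix, mulH_inv_cancel]
  exact stab_of_conj_div hC hZn hZC (hfixall h₂ hh₂) hξ3 hδ hδ1

end Cfsg.Agent.Lib.NoDiv.XLemma
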