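import Cfsg.Agent.Lib.NoDiv.XLemma
import Cfsg.Agent.Lib.CharDeg.SmallDegree
import Cfsg.Agent.Lib.Char.Central
import Mathlib.Tactic

/-!
# No divisibility among character degrees: steps 7 and 8 (`W` central in `F`, the radical of the
commutator form)
-/

set_option autoImplicit false
set_option linter.unusedSectionVars false
set_option linter.style.haveILetI false

namespace Cfsg.Agent.Lib.NoDiv.Q78

open Cfsg Module Cfsg.Agent.Lib.NoDiv.Defs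
open Cfsg.Agent.Lib.Char.Basic Cfsg.Agent.Lib.Char.Ortho Cfsg.Agent.Lib.Char.Complete
open Cfsg.Agent.Lib.Char.Conj Cfsg.Agent.Lib.Char.Clifford Cfsg.Agent.Lib.Char.Induced
open Cfsg.Agent.Lib.Char.CliffordCorr Cfsg.Agent.Lib.Char.Linear Cfsg.Agent.Lib.Char.Degree
open Cfsg.Agent.Lib.Char.FreeAction Cfsg.Agent.Lib.Char.Central
open Cfsg.Agent.Lib.NoDiv.XLemma Cfsg.Agent.Lib.CharDeg.SmallDegree
open scoped ComplexConjugate

universe u

section abstract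

variable {X : Type u} [Group X] [Fintype X]

/-- A linear character over `lam` kills `lam` on the commutator subgroup. -/
theorem lam_of_linear {N : Subgroup X} [Fintype N] {ξ : X → ℂ} (hξ : IsIrrCharacter X ξ)
    (h1 : ξ 1 = 1) {lam : N →* ℂˣ}
    (hcon : classInner (fun n : N => ξ n) (fun n => (lam n : ℂ)) ≠ 0) (n : N)
    (hn : (n : X) ∈ commutator X) : lam n = 1 := by
  obtain ⟨β, hβ⟩ := exists_hom_of_deg_one (isCharacter_of_isIrrCharacter hξ) h1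
  have h2 : (fun n : N => ξ n) = fun n => (lam n : ℂ) :=
    eq_of_constituent_of_deg_le (isCharacter_restrict N (isCharacter_of_isIrrCharacter hξ))
      (isIrrCharacter_of_hom lam) hcon (a := 1) (b := 1) (by simpa using h1) (by simp) le_rfl
  have h3 := congrFun h2 n
  have h4 : β (n : X) = 1 := by
    have : commutator X ≤ β.ker := by
      rw [commutator_eq_closure, Subgroup.closure_le]
      rintro _ ⟨a, b, rfl⟩
      change β _ = 1
      simp only [commutatorElement_def, map_mul, map_inv]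
      rw [mul_comm (β a) (β b)]
      group
    exact this hn
  have h5 : ξ (n : X) = 1 := by rw [hβ]; simp [h4]
  rw [h5] at h3
  exact Units.ext h3.symm

/-- Schur: an element which is central modulo the kernel has nonzero value. -/
theorem ne_zero_of_comm {ξ : X → ℂ} (hξ : IsIrrCharacter X ξ) (x : X)
    (h : ∀ t, ξ (x * t * x⁻¹ * t⁻¹) = ξ 1) : ξ x ≠ 0 := by
  obtain ⟨n, ρ, hρ, rfl⟩ := hξ
  haveI := hρ
  have hcomm : ∀ t, ρ x * ρ t = ρ t * ρ x := fun t => by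
    have h1 : ρ (x * t * x⁻¹ * t⁻¹) = 1 := (character_eq_one_iff ρ _).1 (h t)
    have h2 : x * t = (x * t * x⁻¹ * t⁻¹) * (t * x) := by group
    rw [← map_mul, h2, map_mul, h1, one_mul, map_mul]
  obtain ⟨c, hc⟩ := schur_scalar ρ (ρ x) (fun g v => by
    have := congrArg (fun f : Module.End ℂ (Fin n → ℂ) => f v) (hcomm g)
    simpa [Module.End.mul_apply] using this)
  have hpos : 0 < finrank ℂ (Fin n → ℂ) := finrank_pos_of_irreducible ρ
  have h2 : ρ.character x = c * (finrank ℂ (Fin n → ℂ) : ℂ) := by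
    change LinearMap.trace ℂ _ (ρ x) = _
    rw [hc, map_smul]
    simp
  have hc0 : c ≠ 0 := by
    rintro rfl
    have h3 : ρ x⁻¹ * ρ x = 1 := by rw [← map_mul, inv_mul_cancel, map_one]
    rw [hc, zero_smul, mul_zero] at h3
    haveI := nontrivial_of_irreducible ρ
    exact zero_ne_one h3
  rw [h2]
  refine mul_ne_zero hc0 ?_
  exact_mod_cast hpos.ne'

/-- A central subgroup acts by scalars. -/
theorem restrict_central {N : Subgroup X} [Fintype N] (hN : N.Normal)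
    (hc : ∀ n ∈ N, ∀ t : X, t * n * t⁻¹ = n) {ξ : X → ℂ} (hξ : IsIrrCharacter X ξ)
    {lam : N →* ℂˣ} (hcon : classInner (fun n : N => ξ n) (fun n => (lam n : ℂ)) ≠ 0) (n : N) :
    ξ n = ξ 1 * lam n := by
  classical
  have hirr := isIrrCharacter_of_hom lam
  have horb : orbitFinset hN (fun n => (lam n : ℂ)) = {fun n => (lam n : ℂ)} := by
    ext φ
    rw [mem_orbitFinset, Finset.mem_singleton]
    constructor
    · rintro ⟨g, rfl⟩
      funext m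
      rw [conjOn_apply]
      have : (⟨g * m * g⁻¹, hN.conj_mem m m.2 g⟩ : N) = m := Subtype.ext (hc m m.2 g)
      rw [this]
    · rintro rfl
      exact ⟨1, conjOn_one hN _⟩
  have hc' := clifford_restrict hN hξ hirr hcon
  rw [horb, Finset.sum_singleton] at hc'
  have h1 := congrFun hc' 1
  have h2 := congrFun hc' n
  simp only [Pi.smul_apply, smul_eq_mul, map_one, Units.val_one, mul_one, OneMemClass.coe_one] at h1 h2
  rw [h2, h1]

/-- Separation of points modulo a subgroup with abelian quotient. -/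
theorem exists_sep {Z : Subgroup X} (hZ : Z.Normal) (hc : ∀ a b : X, a * b * a⁻¹ * b⁻¹ ∈ Z) {x : X}
    (hx : x ∉ Z) : ∃ δ : X →* ℂˣ, (∀ z ∈ Z, δ z = 1) ∧ δ x ≠ 1 := by
  haveI := hZ
  have hcomm : ∀ a b : X ⧸ Z, a * b = b * a := by
    intro a b
    induction a using QuotientGroup.induction_on with
    | H a =>
    induction b using QuotientGroup.induction_on with
    | H b =>
    rw [← QuotientGroup.mk_mul, ← QuotientGroup.mk_mul, QuotientGroup.eq]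
    have := hc b⁻¹ a⁻¹
    have h2 : (a * b)⁻¹ * (b * a) = b⁻¹ * a⁻¹ * b⁻¹⁻¹ * a⁻¹⁻¹ := by group
    rw [h2]
    exact this
  letI : CommGroup (X ⧸ Z) := { (inferInstance : Group (X ⧸ Z)) with mul_comm := hcomm }
  have h1 : (x : X ⧸ Z) ≠ 1 := fun h => hx ((QuotientGroup.eq_one_iff x).mp h)
  obtain ⟨φ, hφ⟩ := CommGroup.exists_apply_ne_one_of_hasEnoughRootsOfUnity (X ⧸ Z) ℂ h1
  refine ⟨φ.comp (QuotientGroup.mk' Z), fun z hz => ?_, hφ⟩
  have : (z : X ⧸ Z) = 1 := (QuotientGroup.eq_one_iff z).mpr hz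
  simp [this]

/-- `ξ δ = ξ`: `δ lam` is a conjugate of `lam`. -/
theorem exists_conj_of_twist {N : Subgroup X} [Fintype N] (hN : N.Normal) {ξ : X → ℂ}
    (hξ : IsIrrCharacter X ξ) {lam : N →* ℂˣ}
    (hcon : classInner (fun n : N => ξ n) (fun n => (lam n : ℂ)) ≠ 0) (δ : X →* ℂˣ)
    (hδ : (fun c => (δ c : ℂ) * ξ c) = ξ) :
    ∃ x : X, ∀ n : N, lam ⟨x * n * x⁻¹, hN.conj_mem n n.2 x⟩ = δ n * lam n := by
  classical
  let μ : N →* ℂˣ := (δ.comp N.subtype) * lam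
  have hμ : ∀ n, μ n = δ n * lam n := fun n => rfl
  by_contra hcon'
  push Not at hcon'
  have hne : ∀ g : X, conjOn hN g (fun n => (lam n : ℂ)) ≠ fun n => (μ n : ℂ) := by
    intro g hg
    obtain ⟨n, hn⟩ := hcon' g
    apply hn
    have := congrFun hg n
    rw [conjOn_apply] at this
    exact Units.ext (by rw [← hμ]; exact this)
  have h0 := classInner_restrict_eq_zero_of_not_conj hN hξ (isIrrCharacter_of_hom lam)
    (isIrrCharacter_of_hom μ) hcon hne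
  apply hcon
  rw [← h0]
  unfold classInner
  congr 1
  refine Finset.sum_congr rfl fun n _ => ?_
  have h1 := congrFun hδ (n : X)
  have h2 : ξ (n : X) * conj ((δ (n : X) : ℂˣ) : ℂ) = ξ (n : X) := by
    by_cases h : ξ (n : X) = 0
    · rw [h, zero_mul]
    · have : ((δ (n : X) : ℂˣ) : ℂ) = 1 := by
        have h3 : (((δ (n : X) : ℂˣ) : ℂ) - 1) * ξ (n : X) = 0 := by
          rw [sub_mul, one_mul, h1, sub_self]
        exact sub_eq_zero.1 ((mul_eq_zero.1 h3).resolve_right h)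
      rw [this, map_one, mul_one]
  change ξ (n : X) * conj ((lam n : ℂˣ) : ℂ) = ξ (n : X) * conj ((μ n : ℂˣ) : ℂ)
  rw [hμ, Units.val_mul, map_mul, ← mul_assoc, h2]

end abstract

section group

variable {Γ : Type u} [Group Γ] [Finite Γ]

/-- An element acting fixed point freely on the abelian normal subgroup `W`: `w ↦ [c, w]` is onto. -/
theorem surj_of_fpf {W : Subgroup Γ} (hWn : W.Normal) (hWab : ∀ a ∈ W, ∀ b ∈ W, a * b = b * a)
    (c : Γ) (hc : ∀ w ∈ W, c * w * c⁻¹ * w⁻¹ = 1 → w = 1) (v : Γ) (hv : v ∈ W) :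
    ∃ w ∈ W, c * w * c⁻¹ * w⁻¹ = v := by
  haveI := hWn
  letI : CommGroup W :=
    { (inferInstance : Group W) with
      mul_comm := fun a b => Subtype.ext (hWab a a.2 b b.2) }
  let ψ : W →* W := ((MulAut.conjNormal c : W ≃* W).toMonoidHom) / MonoidHom.id W
  have hψ : ∀ w : W, ((ψ w : W) : Γ) = c * w * c⁻¹ * w⁻¹ := fun w => by
    simp [ψ, div_eq_mul_inv, MulAut.conjNormal_apply]
  have hinj : Function.Injective ψ := (injective_iff_map_eq_one ψ).2 (fun w hw => by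
    apply Subtype.ext
    apply hc w w.2
    exact (hψ w).symm.trans (by rw [hw]; rfl))
  obtain ⟨w, hw⟩ := (Finite.injective_iff_surjective.1 hinj) ⟨v, hv⟩
  refine ⟨w, w.2, ?_⟩
  exact (hψ w).symm.trans (by rw [hw])

/-- `C_F(W)` is abelian when some `f` of `F` acts fixed point freely on `W`. -/
theorem cent_comm {F W : Subgroup Γ} (hWn : W.Normal) (hWab : ∀ a ∈ W, ∀ b ∈ W, a * b = b * a)
    (hW : W = ⁅F, F⁆) (f : Γ) (hf : f ∈ F) (hfpf : ∀ w ∈ W, f * w * f⁻¹ * w⁻¹ = 1 → w = 1)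
    {d₁ d₂ : Γ} (h₁ : d₁ ∈ F) (h₂ : d₂ ∈ F) (c₁ : ∀ w ∈ W, d₁ * w = w * d₁)
    (c₂ : ∀ w ∈ W, d₂ * w = w * d₂) : d₁ * d₂ = d₂ * d₁ := by
  have hcm : ∀ a ∈ F, ∀ b ∈ F, a * b * a⁻¹ * b⁻¹ ∈ W := fun a ha b hb => by
    rw [hW]
    exact Subgroup.commutator_mem_commutator ha hb
  -- each `d` is `t w⁻¹` with `t` commuting with `f`
  have key : ∀ d ∈ F, (∀ w ∈ W, d * w = w * d) → ∃ v ∈ W, f * (d * v) * f⁻¹ = d * v := by
    intro d hd hcd
    have hfd := hcm f hf d hd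
    obtain ⟨v, hv, hvd⟩ := surj_of_fpf hWn hWab f hfpf _ (W.inv_mem hfd)
    refine ⟨v, hv, ?_⟩
    have h1 : f * v * f⁻¹ = (f * d * f⁻¹ * d⁻¹)⁻¹ * v := by
      rw [← hvd]; group
    have h2 : f * (d * v) * f⁻¹ = (f * d * f⁻¹) * (f * v * f⁻¹) := by group
    rw [h2, h1]
    have hw' := W.inv_mem hfd
    have h3 : d * (f * d * f⁻¹ * d⁻¹)⁻¹ = (f * d * f⁻¹ * d⁻¹)⁻¹ * d := hcd _ hw'
    have e : (f * d * f⁻¹ * d⁻¹)⁻¹ = d * (f * d⁻¹ * f⁻¹) := by group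
    rw [e] at h3 ⊢
    have h3' : d * (f * d⁻¹ * f⁻¹) = (f * d⁻¹ * f⁻¹) * d :=
      mul_left_cancel (a := d) (by rw [h3]; group)
    rw [h3']
    group
  obtain ⟨v₁, hv₁, ht₁⟩ := key d₁ h₁ c₁
  obtain ⟨v₂, hv₂, ht₂⟩ := key d₂ h₂ c₂
  have hvF : W ≤ F := by
    rw [hW, Subgroup.commutator_le]
    intro a ha b hb
    rw [commutatorElement_def]
    exact F.mul_mem (F.mul_mem (F.mul_mem ha hb) (F.inv_mem ha)) (F.inv_mem hb)
  have ht₁F : d₁ * v₁ ∈ F := F.mul_mem h₁ (hvF hv₁)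
  have ht₂F : d₂ * v₂ ∈ F := F.mul_mem h₂ (hvF hv₂)
  have hc := hcm _ ht₁F _ ht₂F
  have hc1 : (d₁ * v₁) * (d₂ * v₂) * (d₁ * v₁)⁻¹ * (d₂ * v₂)⁻¹ = 1 := by
    apply hfpf _ hc
    have e : ∀ t, f * t * f⁻¹ * t⁻¹ = (f * t * f⁻¹) * t⁻¹ := fun t => rfl
    set t₁ := d₁ * v₁
    set t₂ := d₂ * v₂
    have e2 : f * (t₁ * t₂ * t₁⁻¹ * t₂⁻¹) * f⁻¹ =
        (f * t₁ * f⁻¹) * (f * t₂ * f⁻¹) * (f * t₁ * f⁻¹)⁻¹ * (f * t₂ * f⁻¹)⁻¹ := by group
    rw [e, e2, ht₁, ht₂]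
    group
  have hc2 : (d₁ * v₁) * (d₂ * v₂) = (d₂ * v₂) * (d₁ * v₁) := by
    have : (d₁ * v₁) * (d₂ * v₂) = ((d₁ * v₁) * (d₂ * v₂) * (d₁ * v₁)⁻¹ * (d₂ * v₂)⁻¹) * ((d₂ * v₂) * (d₁ * v₁)) := by
      group
    rw [this, hc1, one_mul]
  -- the `v`'s are central in the relevant products
  have c3 : v₁ * d₂ = d₂ * v₁ := (c₂ _ hv₁).symm
  have c4 : v₂ * d₁ = d₁ * v₂ := (c₁ _ hv₂).symm
  have c5 : v₁ * v₂ = v₂ * v₁ := hWab _ hv₁ _ hv₂
  have h5 : (d₁ * v₁) * (d₂ * v₂) = (d₁ * d₂) * (v₁ * v₂) := by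
    rw [mul_assoc d₁, ← mul_assoc v₁, c3, mul_assoc d₂, mul_assoc d₁]
  have h6 : (d₂ * v₂) * (d₁ * v₁) = (d₂ * d₁) * (v₁ * v₂) := by
    rw [c5, mul_assoc d₂, ← mul_assoc v₂, c4, mul_assoc d₁, mul_assoc d₂]
  rw [h5, h6] at hc2
  exact mul_right_cancel hc2

end group

section main

variable {Γ : Type u} [Group Γ] [Fintype Γ] {F Zt E W : Subgroup Γ}

/-- The consequences of the dichotomy for a nonlinear irreducible character of `F`. -/
theorem over_dich [Fintype F] (hF : F.Normal) (hZt : Zt.Normal) (hEdef : E = commutator Γ) (hEF : E ≤ F) (hZtF : Zt ≤ F)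
    (hFZt : ∀ a ∈ F, ∀ b ∈ F, a * b * a⁻¹ * b⁻¹ ∈ Zt)
    (hfpf : ∀ c, c ∉ F → ∀ f ∈ F, c * f * c⁻¹ * f⁻¹ ∈ Zt → f ∈ Zt)
    (hnd : NoDiv Γ) (hα : F.index ∈ charDegrees Γ) (hα1 : 1 < F.index)
    {ξ : F → ℂ} (hξ : IsIrrCharacter F ξ) (h1 : ξ 1 ≠ 1) :
    (∃ y, y ∉ F ∧ conjOn hF y ξ = ξ) ∧
    ∀ δ : F →* ℂˣ, (∀ z : F, (z : Γ) ∈ Zt → δ z = 1) → (fun c => (δ c : ℂ) * ξ c) = ξ := by
  classical
  have hab : ∀ a b : Γ, a * b * a⁻¹ * b⁻¹ ∈ F := fun a b => by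
    apply hEF
    rw [hEdef, commutator_def, ← commutatorElement_def]
    exact Subgroup.commutator_mem_commutator (Subgroup.mem_top a) (Subgroup.mem_top b)
  obtain ⟨χ, hχ, hcon⟩ := exists_irr_constituent_restrict F hξ
  obtain ⟨d, hd⟩ := exists_deg_of_isCharacter (isCharacter_of_isIrrCharacter hξ)
  have hd0 : d ≠ 0 := by
    rintro rfl
    exact irr_one_ne_zero hξ (by simpa using hd)
  have hd1 : d ≠ 1 := by
    rintro rfl
    exact h1 (by simpa using hd)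
  have hχ1 : χ 1 ≠ 1 := by
    intro h
    have := deg_le_of_constituent (isCharacter_restrict F (isCharacter_of_isIrrCharacter hχ)) hξ hcon
      (a := 1) (b := d) (by simpa using h) hd
    omega
  have hx := xlemma hF hZtF hZt hab hFZt hfpf hnd hξ hχ hχ1 hcon
  have hno : ¬ ∀ g, conjOn hF g ξ = ξ → g ∈ F := by
    intro hin
    have hirr := isIrrCharacter_indFun_of_inertia_le hF hξ hin
    have h2 : indFun F ξ 1 = ((F.index * d : ℕ) : ℂ) := by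
      rw [indFun_one, hd]
      push_cast
      ring
    have h3 : charDegree (indFun F ξ) = F.index * d := charDegree_eq_of_eq_natCast h2
    have hmem : F.index * d ∈ charDegrees Γ := ⟨⟨_, hirr⟩, h3⟩
    refine hnd _ hα _ hmem hα1 ?_ (Nat.dvd_mul_right _ _)
    have : 2 ≤ d := by omega
    nlinarith
  push Not at hno
  obtain ⟨y, hy, hyF⟩ := hno
  exact ⟨⟨y, hyF, hy⟩, hx.resolve_left (by
    intro hin
    exact hyF (hin y hy))⟩

theorem sep' {A : Type*} [Group A] [Finite A] (hc : ∀ a b : A, a * b = b * a) {a : A} (ha : a ≠ 1) :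
    ∃ ν : A →* ℂˣ, ν a ≠ 1 := by
  letI : CommGroup A := { (inferInstance : Group A) with mul_comm := hc }
  exact CommGroup.exists_apply_ne_one_of_hasEnoughRootsOfUnity A ℂ ha

/-- Steps 7 and 8. -/
theorem q78 {Γ : Type u} [Group Γ] [Fintype Γ] {F Zt E W : Subgroup Γ}
    (hF : F.Normal) (hZt : Zt.Normal) (hEdef : E = commutator Γ) (hEF : E ≤ F) (hZtF : Zt ≤ F)
    (hFZt : ∀ a ∈ F, ∀ b ∈ F, a * b * a⁻¹ * b⁻¹ ∈ Zt)
    (hfpf : ∀ c, c ∉ F → ∀ f ∈ F, c * f * c⁻¹ * f⁻¹ ∈ Zt → f ∈ Zt)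
    (hnd : NoDiv Γ) (hα : F.index ∈ charDegrees Γ) (hα1 : 1 < F.index)
    (hW : W = ⁅F, F⁆) (hW1 : W ≠ ⊥)
    (hWE : ∀ w ∈ W, ∀ e ∈ E, w * e * w⁻¹ * e⁻¹ = 1)
    (hsr : ∀ c : Γ, (∀ w ∈ W, c * w * c⁻¹ * w⁻¹ = 1) ∨ (∀ w ∈ W, c * w * c⁻¹ * w⁻¹ = 1 → w = 1))
    (hEZ : ∃ e ∈ E, e ∉ Zt) (hFEZ : ∀ f ∈ F, ∃ e ∈ E, ∃ ζ ∈ Zt, f = e * ζ) :
    (∀ f ∈ F, ∀ w ∈ W, f * w * f⁻¹ * w⁻¹ = 1) ∧
    ∀ ρ : W →* ℂˣ, ρ ≠ 1 → ∀ f ∈ F,
      (∀ e ∈ E, ∀ w : W, (w : Γ) = f * e * f⁻¹ * e⁻¹ → ρ w = 1) → f ∈ Zt := by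
  classical
  letI : Fintype F := Fintype.ofFinite _
  haveI := hF
  have hWn : W.Normal := by rw [hW]; exact Subgroup.commutator_normal F F
  have hcm : ∀ a ∈ F, ∀ b ∈ F, a * b * a⁻¹ * b⁻¹ ∈ W := fun a ha b hb => by
    rw [hW]
    exact Subgroup.commutator_mem_commutator ha hb
  have hWF : W ≤ F := by
    rw [hW, Subgroup.commutator_le]
    intro a ha b hb
    rw [commutatorElement_def]
    exact F.mul_mem (F.mul_mem (F.mul_mem ha hb) (F.inv_mem ha)) (F.inv_mem hb)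
  have hWE' : W ≤ E := by
    rw [hW, hEdef, Subgroup.commutator_le]
    intro a _ b _
    rw [commutator_def]
    exact Subgroup.commutator_mem_commutator (Subgroup.mem_top a) (Subgroup.mem_top b)
  have hcommE : ∀ a b : Γ, a * b * a⁻¹ * b⁻¹ ∈ E := fun a b => by
    rw [hEdef, commutator_def, ← commutatorElement_def]
    exact Subgroup.commutator_mem_commutator (Subgroup.mem_top a) (Subgroup.mem_top b)
  have of_comm : ∀ {a b : Γ}, a * b * a⁻¹ * b⁻¹ = 1 → a * b = b * a := fun {a b} h => by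
    have : a * b = (a * b * a⁻¹ * b⁻¹) * (b * a) := by group
    rw [this, h, one_mul]
  have hWab : ∀ a ∈ W, ∀ b ∈ W, a * b = b * a := fun a ha b hb => of_comm (hWE a ha b (hWE' hb))
  have hWZt : ∀ w ∈ W, w ∈ Zt := by
    have : W ≤ Zt := by
      rw [hW, Subgroup.commutator_le]
      intro a ha b hb
      rw [commutatorElement_def]
      exact hFZt a ha b hb
    exact fun w hw => this hw
  have hZt' : (Zt.subgroupOf F).Normal := hZt.subgroupOf F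
  have hsep : ∀ x : F, (x : Γ) ∉ Zt →
      ∃ δ : F →* ℂˣ, (∀ z : F, (z : Γ) ∈ Zt → δ z = 1) ∧ δ x ≠ 1 := by
    intro x hx
    obtain ⟨δ, h1, h2⟩ := exists_sep hZt' (fun a b => Subgroup.mem_subgroupOf.2 (by
      simpa using hFZt a a.2 b b.2)) (x := x) (fun h => hx (Subgroup.mem_subgroupOf.1 h))
    exact ⟨δ, fun z hz => h1 z (Subgroup.mem_subgroupOf.2 hz), h2⟩
  have hov : ∀ {ξ : F → ℂ}, IsIrrCharacter F ξ → ξ 1 ≠ 1 → _ := fun {ξ} hξ h1 =>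
    over_dich hF hZt hEdef hEF hZtF hFZt hfpf hnd hα hα1 (ξ := ξ) hξ h1
  have hcomm_mem : ∀ n : F, (n : Γ) ∈ W → n ∈ commutator F := by
    intro n hn
    rw [hW, ← Subgroup.map_subtype_commutator] at hn
    obtain ⟨m, hm, hmn⟩ := hn
    have : m = n := Subtype.ext hmn
    exact this ▸ hm
  have part1 : ∀ f ∈ F, ∀ w ∈ W, f * w * f⁻¹ * w⁻¹ = 1 := by
    intro f hf w0 hw0
    by_contra hne
    have hfp : ∀ w ∈ W, f * w * f⁻¹ * w⁻¹ = 1 → w = 1 := by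
      rcases hsr f with h | h
      · exact absurd (h w0 hw0) hne
      · exact h
    let D : Subgroup F := (Subgroup.centralizer (W : Set Γ)).subgroupOf F
    have hDmem : ∀ d : F, d ∈ D ↔ ∀ w ∈ W, (d : Γ) * w = w * d := fun d => by
      rw [Subgroup.mem_subgroupOf, Subgroup.mem_centralizer_iff]
      constructor
      · intro h w hw
        exact (h w hw).symm
      · intro h w hw
        exact (h w hw).symm
    have hDn : D.Normal := by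
      constructor
      intro d hd t
      rw [hDmem] at hd ⊢
      intro w hw
      have hw' := hWn.conj_mem w hw (t : Γ)⁻¹
      rw [inv_inv] at hw'
      have h1 := hd _ hw'
      change (t : Γ) * d * (t : Γ)⁻¹ * w = w * ((t : Γ) * d * (t : Γ)⁻¹)
      have h2 : (t : Γ) * d * (t : Γ)⁻¹ * w = t * ((d : Γ) * ((t : Γ)⁻¹ * w * t)) * (t : Γ)⁻¹ := by group
      have h3 : w * ((t : Γ) * d * (t : Γ)⁻¹) = t * (((t : Γ)⁻¹ * w * t) * d) * (t : Γ)⁻¹ := by group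
      rw [h2, h3, h1]
    have hDc : ∀ a b : D, a * b = b * a := by
      intro a b
      apply Subtype.ext
      apply Subtype.ext
      exact cent_comm hWn hWab hW f hf hfp a.1.2 b.1.2 ((hDmem _).1 a.2) ((hDmem _).1 b.2)
    letI : Fintype D := Fintype.ofFinite _
    obtain ⟨w1, hw1, hw1ne⟩ := W.bot_or_exists_ne_one.resolve_left hW1
    let w1D : D := ⟨⟨w1, hWF hw1⟩, (hDmem _).2 (fun w hw => hWab _ hw1 _ hw)⟩
    have hw1D : w1D ≠ 1 := fun h => hw1ne (congrArg (fun z : D => ((z : F) : Γ)) h)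
    obtain ⟨lam, hlam⟩ := sep' hDc hw1D
    obtain ⟨ξ, hξ, hcon⟩ := exists_irr_constituent_restrict D (isIrrCharacter_of_hom lam)
    have hξ1 : ξ 1 ≠ 1 := fun h => hlam (lam_of_linear hξ h hcon w1D (hcomm_mem _ hw1))
    obtain ⟨-, hδ⟩ := hov hξ hξ1
    obtain ⟨e, he, heZ⟩ := hEZ
    obtain ⟨δ, hδZ, hδe⟩ := hsep ⟨e, hEF he⟩ heZ
    obtain ⟨x, hx⟩ := exists_conj_of_twist hDn hξ hcon δ (hδ δ hδZ)
    have hlamW : ∀ n : D, ((n : F) : Γ) ∈ W →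
        lam ⟨x * n * x⁻¹, hDn.conj_mem n n.2 x⟩ = lam n := by
      intro n hn
      rw [hx, hδZ _ (hWZt _ hn), one_mul]
    have hxc : ∀ w ∈ W, (x : Γ) * w = w * x := by
      rcases hsr x with h | h
      · intro w hw
        exact of_comm (h w hw)
      · exfalso
        obtain ⟨w, hw, hwe⟩ := surj_of_fpf hWn hWab x h w1 hw1
        let wD : D := ⟨⟨w, hWF hw⟩, (hDmem _).2 (fun w' hw' => hWab _ hw _ hw')⟩
        have h1 : w1D = ⟨x * wD * x⁻¹, hDn.conj_mem wD wD.2 x⟩ * wD⁻¹ :=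
          Subtype.ext (Subtype.ext hwe.symm)
        apply hlam
        rw [h1, map_mul, map_inv, hlamW wD hw, mul_inv_cancel]
    have hxD : x ∈ D := (hDmem x).2 hxc
    let eD : D := ⟨⟨e, hEF he⟩, (hDmem _).2 (fun w hw => (of_comm (hWE w hw e he)).symm)⟩
    have h4 := hx eD
    have h5 : (⟨x * eD * x⁻¹, hDn.conj_mem eD eD.2 x⟩ : D) = eD := by
      have h6 := hDc ⟨x, hxD⟩ eD
      apply Subtype.ext
      have h7 : x * (eD : F) = (eD : F) * x := congrArg (fun z : D => (z : F)) h6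
      change x * (eD : F) * x⁻¹ = eD
      rw [h7]
      group
    rw [h5] at h4
    exact hδe (mul_right_cancel (b := lam eD) (by rw [one_mul]; exact h4.symm))
  refine ⟨part1, ?_⟩
  intro ρ hρ f hf hfE
  let W' : Subgroup F := W.subgroupOf F
  have hW'n : W'.Normal := hWn.subgroupOf F
  letI : Fintype W' := Fintype.ofFinite _
  let eqv : W' ≃* W := Subgroup.subgroupOfEquivOfLe hWF
  let ρ' : W' →* ℂˣ := ρ.comp eqv.toMonoidHom
  have hρ'v : ∀ n : W', ρ' n = ρ ⟨n.1.1, n.2⟩ := fun n => rfl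
  obtain ⟨ξ, hξ, hcon⟩ := exists_irr_constituent_restrict W' (isIrrCharacter_of_hom ρ')
  have hξ1 : ξ 1 ≠ 1 := fun h => hρ (by
    ext w
    have h1 := lam_of_linear hξ h hcon ⟨⟨w, hWF w.2⟩, w.2⟩ (hcomm_mem _ w.2)
    rw [hρ'v] at h1
    exact congrArg Units.val h1)
  obtain ⟨⟨y, hyF, hy⟩, hδ⟩ := hov hξ hξ1
  have hcentW' : ∀ n ∈ W', ∀ t : F, t * n * t⁻¹ = n := fun n hn t => by
    apply Subtype.ext
    have h1 := part1 t t.2 n hn
    have h2 : (t : Γ) * n * (t : Γ)⁻¹ = ((t : Γ) * n * (t : Γ)⁻¹ * (n : Γ)⁻¹) * n := by group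
    change (t : Γ) * n * (t : Γ)⁻¹ = n
    rw [h2, h1, one_mul]
  have hrc := restrict_central hW'n hcentW' hξ hcon
  have hξ0 : ξ 1 ≠ 0 := irr_one_ne_zero hξ
  have hyρ : ∀ w : W, ρ ⟨y * w * y⁻¹, hWn.conj_mem _ w.2 y⟩ = ρ w := by
    intro w
    have h1 := congrFun hy ⟨w, hWF w.2⟩
    rw [conjOn_apply] at h1
    have h2 := hrc ⟨⟨w, hWF w.2⟩, w.2⟩
    have h3 := hrc ⟨⟨y * w * y⁻¹, hF.conj_mem _ (hWF w.2) y⟩, hWn.conj_mem _ w.2 y⟩
    simp only at h2 h3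
    rw [h1] at h3
    rw [h2] at h3
    have h4 := mul_left_cancel₀ hξ0 h3
    exact (Units.ext h4).symm
  let B : F → F → ℂˣ := fun a b => ρ ⟨a * b * (a : Γ)⁻¹ * (b : Γ)⁻¹, hcm a a.2 b b.2⟩
  have hBl : ∀ a a' b : F, B (a * a') b = B a' b * B a b := by
    intro a a' b
    change ρ _ = ρ _ * ρ _
    rw [← map_mul]
    congr 1
    apply Subtype.ext
    have h1 := part1 a a.2 _ (hcm a' a'.2 b b.2)
    change ((a : Γ) * a') * b * ((a : Γ) * a')⁻¹ * (b : Γ)⁻¹ =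
      ((a' : Γ) * b * (a' : Γ)⁻¹ * (b : Γ)⁻¹) * ((a : Γ) * b * (a : Γ)⁻¹ * (b : Γ)⁻¹)
    have h2 : (a : Γ) * ((a' : Γ) * b * (a' : Γ)⁻¹ * (b : Γ)⁻¹) =
        ((a' : Γ) * b * (a' : Γ)⁻¹ * (b : Γ)⁻¹) * a := of_comm h1
    calc ((a : Γ) * a') * b * ((a : Γ) * a')⁻¹ * (b : Γ)⁻¹
        = ((a : Γ) * ((a' : Γ) * b * (a' : Γ)⁻¹ * (b : Γ)⁻¹)) * (b * (a : Γ)⁻¹ * (b : Γ)⁻¹) := by group
      _ = ((a' : Γ) * b * (a' : Γ)⁻¹ * (b : Γ)⁻¹) * a * (b * (a : Γ)⁻¹ * (b : Γ)⁻¹) := by rw [h2]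
      _ = _ := by group
  have hBr : ∀ a b b' : F, B a (b * b') = B a b * B a b' := by
    intro a b b'
    change ρ _ = ρ _ * ρ _
    rw [← map_mul]
    congr 1
    apply Subtype.ext
    have h1 := part1 b b.2 _ (hcm a a.2 b' b'.2)
    change (a : Γ) * (b * b') * (a : Γ)⁻¹ * ((b : Γ) * b')⁻¹ =
      ((a : Γ) * b * (a : Γ)⁻¹ * (b : Γ)⁻¹) * ((a : Γ) * b' * (a : Γ)⁻¹ * (b' : Γ)⁻¹)
    have h2 : (b : Γ) * ((a : Γ) * b' * (a : Γ)⁻¹ * (b' : Γ)⁻¹) =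
        ((a : Γ) * b' * (a : Γ)⁻¹ * (b' : Γ)⁻¹) * b := of_comm h1
    calc (a : Γ) * (b * b') * (a : Γ)⁻¹ * ((b : Γ) * b')⁻¹
        = ((a : Γ) * b * (a : Γ)⁻¹ * (b : Γ)⁻¹) * ((b : Γ) * ((a : Γ) * b' * (a : Γ)⁻¹ * (b' : Γ)⁻¹)) * (b : Γ)⁻¹ := by group
      _ = ((a : Γ) * b * (a : Γ)⁻¹ * (b : Γ)⁻¹) * (((a : Γ) * b' * (a : Γ)⁻¹ * (b' : Γ)⁻¹) * b) * (b : Γ)⁻¹ := by rw [h2]
      _ = _ := by group
  let fF : F := ⟨f, hf⟩
  let f' : F := ⟨y * f * y⁻¹, hF.conj_mem f hf y⟩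
  let f₁ : F := f' * fF⁻¹
  have hf' : f' = f₁ * fF := by simp [f₁]
  have hB1 : ∀ t : F, B f₁ t = 1 := by
    intro t
    let x : F := ⟨y⁻¹ * t * y⁻¹⁻¹, hF.conj_mem t t.2 y⁻¹⟩
    let e : F := x⁻¹ * t
    have hxe : t = x * e := by simp [e]
    have he : (e : Γ) ∈ E := by
      have h1 := hcommE y⁻¹ (t : Γ)⁻¹
      have h2 : (e : Γ) = y⁻¹ * (t : Γ)⁻¹ * y⁻¹⁻¹ * (t : Γ)⁻¹⁻¹ := by
        change (y⁻¹ * t * y⁻¹⁻¹)⁻¹ * (t : Γ) = _
        group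
      rw [h2]
      exact h1
    have hfe : B fF e = 1 := hfE e he _ rfl
    have h2 : B fF t = B fF x := by
      rw [hxe, hBr, hfe, mul_one]
    have h3 : B f' t = B fF x := by
      have h4 := hyρ ⟨_, hcm fF fF.2 x x.2⟩
      refine Eq.trans ?_ h4
      change ρ _ = ρ _
      congr 1
      apply Subtype.ext
      change (y * f * y⁻¹) * (t : Γ) * (y * f * y⁻¹)⁻¹ * (t : Γ)⁻¹ =
        y * (f * (y⁻¹ * t * y⁻¹⁻¹) * f⁻¹ * (y⁻¹ * t * y⁻¹⁻¹)⁻¹) * y⁻¹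
      group
    have h4 : B f' t = B fF t * B f₁ t := by rw [hf', hBl]
    rw [h3, h2] at h4
    exact (mul_left_cancel (a := B fF x) (by rw [mul_one]; exact h4)).symm
  have hne : ξ f₁ ≠ 0 := by
    refine ne_zero_of_comm hξ f₁ (fun t => ?_)
    have h1 := hrc ⟨f₁ * t * f₁⁻¹ * t⁻¹, hcm f₁ f₁.2 t t.2⟩
    simp only at h1
    rw [h1, hρ'v]
    have h2 : ρ ⟨((f₁ * t * f₁⁻¹ * t⁻¹ : F) : Γ), hcm f₁ f₁.2 t t.2⟩ = 1 := hB1 t
    rw [h2]
    simp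
  by_contra hfZ
  have hf₁ : (f₁ : Γ) ∉ Zt := fun h => hfZ (hfpf y hyF f hf h)
  obtain ⟨δ, hδZ, hδ1⟩ := hsep f₁ hf₁
  have h := congrFun (hδ δ hδZ) f₁
  exact hδ1 (Units.ext (by
    have h2 : ((δ f₁ : ℂˣ) : ℂ) * ξ f₁ = 1 * ξ f₁ := by rw [one_mul]; exact h
    simpa using mul_right_cancel₀ hne h2))

end main

end Cfsg.Agent.Lib.NoDiv.Q78
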