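import Cfsg.Agent.Lib.NoDiv.Defs
import Cfsg.Agent.Lib.Char.RelDiam
import Cfsg.Agent.Lib.Char.DegDvd
import Cfsg.Agent.Lib.Char.OneDiv
import Cfsg.Agent.Lib.CharDeep.GallagherExt
import Cfsg.Agent.Lib.OddChar.Inertia
import Mathlib.Tactic

/-!
# No divisibility among degrees: module CaseA

`Γ` with a normal `p`-complement `L`, no divisibility among degrees and `Γ / L` nonabelian has a
single nonlinear degree.
-/

set_option autoImplicit false
set_option linter.unusedSectionVars false
set_option linter.unusedVariables false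
set_option linter.style.haveILetI false
set_option linter.style.longLine false

namespace Cfsg.Agent.Lib.NoDiv.CaseA

open Cfsg Module Cfsg.Agent.Lib.NoDiv.Defs
open Cfsg.Agent.Lib.Char.Basic Cfsg.Agent.Lib.Char.Ortho Cfsg.Agent.Lib.Char.Complete
open Cfsg.Agent.Lib.Char.Conj Cfsg.Agent.Lib.Char.Clifford Cfsg.Agent.Lib.Char.Induced
open Cfsg.Agent.Lib.Char.IndRep
open Cfsg.Agent.Lib.Char.CliffordCorr Cfsg.Agent.Lib.Char.Linear Cfsg.Agent.Lib.Char.Degree
open Cfsg.Agent.Lib.Char.RelGraph Cfsg.Agent.Lib.Char.DegDvd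
open Cfsg.Agent.Lib.CharDeep.GallagherExt
open Cfsg.Agent.Lib.OddChar.Inertia

universe u

section Aux

variable {G : Type u} [Group G] [Fintype G] {N : Subgroup G}

/-- A character trivial on `N` is invariant under multiplication by `N`. -/
theorem leftInv_of_triv {β : G → ℂ} (hβ : IsCharacter G β) (h : ∀ n : N, β n = β 1) :
    LeftInv N β := by
  intro n g
  obtain ⟨φ, -, hφ⟩ := exists_quotient_character hβ
  have h1 : ((n : G) : G ⧸ charKer hβ) = 1 := (QuotientGroup.eq_one_iff _).mpr (h n)
  rw [hφ]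
  simp only [Function.comp]
  rw [QuotientGroup.mk_mul, h1, one_mul]

/-- The degree of an irreducible character trivial on `N` divides the index. -/
theorem deg_dvd_index_of_triv (hN : N.Normal) {χ : G → ℂ} (hχ : IsIrrCharacter G χ)
    (htriv : ∀ n : N, χ n = χ 1) : charDegree χ ∣ N.index := by
  classical
  letI : Fintype N := Fintype.ofFinite _
  have hone : IsIrrCharacter N (fun _ => (1 : ℂ)) :=
    Cfsg.Agent.Lib.Char.OneDiv.isIrr_one N
  have h1 : (fun n : N => χ n) = (χ 1) • (fun _ : N => (1 : ℂ)) := by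
    funext n
    simp [htriv n]
  have hcon : classInner (fun n : N => χ n) (fun _ => (1 : ℂ)) ≠ 0 := by
    rw [h1, classInner_smul_left, classInner_self_of_isIrr hone, mul_one]
    exact irr_one_ne_zero hχ
  obtain ⟨e, t, he, hdvd⟩ := dvd_index_of_constituent hN hone hχ hcon
  have h2 : χ 1 = ((e * t : ℕ) : ℂ) := by
    rw [he, mul_one]
  rw [charDegree_eq_of_eq_natCast h2]
  exact hdvd

/-- A constituent of `β^G` has degree at most `|G : I| β(1)`. -/
theorem deg_le_index_mul (I : Subgroup G) [Fintype I] {ν : G → ℂ} (hν : IsIrrCharacter G ν)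
    {β : I → ℂ} (hβ : IsIrrCharacter I β) (h : classInner (fun i : I => ν i) β ≠ 0) :
    charDegree ν ≤ I.index * charDegree β := by
  have hβc := isCharacter_of_isIrrCharacter hβ
  have h1 : classInner (indFun I β) ν ≠ 0 := by
    rw [classInner_indFun_left I β ν (isClassFunction_of_isIrrCharacter hν)]
    exact classInner_ne_zero_comm h
  refine deg_le_of_constituent (isCharacter_indFun I hβc) hν h1 ?_
    (charDegree_natCast (isCharacter_of_isIrrCharacter hν)).symm
  rw [indFun_one, ← charDegree_natCast hβc]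
  push_cast
  rfl

end Aux

/-- Module CaseA of `Lib/NoDiv`. -/
theorem case_a {Γ : Type u} [Group Γ] [Fintype Γ] {p : ℕ} (hp : p.Prime)
    (hdeg : ∀ ξ : IrrCharacter Γ, (ξ : Γ → ℂ) 1 = 1 ∨ p ∣ charDegree (ξ : Γ → ℂ))
    (hnd : NoDiv Γ) (L : Subgroup Γ) (hL : L.Normal) (hLk : ∃ k, L.index = p ^ k)
    (hLp : ¬ p ∣ Nat.card L) (hnab : ¬ commutator Γ ≤ L) :
    ∃ x, ∀ ξ : IrrCharacter Γ, (ξ : Γ → ℂ) 1 ≠ 1 → charDegree (ξ : Γ → ℂ) = x := by
  classical
  obtain ⟨k, hk⟩ := hLk
  letI : Fintype L := Fintype.ofFinite _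
  haveI : L.Normal := hL
  -- a nonlinear character with `L` in its kernel
  obtain ⟨χ₀, hχ₀, hχ₀L, hχ₀d⟩ : ∃ χ₀ : Γ → ℂ, IsIrrCharacter Γ χ₀ ∧ (∀ n : L, χ₀ n = χ₀ 1) ∧
      1 < charDegree χ₀ := by
    have hnc : ¬ ∀ a b : Γ ⧸ L, a * b = b * a := by
      intro hc
      apply hnab
      rw [commutator_def, Subgroup.commutator_le]
      intro a _ b _
      rw [← QuotientGroup.eq_one_iff]
      have := hc (a : Γ ⧸ L) (b : Γ ⧸ L)
      rw [commutatorElement_def]
      have h5 : ((a * b * a⁻¹ * b⁻¹ : Γ) : Γ ⧸ L) =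
          (a : Γ ⧸ L) * (b : Γ ⧸ L) * (a : Γ ⧸ L)⁻¹ * (b : Γ ⧸ L)⁻¹ := rfl
      rw [h5, this]
      group
    rw [comm_iff_all_deg_one] at hnc
    push Not at hnc
    obtain ⟨ν, hν⟩ := hnc
    have hirr := Cfsg.Agent.Lib.Char.Linear.isIrrCharacter_comp (QuotientGroup.mk' L)
      (QuotientGroup.mk'_surjective L) ν.2
    refine ⟨_, hirr, ?_, ?_⟩
    · intro n
      have h1 : QuotientGroup.mk' L (n : Γ) = 1 := (QuotientGroup.eq_one_iff _).mpr n.2
      simp only [Function.comp, h1, map_one]
    · have h1 := charDegree_pos hirr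
      have h2 := charDegree_natCast (isCharacter_of_isIrrCharacter hirr)
      have h3 : charDegree ((ν : Γ ⧸ L → ℂ) ∘ QuotientGroup.mk' L) ≠ 1 := by
        intro h
        rw [h] at h2
        apply hν
        have h4 : ((ν : Γ ⧸ L → ℂ) ∘ QuotientGroup.mk' L) 1 = (ν : Γ ⧸ L → ℂ) 1 := by simp
        rw [← h4, ← h2]
        simp
      omega
  -- all such characters have the same degree
  have hp1 := hp.one_lt
  have huniq : ∀ χ : Γ → ℂ, IsIrrCharacter Γ χ → (∀ n : L, χ n = χ 1) → 1 < charDegree χ →
      charDegree χ = charDegree χ₀ := by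
    intro χ hχ hχL hχd
    have h1 := deg_dvd_index_of_triv hL hχ hχL
    have h2 := deg_dvd_index_of_triv hL hχ₀ hχ₀L
    rw [hk] at h1 h2
    obtain ⟨a, -, ha⟩ := (Nat.dvd_prime_pow hp).1 h1
    obtain ⟨b, -, hb⟩ := (Nat.dvd_prime_pow hp).1 h2
    have hm1 : charDegree χ ∈ charDegrees Γ := ⟨⟨χ, hχ⟩, rfl⟩
    have hm2 : charDegree χ₀ ∈ charDegrees Γ := ⟨⟨χ₀, hχ₀⟩, rfl⟩
    rcases lt_trichotomy a b with hab | hab | hab
    · exfalso
      apply hnd _ hm1 _ hm2 hχd
      · rw [ha, hb]
        exact Nat.pow_lt_pow_right hp1 hab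
      · rw [ha, hb]
        exact pow_dvd_pow p hab.le
    · rw [ha, hb, hab]
    · exfalso
      apply hnd _ hm2 _ hm1 hχ₀d
      · rw [ha, hb]
        exact Nat.pow_lt_pow_right hp1 hab
      · rw [ha, hb]
        exact pow_dvd_pow p hab.le
  refine ⟨charDegree χ₀, ?_⟩
  intro ξ₀ hξ₀1
  obtain ⟨ξ, hξ⟩ := ξ₀
  change ξ 1 ≠ 1 at hξ₀1
  change charDegree ξ = charDegree χ₀
  have hξd : 1 < charDegree ξ := by
    have h1 := charDegree_pos hξ
    have h2 := charDegree_natCast (isCharacter_of_isIrrCharacter hξ)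
    have h3 : charDegree ξ ≠ 1 := by
      intro h
      rw [h] at h2
      apply hξ₀1
      rw [← h2]
      simp
    omega
  have hm0 : charDegree χ₀ ∈ charDegrees Γ := ⟨⟨χ₀, hχ₀⟩, rfl⟩
  have hmξ : charDegree ξ ∈ charDegrees Γ := ⟨⟨ξ, hξ⟩, rfl⟩
  -- it suffices that `α` divides the degree
  suffices hsuff : charDegree χ₀ ∣ charDegree ξ by
    have h1 : ¬ charDegree χ₀ < charDegree ξ := fun hlt => hnd _ hm0 _ hmξ hχ₀d hlt hsuff
    have h2 := Nat.le_of_dvd (charDegree_pos hξ) hsuff
    omega
  -- a constituent on `L`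
  have hresc : IsClassFunction L (fun n : L => ξ n) :=
    isClassFunction_of_isCharacter (isCharacter_restrict L (isCharacter_of_isIrrCharacter hξ))
  have hresne : (fun n : L => ξ n) ≠ 0 := by
    intro h
    have h1 := congrFun h 1
    exact irr_one_ne_zero hξ (by simpa using h1)
  obtain ⟨θ, hθ, hcon⟩ := exists_irr_constituent hresc hresne
  let T : Subgroup Γ := inertia hL θ
  have hNT : L ≤ T := le_inertia hL (isClassFunction_of_isIrrCharacter hθ)
  letI : Fintype T := Fintype.ofFinite _
  obtain ⟨ψ, hψ, hψξ, hψe⟩ := exists_irr_inertia_of_lies_over hL hNT hθ rfl hξ hcon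
  -- transport to `T`
  let L' : Subgroup T := L.subgroupOf T
  have hL' : L'.Normal := hL.subgroupOf T
  haveI : L'.Normal := hL'
  let eqv : L' ≃* L := Subgroup.subgroupOfEquivOfLe hNT
  let θ' : L' → ℂ := θ ∘ eqv
  have hθ' : IsIrrCharacter L' θ' := isIrrCharacter_comp_mulEquiv eqv hθ
  letI : Fintype L' := Fintype.ofFinite _
  have hres : (fun n : L' => ψ n) = res hNT ψ ∘ eqv := by
    funext n
    rfl
  have hinner : classInner (fun n : L' => ψ n) θ' = classInner (res hNT ψ) θ := by
    rw [hres]
    exact classInner_comp_mulEquiv eqv _ _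
  have hinv' : ∀ t : T, conjOn hL' t θ' = θ' := by
    intro t
    funext n
    have : conjOn hL t θ (eqv n) = θ (eqv n) := congrFun t.2 (eqv n)
    rw [conjOn_apply] at this
    exact (congrArg θ (Subtype.ext rfl)).trans this
  have hcon' : classInner (fun n : L' => ψ n) θ' ≠ 0 := by
    rw [hinner, hψe]
    exact hcon
  have hidx : L'.index * T.index = L.index := Subgroup.relIndex_mul_index hNT
  have hcop : Nat.Coprime (Nat.card L') L'.index := by
    have h1 : Nat.card L' = Nat.card L := Nat.card_congr eqv.toEquiv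
    have h2 : L'.index ∣ p ^ k := by
      rw [← hk, ← hidx]
      exact Dvd.intro _ rfl
    rw [h1]
    refine Nat.Coprime.coprime_dvd_right h2 ?_
    exact (Nat.Coprime.pow_left k ((Nat.Prime.coprime_iff_not_dvd hp).2 hLp)).symm
  obtain ⟨τ, hτ, hτθ⟩ := exists_ext_of_coprime hL' hθ' hinv' hcop
  have hτeq : (fun n : L' => τ n) = θ' := funext hτθ
  have hτres : IsIrrCharacter L' (fun n : L' => τ n) := by
    rw [hτeq]
    exact hθ'
  have hτc := isCharacter_of_isIrrCharacter hτ
  obtain ⟨β, hβ, hβL, hψβ⟩ := exists_mul_of_lies_over hL' hτ hτres hψ (by rw [hτeq]; exact hcon')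
  -- degrees
  have hξdeg : charDegree ξ = T.index * (charDegree β * charDegree τ) := by
    have h1 : ξ 1 = (T.index : ℂ) * ψ 1 := by
      rw [← hψξ, indFun_one]
    have h2 : ψ 1 = β 1 * τ 1 := by
      rw [hψβ]
      rfl
    have h3 : (charDegree ξ : ℂ) = ((T.index * (charDegree β * charDegree τ) : ℕ) : ℂ) := by
      rw [charDegree_natCast (isCharacter_of_isIrrCharacter hξ), h1, h2]
      push_cast
      rw [charDegree_natCast (isCharacter_of_isIrrCharacter hβ), charDegree_natCast hτc]
    exact_mod_cast h3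
  -- the key divisibility
  have hS1 : ∀ (β' : T → ℂ), IsIrrCharacter T β' → (∀ n : L', β' n = β' 1) →
      ∀ ν : Γ → ℂ, IsIrrCharacter Γ ν → (∀ n : L, ν n = ν 1) → 1 < charDegree ν →
      classInner (fun i : T => ν i) β' ≠ 0 → charDegree χ₀ ∣ T.index * charDegree β' := by
    intro β' hβ' hβ'L ν hν hνL hνd hov
    rw [← huniq ν hν hνL hνd]
    have h1 := deg_le_index_mul T hν hβ' hov
    have h2 := deg_dvd_index_of_triv hL' hβ' hβ'L
    have h3 := deg_dvd_index_of_triv hL hν hνL
    have h4 : T.index * charDegree β' ∣ p ^ k := by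
      rw [← hk, ← hidx, mul_comm]
      exact Nat.mul_dvd_mul_right h2 _
    rw [hk] at h3
    obtain ⟨a, -, ha⟩ := (Nat.dvd_prime_pow hp).1 h3
    obtain ⟨b, -, hb⟩ := (Nat.dvd_prime_pow hp).1 h4
    rw [ha, hb] at h1 ⊢
    exact pow_dvd_pow p ((Nat.pow_le_pow_iff_right hp1).1 h1)
  have hfin : ∀ (β' : T → ℂ), charDegree β' ∣ charDegree β →
      charDegree χ₀ ∣ T.index * charDegree β' → charDegree χ₀ ∣ charDegree ξ := by
    intro β' h1 h2
    rw [hξdeg]
    refine h2.trans ?_
    rw [← mul_assoc]
    exact Dvd.dvd.mul_right (Nat.mul_dvd_mul_left _ h1) _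
  by_cases hP : ∃ β' : T → ℂ, IsIrrCharacter T β' ∧ (∀ n : L', β' n = β' 1) ∧ 1 < charDegree β'
  · by_cases hb1 : 1 < charDegree β
    · -- `ν` over `β`
      have hβc := isCharacter_of_isIrrCharacter hβ
      have hne : indFun T β ≠ 0 := by
        intro h
        have h1 := congrFun h 1
        rw [indFun_one] at h1
        have h3 : (T.index : ℂ) ≠ 0 := by
          exact_mod_cast Subgroup.index_ne_zero_of_finite
        exact (mul_ne_zero h3 (irr_one_ne_zero hβ)) h1
      obtain ⟨ν, hν, hνc⟩ := exists_irr_constituent (isClassFunction_indFun T β) hne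
      have hov : classInner (fun i : T => ν i) β ≠ 0 := by
        rw [classInner_indFun_left T β ν (isClassFunction_of_isIrrCharacter hν)] at hνc
        exact classInner_ne_zero_comm hνc
      have hνL : ∀ n : L, ν n = ν 1 := by
        apply apply_eq_one_of_constituent_one hL hν
        rw [classInner_indFun_left L _ ν (isClassFunction_of_isIrrCharacter hν)]
        apply classInner_ne_zero_comm
        refine Cfsg.Agent.Lib.Char.RelDiam.over_trans hNT hν hβ
          (Cfsg.Agent.Lib.Char.OneDiv.isIrr_one L) hov ?_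
        have h5 : Cfsg.Agent.Lib.Char.RelDiam.res hNT β = (β 1) • (fun _ : L => (1 : ℂ)) := by
          funext n
          have := hβL (eqv.symm n)
          simp only [Pi.smul_apply, smul_eq_mul, mul_one]
          exact (congrArg β (Subtype.ext rfl)).trans this
        rw [h5, classInner_smul_left, classInner_self_of_isIrr (Cfsg.Agent.Lib.Char.OneDiv.isIrr_one L), mul_one]
        exact irr_one_ne_zero hβ
      have hνd : 1 < charDegree ν := by
        refine lt_of_lt_of_le hb1 ?_
        exact deg_le_of_constituent (isCharacter_restrict T (isCharacter_of_isIrrCharacter hν)) hβ hov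
          (by simpa using (charDegree_natCast (isCharacter_of_isIrrCharacter hν)).symm)
          (charDegree_natCast hβc).symm
      exact hfin β dvd_rfl (hS1 β hβ hβL ν hν hνL hνd hov)
    · -- contradiction to no divisibility
      exfalso
      obtain ⟨β', hβ', hβ'L, hβ'd⟩ := hP
      have hβpos := charDegree_pos hβ
      have hb : charDegree β = 1 := by omega
      have hψ' : IsIrrCharacter T (τ * β') :=
        isIrr_mul L' hτc hτres hβ' (leftInv_of_triv (isCharacter_of_isIrrCharacter hβ') hβ'L)
      have hres2 : res hNT (τ * β') = (β' 1) • θ := by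
        funext n
        have h1 := hτθ (eqv.symm n)
        have h2 := hβ'L (eqv.symm n)
        have h3 : θ' (eqv.symm n) = θ n := by
          simp [θ']
        rw [h3] at h1
        have h4 : τ ⟨n, hNT n.2⟩ = θ n := (congrArg τ (Subtype.ext rfl)).trans h1
        have h5 : β' ⟨n, hNT n.2⟩ = β' 1 := (congrArg β' (Subtype.ext rfl)).trans h2
        simp only [res, Pi.mul_apply, Pi.smul_apply, smul_eq_mul]
        rw [h4, h5, mul_comm]
      have hcon2 : classInner (res hNT (τ * β')) θ ≠ 0 := by
        rw [hres2, classInner_smul_left, classInner_self_of_isIrr hθ, mul_one]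
        exact irr_one_ne_zero hβ'
      obtain ⟨hirr, -⟩ := isIrrCharacter_indFun_of_lies_over hL hNT hθ rfl hψ' hcon2
      have hdeg2 : charDegree (indFun T (τ * β')) = T.index * (charDegree τ * charDegree β') := by
        have h1 := charDegree_natCast (isCharacter_of_isIrrCharacter hirr)
        rw [indFun_one] at h1
        have h2 : (charDegree (indFun T (τ * β')) : ℂ) =
            ((T.index * (charDegree τ * charDegree β') : ℕ) : ℂ) := by
          rw [h1]
          push_cast
          rw [charDegree_natCast (isCharacter_of_isIrrCharacter hβ'), charDegree_natCast hτc]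
          rfl
        exact_mod_cast h2
      have hm2 : charDegree (indFun T (τ * β')) ∈ charDegrees Γ := ⟨⟨_, hirr⟩, rfl⟩
      have hξ2 : charDegree ξ = T.index * charDegree τ := by
        rw [hξdeg, hb, one_mul]
      apply hnd _ hmξ _ hm2 hξd
      · rw [hdeg2, hξ2, ← mul_assoc]
        have : 0 < T.index * charDegree τ := by
          rw [← hξ2]
          omega
        exact lt_mul_of_one_lt_right this hβ'd
      · rw [hdeg2, hξ2, ← mul_assoc]
        exact Dvd.intro _ rfl
  · -- all characters of `T / L'` are linear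
    push Not at hP
    have hresχ : IsClassFunction T (fun n : T => χ₀ n) :=
      isClassFunction_of_isCharacter (isCharacter_restrict T (isCharacter_of_isIrrCharacter hχ₀))
    have hresne2 : (fun n : T => χ₀ n) ≠ 0 := by
      intro h
      have h1 := congrFun h 1
      exact irr_one_ne_zero hχ₀ (by simpa using h1)
    obtain ⟨β', hβ', hcβ'⟩ := exists_irr_constituent hresχ hresne2
    have hβ'c := isCharacter_of_isIrrCharacter hβ'
    have hβ'L : ∀ n : L', β' n = β' 1 := by
      apply apply_eq_one_of_constituent_one hL' hβ'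
      rw [classInner_indFun_left L' _ β' (isClassFunction_of_isIrrCharacter hβ')]
      apply classInner_ne_zero_comm
      -- a constituent of `β'` on `L'`
      have hresc3 : IsClassFunction L' (fun n : L' => β' n) :=
        isClassFunction_of_isCharacter (isCharacter_restrict L' hβ'c)
      have hresne3 : (fun n : L' => β' n) ≠ 0 := by
        intro h
        have h1 := congrFun h 1
        exact irr_one_ne_zero hβ' (by simpa using h1)
      obtain ⟨η, hη, hcη⟩ := exists_irr_constituent hresc3 hresne3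
      have h6 := classInner_ne_zero_mono L'.subtype (Ψ := fun n : T => χ₀ n)
        (isCharacter_restrict T (isCharacter_of_isIrrCharacter hχ₀)) hβ' hcβ'
        (isCharacter_of_isIrrCharacter hη) hcη
      have h7 : η = fun _ => (1 : ℂ) := by
        refine Cfsg.Agent.Lib.Char.OneDiv.eq_one_of_ker (χ := fun n : T => χ₀ n) ?_ hη h6
        intro n
        have := hχ₀L (eqv n)
        exact (congrArg χ₀ (by rfl)).trans this
      rw [h7] at hcη
      exact hcη
    have hbp' := charDegree_pos hβ'
    have hb1 : charDegree β' = 1 := by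
      have := hP β' hβ' hβ'L
      omega
    have hb2 : charDegree β = 1 := by
      have := hP β hβ hβL
      have := charDegree_pos hβ
      omega
    have h8 := hS1 β' hβ' hβ'L χ₀ hχ₀ hχ₀L hχ₀d hcβ'
    exact hfin β' (by rw [hb1, hb2]) h8

end Cfsg.Agent.Lib.NoDiv.CaseA
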