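import Cfsg.Agent.Lib.NoDiv.XLemma
import Cfsg.Agent.Lib.Char.TwoDeg.CaseA
import Cfsg.Agent.Lib.Char.DetChar
import Cfsg.Agent.Lib.Char.CentralCount
import Mathlib.GroupTheory.FiniteAbelian.Duality
import Mathlib.Tactic

/-!
# No divisibility among degrees: the top of the group

`K` maximal among normal subgroups not containing `G'`. The quotient `Q = G / K` has `Q'` as its
unique minimal normal subgroup; two components of the degree graph exclude `Q'` central, and the
Frobenius case gives the section `C / K`.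
-/

set_option autoImplicit false
set_option linter.unusedSectionVars false
set_option linter.style.haveILetI false
set_option linter.style.longLine false

namespace Cfsg.Agent.Lib.NoDiv.Top

open Cfsg Module Cfsg.Agent.Lib.NoDiv.Defs
open Cfsg.Agent.Lib.Char.Basic Cfsg.Agent.Lib.Char.Ortho Cfsg.Agent.Lib.Char.Complete
open Cfsg.Agent.Lib.Char.Conj Cfsg.Agent.Lib.Char.Clifford Cfsg.Agent.Lib.Char.Induced
open Cfsg.Agent.Lib.Char.CliffordCorr Cfsg.Agent.Lib.Char.Linear Cfsg.Agent.Lib.Char.Degree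
open Cfsg.Agent.Lib.Char.DegDvd
open Cfsg.Agent.Lib.Char.TwoDeg.FrobNorm Cfsg.Agent.Lib.Char.TwoDeg.CaseB
open Cfsg.Agent.Lib.Char.TwoDeg.Struct Cfsg.Agent.Lib.Char.TwoDeg.CaseA
open scoped ComplexConjugate

universe u

section Graph

variable {G : Type u} [Group G]

theorem ne_two_of_reach
    (h : ∀ p q : degreePrimes G, ((degreeGraph G).induce (degreePrimes G)).Reachable p q) :
    Nat.card ((degreeGraph G).induce (degreePrimes G)).ConnectedComponent ≠ 2 := by
  intro h2
  have hs : Subsingleton ((degreeGraph G).induce (degreePrimes G)).ConnectedComponent := by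
    constructor
    intro a b
    induction a using SimpleGraph.ConnectedComponent.ind with
    | _ p =>
      induction b using SimpleGraph.ConnectedComponent.ind with
      | _ q => exact SimpleGraph.ConnectedComponent.sound (h p q)
  have : Nat.card ((degreeGraph G).induce (degreePrimes G)).ConnectedComponent ≤ 1 :=
    Finite.card_le_one_iff_subsingleton.2 hs
  omega

theorem reach_of {p q : ℕ} (hp : p ∈ degreePrimes G) (hq : q ∈ degreePrimes G) {d : ℕ}
    (hd : d ∈ charDegrees G) (hpd : p ∣ d) (hqd : q ∣ d) :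
    ((degreeGraph G).induce (degreePrimes G)).Reachable ⟨p, hp⟩ ⟨q, hq⟩ := by
  by_cases h : p = q
  · subst h
    exact SimpleGraph.Reachable.refl _
  · apply SimpleGraph.Adj.reachable
    change (degreeGraph G).Adj p q
    exact ⟨h, hp.1, hq.1, d, hd,
      Nat.Coprime.mul_dvd_of_dvd_of_dvd ((Nat.coprime_primes hp.1 hq.1).2 h) hpd hqd⟩

end Graph

section Ramified

variable {Q : Type u} [Group Q] [Fintype Q]

/-- A fully ramified character of a group with central `Q'`. -/
theorem exists_ramified (h : JNA Q) (hc : ∀ g : Q, ∀ v ∈ commutator Q, g * v = v * g) :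
    ∃ (μ : Q → ℂ) (d : ℕ), IsIrrCharacter Q μ ∧ μ 1 = d ∧
      (∀ g, g ∉ Subgroup.center Q → μ g = 0) ∧
      d ^ 2 * Nat.card (Subgroup.center Q) = Nat.card Q ∧ Subgroup.center Q ≠ ⊤ := by
  classical
  have hcen : ∀ u ∈ commutator Q, u ∈ Subgroup.center Q := fun u hu =>
    Subgroup.mem_center_iff.2 (fun g => hc g u hu)
  obtain ⟨v, hv, hv1⟩ : ∃ v ∈ commutator Q, v ≠ 1 := by
    by_contra hcon
    push Not at hcon
    exact h.ne (eq_bot_iff.2 fun x hx => by simpa using hcon x hx)
  obtain ⟨μ, hμ⟩ : ∃ μ : IrrCharacter Q, (μ : Q → ℂ) v ≠ (μ : Q → ℂ) 1 := by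
    by_contra hcon
    push Not at hcon
    exact hv1 (eq_one_of_forall_irr hcon)
  have hχ := μ.2
  have hone := irr_one_ne_zero hχ
  have hmulc := fun (g : Q) (z : Q) (hz : z ∈ Subgroup.center Q) =>
    Cfsg.Agent.Lib.Char.CentralCount.char_mul_central hχ hz g
  -- the kernel on `Q'`
  let W : Subgroup Q :=
    { carrier := {z | z ∈ commutator Q ∧ (μ : Q → ℂ) z = (μ : Q → ℂ) 1}
      one_mem' := ⟨Subgroup.one_mem _, rfl⟩
      mul_mem' := by
        rintro a b ⟨ha, ha'⟩ ⟨hb, hb'⟩
        refine ⟨Subgroup.mul_mem _ ha hb, ?_⟩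
        have := hmulc a b (hcen b hb)
        rw [ha', hb'] at this
        exact mul_right_cancel₀ hone this
      inv_mem' := by
        rintro a ⟨ha, ha'⟩
        refine ⟨Subgroup.inv_mem _ ha, ?_⟩
        have := hmulc a⁻¹ a (hcen a ha)
        rw [inv_mul_cancel, ha'] at this
        exact (mul_right_cancel₀ hone this).symm }
  have hWn : W.Normal := by
    constructor
    rintro n ⟨hn, hn'⟩ g
    have : g * n * g⁻¹ = n := by rw [hc g n hn, mul_inv_cancel_right]
    rw [this]
    exact ⟨hn, hn'⟩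
  have hWbot : W = ⊥ := by
    by_contra hne
    have h1 := h.min W hWn hne
    exact hμ (h1 hv).2
  have hfaith : ∀ u ∈ commutator Q, (μ : Q → ℂ) u = (μ : Q → ℂ) 1 → u = 1 := by
    intro u hu hu'
    have : u ∈ W := ⟨hu, hu'⟩
    rw [hWbot] at this
    simpa using this
  obtain ⟨d, hd⟩ := exists_deg_of_isCharacter (isCharacter_of_isIrrCharacter hχ)
  -- vanishing
  have hvan : ∀ g, g ∉ Subgroup.center Q → (μ : Q → ℂ) g = 0 := by
    intro g hg
    obtain ⟨x, hx⟩ : ∃ x, x * g ≠ g * x := by
      by_contra hcon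
      push Not at hcon
      exact hg (Subgroup.mem_center_iff.2 hcon)
    have hu : x * g * x⁻¹ * g⁻¹ ∈ commutator Q := comm_mem x g
    have hu1 : x * g * x⁻¹ * g⁻¹ ≠ 1 := by
      intro h1
      apply hx
      have : x * g = (x * g * x⁻¹ * g⁻¹) * (g * x) := by group
      rw [this, h1, one_mul]
    have h2 : (μ : Q → ℂ) (g * (x * g * x⁻¹ * g⁻¹)) = (μ : Q → ℂ) g := by
      have e1 : g * (x * g * x⁻¹ * g⁻¹) = (x * g * x⁻¹ * g⁻¹) * g := (hc g _ hu)
      rw [e1]
      have e2 : (x * g * x⁻¹ * g⁻¹) * g = x * g * x⁻¹ := by group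
      rw [e2]
      exact isClassFunction_of_isIrrCharacter hχ _ _
    have h3 := hmulc g _ (hcen _ hu)
    rw [h2] at h3
    by_contra hne
    have h4 := mul_left_cancel₀ hne h3
    exact hu1 (hfaith _ hu h4.symm)
  -- the norm
  have h1 := classInner_self_of_isIrr hχ
  have hG : (Nat.card Q : ℂ) ≠ 0 := card_ne_zero_complex
  have h2 : ∑ g : Q, (μ : Q → ℂ) g * conj ((μ : Q → ℂ) g) = (Nat.card Q : ℂ) := by
    rw [classInner_def] at h1
    field_simp at h1
    exact h1
  have hz : ∀ z ∈ Subgroup.center Q, (μ : Q → ℂ) z * conj ((μ : Q → ℂ) z) = (d : ℂ) ^ 2 := by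
    intro z hzc
    have h4 := hmulc z⁻¹ z hzc
    rw [inv_mul_cancel, char_inv_eq_conj (isCharacter_of_isIrrCharacter hχ), hd] at h4
    rw [mul_comm, ← h4, sq]
  have h3 : ∑ g : Q, (μ : Q → ℂ) g * conj ((μ : Q → ℂ) g) =
      ∑ g ∈ Finset.univ.filter (· ∈ Subgroup.center Q), (d : ℂ) ^ 2 := by
    rw [← Finset.sum_subset (Finset.filter_subset (· ∈ Subgroup.center Q) Finset.univ)]
    · exact Finset.sum_congr rfl fun g hg => hz g (Finset.mem_filter.mp hg).2
    · intro g _ hg
      have : g ∉ Subgroup.center Q := fun h' => hg (Finset.mem_filter.mpr ⟨Finset.mem_univ _, h'⟩)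
      rw [hvan g this, zero_mul]
  rw [h3, Finset.sum_const, nsmul_eq_mul] at h2
  have h5 : (Finset.univ.filter (· ∈ Subgroup.center Q)).card = Nat.card (Subgroup.center Q) := by
    rw [Nat.card_eq_fintype_card, Fintype.card_subtype]
  rw [h5] at h2
  refine ⟨μ, d, hχ, hd, hvan, ?_, ?_⟩
  · have : ((Nat.card (Subgroup.center Q) : ℕ) : ℂ) * (d : ℂ) ^ 2 = (Nat.card Q : ℂ) := h2
    rw [mul_comm]
    exact_mod_cast this
  · intro htop
    apply h.ne
    rw [eq_bot_iff, commutator_def, Subgroup.commutator_le]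
    intro a _ b _
    have hb : b ∈ Subgroup.center Q := by rw [htop]; trivial
    rw [Subgroup.mem_bot, commutatorElement_def, Subgroup.mem_center_iff.1 hb a]
    group

/-- A nontrivial normal subgroup contains `Q'`: a Frobenius action has a character of degree the
index of `Q'`. -/
theorem exists_deg_index (h : JNA Q) (hVab : ∀ a ∈ commutator Q, ∀ b ∈ commutator Q, a * b = b * a)
    (hfpf : ∀ x, x ∉ commutator Q → ∀ v ∈ commutator Q, x * v = v * x → v = 1) :
    ∃ μ : Q → ℂ, IsIrrCharacter Q μ ∧ μ 1 = ((commutator Q).index : ℂ) := by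
  classical
  set V := commutator Q with hV
  have hVn : V.Normal := inferInstance
  letI : Fintype V := Fintype.ofFinite _
  have hVbot : V ≠ ⊥ := h.ne
  obtain ⟨v, hv, hv1⟩ : ∃ v ∈ V, v ≠ 1 := (Subgroup.ne_bot_iff_exists_ne_one.mp hVbot |>.elim
    (fun v hv => ⟨v, v.2, fun h0 => hv (Subtype.ext h0)⟩))
  obtain ⟨lam, hlam⟩ : ∃ lam : IrrCharacter V, (lam : V → ℂ) ⟨v, hv⟩ ≠ (lam : V → ℂ) 1 := by
    by_contra hcon
    push Not at hcon
    have := eq_one_of_forall_irr hcon
    exact hv1 (congrArg Subtype.val this)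
  have hcm : ∀ a b : V, a * b = b * a := fun a b => Subtype.ext (hVab a a.2 b b.2)
  have hlam1 : (lam : V → ℂ) 1 = 1 := isIrr_deg_one_of_comm hcm lam.2
  have hlammul := deg_one_mul (isCharacter_of_isIrrCharacter lam.2) hlam1
  have hT : V = inertia hVn (lam : V → ℂ) := by
    apply le_antisymm (le_inertia hVn (isClassFunction_of_isIrrCharacter lam.2))
    intro x hx
    by_contra hxV
    apply hlam
    rw [hlam1]
    obtain ⟨u, hu, hxu⟩ := surj_of_fpf hVab (fun w hw hc => hfpf x hxV w hw hc) v hv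
    have h1 := congrFun hx ⟨u, hu⟩
    have h2 : (⟨v, hv⟩ : V) = ⟨x * u * x⁻¹, hVn.conj_mem u hu x⟩ * (⟨u, hu⟩ : V)⁻¹ := by
      apply Subtype.ext
      exact hxu.symm
    rw [h2, hlammul]
    have h3 : (lam : V → ℂ) ⟨x * u * x⁻¹, hVn.conj_mem u hu x⟩ = (lam : V → ℂ) ⟨u, hu⟩ := h1
    rw [h3, ← hlammul, mul_inv_cancel, hlam1]
  have hres : res (le_refl V) (lam : V → ℂ) = (lam : V → ℂ) := rfl
  obtain ⟨hI, -⟩ := isIrrCharacter_indFun_of_lies_over hVn (le_refl V) lam.2 hT lam.2 (by
    rw [hres, classInner_self_of_isIrr lam.2]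
    exact one_ne_zero)
  refine ⟨_, hI, ?_⟩
  rw [indFun_one, hlam1, mul_one]

end Ramified

section Main

variable {G : Type u} [Group G] [Fintype G]

/-- If `μ` inflated to `G` is fully ramified over the preimage of the centre of a `p`-group
quotient, every nonlinear degree is divisible by `p`. -/
theorem p_dvd_of_central (hnd : NoDiv G) (K : Subgroup G) [hK : K.Normal] [Fintype (G ⧸ K)]
    {p : ℕ} (hp : p.Prime) (hQp : IsPGroup p (G ⧸ K)) {μ : G ⧸ K → ℂ} {d : ℕ}
    (hμ : IsIrrCharacter (G ⧸ K) μ) (hd : μ 1 = d)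
    (hvan : ∀ g, g ∉ Subgroup.center (G ⧸ K) → μ g = 0)
    (hsq : d ^ 2 * Nat.card (Subgroup.center (G ⧸ K)) = Nat.card (G ⧸ K))
    (hne : Subgroup.center (G ⧸ K) ≠ ⊤)
    {χ : G → ℂ} (hχ : IsIrrCharacter G χ) {a : ℕ} (ha : χ 1 = a) (ha1 : a ≠ 1) : p ∣ a := by
  classical
  haveI : Fact p.Prime := ⟨hp⟩
  by_contra hpa
  set π := QuotientGroup.mk' K with hπ
  have hπs : Function.Surjective π := QuotientGroup.mk'_surjective K
  set Zt : Subgroup G := (Subgroup.center (G ⧸ K)).comap π with hZt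
  haveI hZn : Zt.Normal := (inferInstance : (Subgroup.center (G ⧸ K)).Normal).comap π
  letI : Fintype Zt := Fintype.ofFinite _
  -- index
  have hidx : Zt.index = d ^ 2 := by
    rw [hZt, Subgroup.index_comap_of_surjective _ hπs]
    have h1 := Subgroup.card_mul_index (Subgroup.center (G ⧸ K))
    rw [← hsq, mul_comm] at h1
    exact Nat.eq_of_mul_eq_mul_right Nat.card_pos h1
  -- `χ` restricted to `Zt` is irreducible
  have hχc := isCharacter_of_isIrrCharacter hχ
  have hres : IsCharacter Zt (fun n : Zt => χ n) := isCharacter_restrict Zt hχc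
  have hχ1 : χ 1 ≠ 0 := irr_one_ne_zero hχ
  have ha0 : a ≠ 0 := by
    rintro rfl
    exact hχ1 (by simpa using ha)
  obtain ⟨ϑ, hϑ, hcon⟩ := exists_irr_constituent (isClassFunction_of_isCharacter hres)
    (fun h0 => hχ1 (by
      have := congrFun h0 1
      simpa using this))
  obtain ⟨e, t, hdeg, hdvd⟩ := dvd_index_of_constituent hZn hϑ hχ hcon
  obtain ⟨b, hb⟩ := exists_deg_of_isCharacter (isCharacter_of_isIrrCharacter hϑ)
  have hab : a = e * t * b := by
    have : (a : ℂ) = ((e * t * b : ℕ) : ℂ) := by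
      rw [← ha, hdeg, hb]
      push_cast
      ring
    exact_mod_cast this
  -- `e t` is a power of `p`, hence `1`
  have hQcard : ∃ n, Nat.card (G ⧸ K) = p ^ n := IsPGroup.iff_card.mp hQp
  obtain ⟨n, hn⟩ := hQcard
  have het : e * t = 1 := by
    have h1 : e * t ∣ p ^ (2 * n) := by
      have h2 : d ^ 2 ∣ p ^ n := by
        rw [← hn, ← hsq]
        exact Dvd.intro _ rfl
      refine (hdvd.trans ?_).trans (h2.trans (pow_dvd_pow p (by omega)))
      rw [hidx]
    obtain ⟨k, -, hk⟩ := (Nat.dvd_prime_pow hp).1 h1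
    rw [hk] at hab ⊢
    rcases k with _ | k
    · simp
    · exfalso
      apply hpa
      rw [hab]
      exact Dvd.dvd.mul_right (dvd_pow_self p (Nat.succ_ne_zero k)) b
  have hab' : a = b := by rw [hab, het, one_mul]
  have hres_eq : (fun n : Zt => χ n) = ϑ := by
    apply eq_of_constituent_of_deg_le hres hϑ hcon (a := a) (b := b)
    · simpa using ha
    · exact hb
    · exact hab'.le
  have hinner : classInner (fun n : Zt => χ n) (fun n : Zt => χ n) = 1 := by
    rw [hres_eq]
    exact classInner_self_of_isIrr hϑ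
  -- the product
  let μ' : G → ℂ := μ ∘ π
  have hμ' : IsIrrCharacter G μ' := Cfsg.Agent.Lib.Char.Conj.isIrrCharacter_comp _ hπs hμ
  have hμ'c := isCharacter_of_isIrrCharacter hμ'
  have hprod : IsCharacter G (χ * μ') := isCharacter_mul hχc hμ'c
  -- values of `μ'`
  have hval0 : ∀ x : G, x ∉ Zt → μ' x = 0 := fun x hx => hvan _ hx
  have hval1 : ∀ x : G, x ∈ Zt → μ' x * conj (μ' x) = (d : ℂ) ^ 2 := by
    intro x hx
    have h4 := Cfsg.Agent.Lib.Char.CentralCount.char_mul_central hμ (hx) (π x)⁻¹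
    rw [inv_mul_cancel, char_inv_eq_conj (isCharacter_of_isIrrCharacter hμ), hd] at h4
    change μ (π x) * conj (μ (π x)) = _
    rw [mul_comm, ← h4, sq]
  have hnorm : classInner (χ * μ') (χ * μ') = 1 := by
    rw [classInner_def] at hinner ⊢
    have hcardZ : (Nat.card G : ℂ) = (Nat.card Zt : ℂ) * ((d : ℂ) ^ 2) := by
      have h1 := Subgroup.card_mul_index Zt
      rw [hidx] at h1
      rw [← h1]
      push_cast
      ring
    have hZ0 : (Nat.card Zt : ℂ) ≠ 0 := card_ne_zero_complex
    have hd0 : (d : ℂ) ≠ 0 := by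
      rw [← hd]
      exact irr_one_ne_zero hμ
    have hs : ∑ g : G, (χ * μ') g * conj ((χ * μ') g) =
        (d : ℂ) ^ 2 * ∑ n : Zt, χ n * conj (χ n) := by
      have h1 : ∑ g : G, (χ * μ') g * conj ((χ * μ') g) =
          ∑ g ∈ Finset.univ.filter (· ∈ Zt), (χ * μ') g * conj ((χ * μ') g) := by
        symm
        apply Finset.sum_subset (Finset.filter_subset _ _)
        intro g _ hg
        have : g ∉ Zt := fun h' => hg (Finset.mem_filter.mpr ⟨Finset.mem_univ _, h'⟩)
        simp [hval0 g this]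
      rw [h1, Finset.mul_sum]
      rw [← Finset.sum_subtype (Finset.univ.filter (· ∈ Zt)) (p := (· ∈ Zt)) (by simp)
        (fun g => (d : ℂ) ^ 2 * (χ g * conj (χ g)))]
      refine Finset.sum_congr rfl fun g hg => ?_
      have h3 := hval1 g (Finset.mem_filter.mp hg).2
      simp only [Pi.mul_apply, map_mul]
      rw [← h3]
      ring
    rw [hs, hcardZ]
    have h5 : ∑ n : Zt, χ n * conj (χ n) = (Nat.card Zt : ℂ) := by
      field_simp at hinner
      exact hinner
    rw [h5]
    field_simp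
  have hirr : IsIrrCharacter G (χ * μ') := isIrrCharacter_of_classInner_self_eq_one hprod hnorm
  -- no divisibility
  have hA : a ∈ charDegrees G := ⟨⟨χ, hχ⟩, charDegree_eq_of_eq_natCast ha⟩
  have hprod1 : (χ * μ') 1 = ((a * d : ℕ) : ℂ) := by
    simp only [Pi.mul_apply, μ', Function.comp_apply, map_one, ha, hd]
    push_cast
    ring
  have hB : a * d ∈ charDegrees G := ⟨⟨_, hirr⟩, charDegree_eq_of_eq_natCast hprod1⟩
  have hd1 : 1 < d := by
    have hd0 : d ≠ 0 := by
      rintro rfl
      exact irr_one_ne_zero hμ (by simpa using hd)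
    have hd2 : d ≠ 1 := by
      rintro rfl
      apply hne
      rw [one_pow, one_mul] at hsq
      exact (Subgroup.card_eq_iff_eq_top _).1 hsq
    omega
  have ha1' : 1 < a := by omega
  exact hnd a hA (a * d) hB ha1' (by nlinarith) (Dvd.intro _ rfl)

end Main

/-- The derived subgroup of a JNA solvable group is abelian. -/
theorem jna_abelian {Q : Type u} [Group Q] [Finite Q] [Group.IsSolvable Q] (h : JNA Q) :
    ∀ a ∈ commutator Q, ∀ b ∈ commutator Q, a * b = b * a := by
  classical
  set V := commutator Q with hV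
  have hVn : V.Normal := inferInstance
  have hbot : ⁅V, V⁆ = ⊥ := by
    by_contra hne
    have h1 : V ≤ ⁅V, V⁆ := h.min _ (Subgroup.commutator_normal V V) hne
    have h2 : ∀ n, V ≤ derivedSeries Q n := by
      intro n
      induction n with
      | zero => exact le_top
      | succ n ih =>
        rw [derivedSeries_succ]
        exact h1.trans (Subgroup.commutator_mono ih ih)
    obtain ⟨n, hn⟩ := (Group.isSolvable_def Q).1 (inferInstance : Group.IsSolvable Q)
    have h3 := h2 n
    rw [hn] at h3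
    exact h.ne (le_bot_iff.1 h3)
  intro a ha b hb
  have h1 : a * b * a⁻¹ * b⁻¹ ∈ ⁅V, V⁆ := Subgroup.commutator_mem_commutator ha hb
  rw [hbot, Subgroup.mem_bot] at h1
  have h3 : a * b = (a * b * a⁻¹ * b⁻¹) * (b * a) := by group
  rw [h3, h1, one_mul]

/-- An abelian `Q'` has prime exponent. -/
theorem jna_exponent {Q : Type u} [Group Q] [Finite Q] (h : JNA Q)
    (hab : ∀ a ∈ commutator Q, ∀ b ∈ commutator Q, a * b = b * a) :
    ∃ p : ℕ, p.Prime ∧ p ∣ Nat.card (commutator Q) ∧ ∀ v ∈ commutator Q, v ^ p = 1 := by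
  classical
  have hV1 : Nat.card (commutator Q) ≠ 1 := by
    intro h1
    exact h.ne (Subgroup.card_eq_one.mp h1)
  obtain ⟨p, hp, hpV⟩ := Nat.exists_prime_and_dvd hV1
  refine ⟨p, hp, hpV, ?_⟩
  haveI : Fact p.Prime := ⟨hp⟩
  let W : Subgroup Q :=
    { carrier := {z | z ∈ commutator Q ∧ z ^ p = 1}
      one_mem' := ⟨Subgroup.one_mem _, one_pow _⟩
      mul_mem' := by
        rintro a b ⟨ha, ha'⟩ ⟨hb, hb'⟩
        refine ⟨Subgroup.mul_mem _ ha hb, ?_⟩
        rw [(show Commute a b from hab a ha b hb).mul_pow, ha', hb', one_mul]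
      inv_mem' := by
        rintro a ⟨ha, ha'⟩
        exact ⟨Subgroup.inv_mem _ ha, by rw [inv_pow, ha', inv_one]⟩ }
  have hWn : W.Normal := by
    constructor
    rintro n ⟨hn, hn'⟩ g
    refine ⟨(inferInstance : (commutator Q).Normal).conj_mem n hn g, ?_⟩
    rw [conj_pow, hn', mul_one, mul_inv_cancel]
  have hWne : W ≠ ⊥ := by
    obtain ⟨x, hx⟩ := exists_prime_orderOf_dvd_card' (G := commutator Q) p hpV
    intro hbot
    have hx1 : ((x : Q)) ∈ W := ⟨x.2, by
      have : x ^ p = 1 := by rw [← hx]; exact pow_orderOf_eq_one x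
      exact_mod_cast congrArg Subtype.val this⟩
    rw [hbot, Subgroup.mem_bot] at hx1
    have : x = 1 := Subtype.ext hx1
    rw [this, orderOf_one] at hx
    exact hp.one_lt.ne hx
  intro v hv
  exact (h.min W hWn hWne hv).2

/-- **Module Top of `Lib/NoDiv`.** -/
theorem top {G : Type u} [Group G] [Finite G] [Group.IsSolvable G] (hnd : NoDiv G)
    (htwo : Nat.card ((degreeGraph G).induce (degreePrimes G)).ConnectedComponent = 2) :
    ∃ (C Z : Subgroup G) (p : ℕ), p.Prime ∧ C.Normal ∧ Z.Normal ∧ Z ≤ C ∧ Z ≠ C ∧ C ≠ ⊤ ∧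
      (∀ a b : G, a * b * a⁻¹ * b⁻¹ ∈ C) ∧ (∀ a ∈ C, ∀ b ∈ C, a * b * a⁻¹ * b⁻¹ ∈ Z) ∧
      (∀ c ∈ C, c ^ p ∈ Z) ∧
      (∀ h, h ∉ C → ∀ c ∈ C, h * c * h⁻¹ * c⁻¹ ∈ Z → c ∈ Z) ∧
      (∃ d ∈ charDegrees G, d ≠ 1 ∧ d ≠ C.index) ∧
      (∀ d ∈ charDegrees G, d ≠ 1 → d ≠ C.index → p ∣ d ∧ Nat.Coprime d C.index) := by
  classical
  letI : Fintype G := Fintype.ofFinite G
  -- a vertex lies below a nonlinear degree
  have hvert : ∀ r ∈ degreePrimes G, ∃ d ∈ charDegrees G, d ≠ 1 ∧ r ∣ d := by
    rintro r ⟨hr, d, hd, hrd⟩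
    refine ⟨d, hd, ?_, hrd⟩
    rintro rfl
    exact hr.one_lt.ne' (Nat.dvd_one.1 hrd)
  -- `G` is not abelian
  have hGne : ¬ commutator G ≤ ⊥ := by
    intro h
    have hcm : ∀ a b : G, a * b = b * a := by
      intro a b
      have h1 : a * b * a⁻¹ * b⁻¹ ∈ commutator G := comm_mem a b
      have h2 : a * b * a⁻¹ * b⁻¹ = 1 := by simpa using h h1
      have h3 : a * b = (a * b * a⁻¹ * b⁻¹) * (b * a) := by group
      rw [h3, h2, one_mul]
    apply ne_two_of_reach (G := G) _ htwo
    rintro ⟨r, hr⟩ _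
    exfalso
    obtain ⟨d, ⟨χ, rfl⟩, hd1, -⟩ := hvert r hr
    apply hd1
    have := isIrr_deg_one_of_comm hcm χ.2
    exact charDegree_eq_of_eq_natCast (by simpa using this)
  -- a maximal normal subgroup not containing `G'`
  have hfin : ({K : Subgroup G | K.Normal ∧ ¬ commutator G ≤ K}).Finite := Set.toFinite _
  obtain ⟨N, hNmax⟩ := hfin.exists_maximal ⟨⊥, inferInstance, hGne⟩
  obtain ⟨hNn, hNc⟩ := hNmax.1
  haveI := hNn
  letI : Fintype (G ⧸ N) := Fintype.ofFinite _
  set π := QuotientGroup.mk' N with hπ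
  have hπs : Function.Surjective π := QuotientGroup.mk'_surjective N
  have hπmem : ∀ a, π a = 1 ↔ a ∈ N := fun a => by
    rw [hπ, QuotientGroup.mk'_apply, QuotientGroup.eq_one_iff]
  have hcommQ : ∀ a b : G, π (a * b * a⁻¹ * b⁻¹) = π a * π b * (π a)⁻¹ * (π b)⁻¹ := by
    intro a b
    simp only [map_mul, map_inv]
  have hQle : ∀ L : Subgroup (G ⧸ N), commutator G ≤ L.comap π → commutator (G ⧸ N) ≤ L := by
    intro L hL
    rw [commutator_def, Subgroup.commutator_le]
    intro x _ y _
    obtain ⟨a, rfl⟩ := hπs x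
    obtain ⟨b, rfl⟩ := hπs y
    change π a * π b * (π a)⁻¹ * (π b)⁻¹ ∈ L
    rw [← hcommQ]
    exact hL (comm_mem a b)
  have hJ : JNA (G ⧸ N) := by
    constructor
    · intro h
      apply hNc
      intro g hg
      have h1 : commutator G ≤ (⊥ : Subgroup (G ⧸ N)).comap π := by
        rw [commutator_def, Subgroup.commutator_le]
        intro a _ b _
        change a * b * a⁻¹ * b⁻¹ ∈ (⊥ : Subgroup (G ⧸ N)).comap π
        rw [Subgroup.mem_comap, hcommQ, ← h]
        exact comm_mem _ _
      have h2 := h1 hg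
      rw [Subgroup.mem_comap, Subgroup.mem_bot] at h2
      exact (hπmem _).1 h2
    · intro L hLn hLne
      apply hQle
      by_contra hcon
      have hle : N ≤ L.comap π := by
        intro n hn
        rw [Subgroup.mem_comap, (hπmem n).2 hn]
        exact L.one_mem
      have hmem : L.comap π ∈ {K : Subgroup G | K.Normal ∧ ¬ commutator G ≤ K} :=
        ⟨hLn.comap π, hcon⟩
      have h2 := hNmax.2 hmem hle
      apply hLne
      rw [eq_bot_iff]
      intro x hx
      obtain ⟨a, rfl⟩ := hπs x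
      have h3 : a ∈ N := h2 hx
      rw [Subgroup.mem_bot]
      exact (hπmem a).2 h3
  haveI : Group.IsSolvable (G ⧸ N) := inferInstance
  have hVab := jna_abelian hJ
  rcases dichotomy hJ hVab with hc | hf
  · -- `Q'` central: contradiction
    exfalso
    obtain ⟨p, hp, hQp⟩ := exists_isPGroup hJ hc
    obtain ⟨μ, d, hμ, hd, hvan, hsq, hne⟩ := exists_ramified hJ hc
    have hall : ∀ e ∈ charDegrees G, e ≠ 1 → p ∣ e := by
      rintro e ⟨χ, rfl⟩ he
      have h1 := charDegree_natCast (isCharacter_of_isIrrCharacter χ.2)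
      exact p_dvd_of_central hnd N hp hQp hμ hd hvan hsq hne χ.2 h1.symm he
    apply ne_two_of_reach (G := G) _ htwo
    rintro ⟨r, hr⟩ ⟨s, hs⟩
    obtain ⟨e, he, he1, hre⟩ := hvert r hr
    obtain ⟨e', he', he1', hse⟩ := hvert s hs
    have hpv : p ∈ degreePrimes G := ⟨hp, e, he, hall e he he1⟩
    exact (reach_of hr hpv he hre (hall e he he1)).trans
      (reach_of hpv hs he' (hall e' he' he1') hse)
  · -- the Frobenius case
    set V := commutator (G ⧸ N) with hV
    have hVn : V.Normal := inferInstance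
    obtain ⟨hcyc, hcopQ⟩ := q_caseB₁ hJ hVab hf
    obtain ⟨p, hp, hpV, hexp⟩ := jna_exponent hJ hVab
    obtain ⟨μ, hμ, hμ1⟩ := exists_deg_index hJ hVab hf
    set C := V.comap π with hC
    haveI hCn : C.Normal := hVn.comap π
    letI : Fintype C := Fintype.ofFinite _
    have hCi : C.index = V.index := by
      rw [hC, Subgroup.index_comap_of_surjective _ hπs]
    have hNC : N ≤ C := by
      intro n hn
      rw [hC, Subgroup.mem_comap, (hπmem n).2 hn]
      exact V.one_mem
    have hCmem : ∀ a, a ∈ C ↔ π a ∈ V := fun a => Iff.rfl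
    have hVtop : V ≠ ⊤ := by
      intro h
      apply hJ.ne
      rw [eq_bot_iff, commutator_def, Subgroup.commutator_le]
      intro a _ b _
      rw [Subgroup.mem_bot, commutatorElement_def,
        hVab a (h ▸ Subgroup.mem_top a) b (h ▸ Subgroup.mem_top b)]
      group
    have hCtop : C ≠ ⊤ := by
      intro h
      apply hVtop
      rw [eq_top_iff]
      intro x _
      obtain ⟨a, rfl⟩ := hπs x
      have : a ∈ C := by rw [h]; trivial
      exact this
    have hm1 : 1 < C.index := by
      have h0 : C.index ≠ 0 := Subgroup.index_ne_zero_of_finite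
      have h2 : C.index ≠ 1 := fun h => hCtop (Subgroup.index_eq_one.1 h)
      omega
    have hmdeg : C.index ∈ charDegrees G := by
      have h1 : IsIrrCharacter G (μ ∘ π) :=
        Cfsg.Agent.Lib.Char.Conj.isIrrCharacter_comp _ hπs hμ
      refine ⟨⟨_, h1⟩, charDegree_eq_of_eq_natCast ?_⟩
      simp only [Function.comp_apply, map_one, hμ1, hCi]
      rfl
    have hNne : N ≠ C := by
      intro h
      apply hJ.ne
      rw [eq_bot_iff]
      intro v hv
      obtain ⟨a, rfl⟩ := hπs v
      have h1 : a ∈ C := hv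
      rw [← h] at h1
      rw [Subgroup.mem_bot]
      exact (hπmem a).2 h1
    have hab : ∀ a b : G, a * b * a⁻¹ * b⁻¹ ∈ C := by
      intro a b
      rw [hCmem, hcommQ]
      exact comm_mem _ _
    have hCN : ∀ a ∈ C, ∀ b ∈ C, a * b * a⁻¹ * b⁻¹ ∈ N := by
      intro a ha b hb
      rw [← hπmem, hcommQ, hVab _ ha _ hb]
      group
    have hpow : ∀ c ∈ C, c ^ p ∈ N := by
      intro c hc
      rw [← hπmem, map_pow]
      exact hexp _ hc
    have hfpf : ∀ h, h ∉ C → ∀ c ∈ C, h * c * h⁻¹ * c⁻¹ ∈ N → c ∈ N := by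
      intro h hh c hc hcom
      rw [← hπmem] at hcom ⊢
      rw [hcommQ] at hcom
      apply hf _ hh _ hc
      have h3 : π h * π c = (π h * π c * (π h)⁻¹ * (π c)⁻¹) * (π c * π h) := by group
      rw [h3, hcom, one_mul]
    have hpm : ¬ p ∣ C.index := by
      intro h
      rw [hCi] at h
      have h1 := Nat.dvd_gcd h hpV
      rw [hcopQ] at h1
      exact hp.one_lt.ne' (Nat.dvd_one.1 h1)
    -- the nonlinear degrees other than the index
    have hdeg : ∀ d ∈ charDegrees G, d ≠ 1 → d ≠ C.index → p ∣ d := by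
      rintro d ⟨χ₀, rfl⟩ hd1 hdm
      obtain ⟨χ, hχ⟩ := χ₀
      simp only at hd1 hdm ⊢
      have hχc := isCharacter_of_isIrrCharacter hχ
      have hχ1 : χ 1 ≠ 0 := irr_one_ne_zero hχ
      have hdnat := charDegree_natCast hχc
      have hres : IsCharacter C (fun n : C => χ n) := isCharacter_restrict C hχc
      obtain ⟨ξ, hξ, hcon⟩ := exists_irr_constituent (isClassFunction_of_isCharacter hres)
        (fun h0 => hχ1 (by
          have := congrFun h0 1
          simpa using this))
      have hξc := isCharacter_of_isIrrCharacter hξ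
      obtain ⟨e, t, hdeg, hdvd⟩ := dvd_index_of_constituent hCn hξ hχ hcon
      obtain ⟨b, hb⟩ := exists_deg_of_isCharacter hξc
      have hdb : charDegree χ = e * t * b := by
        have : (charDegree χ : ℂ) = ((e * t * b : ℕ) : ℂ) := by
          rw [hdnat, hdeg, hb]
          push_cast
          ring
        exact_mod_cast this
      have hχ1' : χ 1 ≠ 1 := fun h => hd1 (by
        have : (charDegree χ : ℂ) = ((1 : ℕ) : ℂ) := by rw [hdnat, h]; simp
        exact_mod_cast this)
      rcases Cfsg.Agent.Lib.NoDiv.XLemma.xlemma hCn hNC hNn hab hCN hfpf hnd hξ hχ hχ1' hcon with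
        hin | hδ
      · -- the inertia group is `C`
        exfalso
        have hIC : inertia hCn ξ = C := by
          apply le_antisymm
          · intro g hg
            exact hin g hg
          · exact le_inertia hCn (isClassFunction_of_isIrrCharacter hξ)
        have h2 := deg_eq_of_constituent hCn hχ hξ hcon
        obtain ⟨e', he'⟩ := exists_nat_classInner hres hξc
        rw [he', hIC, hb, ← hdnat] at h2
        have h3 : charDegree χ = e' * C.index * b := by exact_mod_cast h2
        have hdvdm : C.index ∣ charDegree χ := by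
          rw [h3]
          exact Dvd.dvd.mul_right (Dvd.intro_left _ rfl) _
        have hdpos : 0 < charDegree χ := charDegree_pos hχ
        have hlt : C.index < charDegree χ :=
          lt_of_le_of_ne (Nat.le_of_dvd hdpos hdvdm) (Ne.symm hdm)
        exact hnd _ hmdeg _ ⟨⟨χ, hχ⟩, rfl⟩ hm1 hlt hdvdm
      · -- a twist fixes `ξ`
        obtain ⟨c₀, hc₀, hc₀N⟩ : ∃ c₀ ∈ C, c₀ ∉ N := by
          by_contra hcon'
          push Not at hcon'
          exact hNne (le_antisymm hNC hcon')
        -- a hom on `C / N`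
        let N' : Subgroup C := N.subgroupOf C
        haveI hN'n : N'.Normal := by
          constructor
          intro n hn g
          rw [Subgroup.mem_subgroupOf] at hn ⊢
          exact hNn.conj_mem _ hn _
        let W := C ⧸ N'
        have hcomm : ∀ a b : C, ((a * b : C) : W) = ((b * a : C) : W) := by
          intro a b
          change ((a * b : C) : C ⧸ N') = ((b * a : C) : C ⧸ N')
          rw [QuotientGroup.eq, Subgroup.mem_subgroupOf]
          have := hCN (b : G)⁻¹ (C.inv_mem b.2) (a : G)⁻¹ (C.inv_mem a.2)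
          simpa [mul_assoc] using this
        letI : CommGroup W :=
          { (inferInstance : Group W) with
            mul_comm := fun a b => by
              obtain ⟨a, rfl⟩ := QuotientGroup.mk_surjective a
              obtain ⟨b, rfl⟩ := QuotientGroup.mk_surjective b
              exact hcomm a b }
        haveI : Finite W := inferInstance
        have hen : HasEnoughRootsOfUnity ℂ (Monoid.exponent W) := by
          have : NeZero (Monoid.exponent W) := ⟨Monoid.exponent_ne_zero_of_finite⟩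
          infer_instance
        have hne₁ : ((⟨c₀, hc₀⟩ : C) : W) ≠ 1 := fun h => hc₀N (by
          have := (QuotientGroup.eq_one_iff _).mp h
          rwa [Subgroup.mem_subgroupOf] at this)
        obtain ⟨ν, hν⟩ := CommGroup.exists_apply_ne_one_of_hasEnoughRootsOfUnity W ℂ hne₁
        let δ : C →* ℂˣ := ν.comp (QuotientGroup.mk' N')
        have hδN : ∀ z : C, (z : G) ∈ N → δ z = 1 := by
          intro z hz
          have : ((z : C) : W) = 1 := (QuotientGroup.eq_one_iff z).mpr (by
            rwa [Subgroup.mem_subgroupOf])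
          change ν ((z : C) : W) = 1
          rw [this, map_one]
        have hfix := hδ δ hδN
        -- determinants
        have hdet := Cfsg.Agent.Lib.Char.DetChar.detChar_mul_hom δ hξc hb (⟨c₀, hc₀⟩ : C)
        rw [hfix] at hdet
        have hdet0 : detChar ξ (⟨c₀, hc₀⟩ : C) ≠ 0 := by
          obtain ⟨m, ρ, -, rfl⟩ := hξ
          rw [Cfsg.Agent.Lib.Char.DetChar.detChar_character]
          dsimp only
          rw [← Cfsg.Agent.Lib.Char.DetChar.coe_detRep]
          exact Units.ne_zero _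
        have hb1 : ((δ ⟨c₀, hc₀⟩ : ℂˣ) : ℂ) ^ b = 1 := by
          have : ((δ ⟨c₀, hc₀⟩ : ℂˣ) : ℂ) ^ b * detChar ξ (⟨c₀, hc₀⟩ : C) =
              1 * detChar ξ (⟨c₀, hc₀⟩ : C) := by
            rw [one_mul]
            exact hdet.symm
          exact mul_right_cancel₀ hdet0 this
        have hbp : ((δ ⟨c₀, hc₀⟩ : ℂˣ) : ℂ) ^ p = 1 := by
          have h1 : (⟨c₀, hc₀⟩ : C) ^ p = ⟨c₀ ^ p, C.pow_mem hc₀ p⟩ := rfl
          have h2 := hδN (⟨c₀, hc₀⟩ ^ p) (by rw [h1]; exact hpow c₀ hc₀)
          rw [map_pow] at h2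
          have h3 := congrArg (Units.val) h2
          simpa using h3
        have hpb : p ∣ b := by
          by_contra hnp
          have hco : Nat.Coprime p b := (Nat.Prime.coprime_iff_not_dvd hp).2 hnp
          have h1 : orderOf ((δ ⟨c₀, hc₀⟩ : ℂˣ) : ℂ) ∣ p := orderOf_dvd_of_pow_eq_one hbp
          have h2 : orderOf ((δ ⟨c₀, hc₀⟩ : ℂˣ) : ℂ) ∣ b := orderOf_dvd_of_pow_eq_one hb1
          have h3 := Nat.dvd_gcd h1 h2
          rw [hco] at h3
          have h4 := orderOf_eq_one_iff.1 (Nat.dvd_one.1 h3)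
          apply hν
          exact Units.ext h4
        rw [hdb]
        exact Dvd.dvd.mul_left hpb _
    refine ⟨C, N, p, hp, hCn, hNn, hNC, hNne, hCtop, hab, hCN, hpow, hfpf, ?_, ?_⟩
    · by_contra hcon
      push Not at hcon
      apply ne_two_of_reach (G := G) _ htwo
      rintro ⟨r, hr⟩ ⟨s, hs⟩
      obtain ⟨e, he, he1, hre⟩ := hvert r hr
      obtain ⟨e', he', he1', hse⟩ := hvert s hs
      have h1 := hcon e he he1
      have h2 := hcon e' he' he1'
      rw [h1] at hre
      rw [h2] at hse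
      exact reach_of hr hs hmdeg hre hse
    · intro d hd hd1 hdm
      have hpd := hdeg d hd hd1 hdm
      refine ⟨hpd, ?_⟩
      by_contra hnc
      obtain ⟨q, hq, hqd, hqm⟩ := Nat.Prime.not_coprime_iff_dvd.1 hnc
      apply ne_two_of_reach (G := G) _ htwo
      have hpv : p ∈ degreePrimes G := ⟨hp, d, hd, hpd⟩
      have hqv : q ∈ degreePrimes G := ⟨hq, d, hd, hqd⟩
      have hall : ∀ r (hr : r ∈ degreePrimes G),
          ((degreeGraph G).induce (degreePrimes G)).Reachable ⟨r, hr⟩ ⟨p, hpv⟩ := by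
        intro r hr
        obtain ⟨e, he, he1, hre⟩ := hvert r hr
        by_cases hem : e = C.index
        · rw [hem] at hre
          exact (reach_of hr hqv hmdeg hre hqm).trans (reach_of hqv hpv hd hqd hpd)
        · exact reach_of hr hpv he hre (hdeg e he he1 hem)
      rintro ⟨r, hr⟩ ⟨s, hs⟩
      exact (hall r hr).trans (hall s hs).symm

end Cfsg.Agent.Lib.NoDiv.Top
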