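import Cfsg.Agent.Lib.NoDiv.Defs
import Cfsg.Agent.Lib.Char.RelGraph
import Cfsg.Agent.Lib.Char.Linear
import Cfsg.Agent.Lib.Char.Degree
import Mathlib.GroupTheory.FiniteAbelian.Duality
import Mathlib.Tactic

/-!
# No divisibility among degrees: module B1

A linear character of `A` nontrivial on the chief factor `K / K₃` has inertia group inside `F`,
so by no divisibility it has inertia group `F`; thus `F` centralizes `A / K₃`.
-/

set_option autoImplicit false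
set_option linter.unusedSectionVars false
set_option linter.style.haveILetI false
set_option linter.style.longLine false

namespace Cfsg.Agent.Lib.NoDiv.B1

open Cfsg Module Cfsg.Agent.Lib.NoDiv.Defs
open Cfsg.Agent.Lib.Char.Basic Cfsg.Agent.Lib.Char.Ortho Cfsg.Agent.Lib.Char.Complete
open Cfsg.Agent.Lib.Char.Conj Cfsg.Agent.Lib.Char.Clifford
open Cfsg.Agent.Lib.Char.CliffordCorr Cfsg.Agent.Lib.Char.Linear Cfsg.Agent.Lib.Char.Degree
open Cfsg.Agent.Lib.Char.RelGraph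

universe u

/-- In a finite abelian section, a hom on `A` killing `K₃` and fixed by `c`, where `c` acts without
fixed points on `K / K₃`, is trivial on `K`. -/
theorem trivial_of_fpf {Γ : Type u} [Group Γ] [Finite Γ] {A K K₃ : Subgroup Γ}
    (hA : A.Normal) (hK : K.Normal) (hK₃ : K₃.Normal) (h31 : K₃ ≤ K) (h32 : K ≤ A)
    (hAab : ∀ a ∈ A, ∀ b ∈ A, a * b * a⁻¹ * b⁻¹ ∈ K₃)
    (lam : A →* ℂˣ) (hlam : ∀ x : A, (x : Γ) ∈ K₃ → lam x = 1)
    {c : Γ} (hc : ∀ x : A, lam ⟨c * x * c⁻¹, hA.conj_mem x x.2 c⟩ = lam x)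
    (hfpf : ∀ w ∈ K, c * w * c⁻¹ * w⁻¹ ∈ K₃ → w ∈ K₃) :
    ∀ w : A, (w : Γ) ∈ K → lam w = 1 := by
  classical
  let K₃' : Subgroup K := K₃.subgroupOf K
  haveI hK₃n : K₃'.Normal := by
    constructor
    intro n hn g
    rw [Subgroup.mem_subgroupOf] at hn ⊢
    exact hK₃.conj_mem _ hn _
  let V := K ⧸ K₃'
  have hcomm : ∀ a b : K, ((a * b : K) : V) = ((b * a : K) : V) := by
    intro a b
    change ((a * b : K) : K ⧸ K₃') = ((b * a : K) : K ⧸ K₃')
    rw [QuotientGroup.eq, Subgroup.mem_subgroupOf]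
    have := hAab (b : Γ)⁻¹ (A.inv_mem (h32 b.2)) (a : Γ)⁻¹ (A.inv_mem (h32 a.2))
    simpa [mul_assoc] using this
  letI : CommGroup V :=
    { (inferInstance : Group V) with
      mul_comm := fun a b => by
        obtain ⟨a, rfl⟩ := QuotientGroup.mk_surjective a
        obtain ⟨b, rfl⟩ := QuotientGroup.mk_surjective b
        exact hcomm a b }
  let conjK : K →* K :=
    { toFun := fun w => ⟨c * w * c⁻¹, hK.conj_mem w w.2 c⟩
      map_one' := by ext; simp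
      map_mul' := fun a b => by ext; simp [mul_assoc] }
  let mkV : K →* V := QuotientGroup.mk' K₃'
  let φ : K →* V :=
    { toFun := fun w => mkV (conjK w) * (mkV w)⁻¹
      map_one' := by simp
      map_mul' := fun a b => by
        simp only [map_mul, mul_inv]
        exact mul_mul_mul_comm _ _ _ _ }
  have hφker : ∀ w : K, φ w = 1 ↔ c * (w : Γ) * c⁻¹ * (w : Γ)⁻¹ ∈ K₃ := by
    intro w
    change mkV (conjK w) * (mkV w)⁻¹ = 1 ↔ _
    rw [← map_inv, ← map_mul]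
    change ((conjK w * w⁻¹ : K) : K ⧸ K₃') = 1 ↔ _
    rw [QuotientGroup.eq_one_iff, Subgroup.mem_subgroupOf]
    rfl
  have hφ1 : ∀ w ∈ K₃', φ w = 1 := by
    intro w hw
    rw [hφker]
    rw [Subgroup.mem_subgroupOf] at hw
    exact K₃.mul_mem (hK₃.conj_mem _ hw c) (K₃.inv_mem hw)
  let φb : V →* V := QuotientGroup.lift K₃' φ hφ1
  have hinj : Function.Injective φb := by
    rw [injective_iff_map_eq_one]
    intro v hv
    obtain ⟨w, rfl⟩ := QuotientGroup.mk_surjective v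
    have h1 : φ w = 1 := hv
    rw [hφker] at h1
    exact (QuotientGroup.eq_one_iff w).mpr (by
      rw [Subgroup.mem_subgroupOf]
      exact hfpf _ w.2 h1)
  have hsurj : Function.Surjective φb := Finite.surjective_of_injective hinj
  intro w hw
  obtain ⟨v, hv⟩ := hsurj ((⟨w, hw⟩ : K) : V)
  obtain ⟨u, rfl⟩ := QuotientGroup.mk_surjective v
  have h2 : φ u = ((⟨w, hw⟩ : K) : V) := hv
  have h3 : ((conjK u * u⁻¹ : K) : K ⧸ K₃') = ((⟨w, hw⟩ : K) : K ⧸ K₃') := by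
    have : φ u = mkV (conjK u * u⁻¹) := by
      rw [map_mul, map_inv]
      rfl
    rw [this] at h2
    exact h2
  rw [QuotientGroup.eq, Subgroup.mem_subgroupOf] at h3
  -- `w = [c, u] · s` with `s ∈ K₃`
  set s : Γ := ((conjK u * u⁻¹ : K) : Γ)⁻¹ * (w : Γ) with hs
  have hsK₃ : s ∈ K₃ := by
    simpa [hs] using h3
  have huA : (u : Γ) ∈ A := h32 u.2
  have hsA : s ∈ A := h32 (h31 hsK₃)
  have hl1 : lam ⟨s, hsA⟩ = 1 := hlam _ hsK₃
  have hw' : w = (⟨c * u * c⁻¹, hA.conj_mem _ huA c⟩ : A) * (⟨(u : Γ)⁻¹, A.inv_mem huA⟩ : A) * ⟨s, hsA⟩ := by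
    ext
    simp [hs, conjK, mul_assoc]
  rw [hw', map_mul, map_mul, hl1, mul_one]
  have h4 := hc ⟨u, huA⟩
  rw [h4, ← map_mul]
  have : ((⟨u, huA⟩ : A) * ⟨(u : Γ)⁻¹, A.inv_mem huA⟩ : A) = 1 := by ext; simp
  rw [this, map_one]

/-- Module B1 of `Lib/NoDiv`. -/
theorem b1 {Γ : Type u} [Group Γ] [Fintype Γ] {F A K K₃ : Subgroup Γ}
    (hF : F.Normal) (hA : A.Normal) (hK : K.Normal) (hK₃ : K₃.Normal) (h31 : K₃ ≤ K) (h32 : K ≤ A)
    (hne : K₃ ≠ K) (hAab : ∀ a ∈ A, ∀ b ∈ A, a * b * a⁻¹ * b⁻¹ ∈ K₃)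
    (hα : F.index ∈ charDegrees Γ) (hα1 : 1 < F.index) (hnd : NoDiv Γ)
    (hsr : ∀ c : Γ, (∀ w ∈ K, c * w * c⁻¹ * w⁻¹ ∈ K₃) ∨ (∀ w ∈ K, c * w * c⁻¹ * w⁻¹ ∈ K₃ → w ∈ K₃))
    (hle : ∀ c : Γ, (∀ w ∈ K, c * w * c⁻¹ * w⁻¹ ∈ K₃) → c ∈ F) :
    ∀ f ∈ F, ∀ a ∈ A, f * a * f⁻¹ * a⁻¹ ∈ K₃ := by
  classical
  intro f hf a ha
  by_contra ht
  -- an element of `K \ K₃`
  obtain ⟨k₀, hk₀, hk₀3⟩ : ∃ k₀ ∈ K, k₀ ∉ K₃ := by
    by_contra hcon
    push Not at hcon
    exact hne (le_antisymm h31 hcon)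
  have htA : f * a * f⁻¹ * a⁻¹ ∈ A := A.mul_mem (hA.conj_mem a ha f) (A.inv_mem ha)
  -- the abelian quotient
  let K₃' : Subgroup A := K₃.subgroupOf A
  haveI hK₃n : K₃'.Normal := by
    constructor
    intro n hn g
    rw [Subgroup.mem_subgroupOf] at hn ⊢
    exact hK₃.conj_mem _ hn _
  let V := A ⧸ K₃'
  have hcomm : ∀ a b : A, ((a * b : A) : V) = ((b * a : A) : V) := by
    intro a b
    change ((a * b : A) : A ⧸ K₃') = ((b * a : A) : A ⧸ K₃')
    rw [QuotientGroup.eq, Subgroup.mem_subgroupOf]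
    have := hAab (b : Γ)⁻¹ (A.inv_mem b.2) (a : Γ)⁻¹ (A.inv_mem a.2)
    simpa [mul_assoc] using this
  letI : CommGroup V :=
    { (inferInstance : Group V) with
      mul_comm := fun a b => by
        obtain ⟨a, rfl⟩ := QuotientGroup.mk_surjective a
        obtain ⟨b, rfl⟩ := QuotientGroup.mk_surjective b
        exact hcomm a b }
  haveI : Finite V := inferInstance
  have hen : HasEnoughRootsOfUnity ℂ (Monoid.exponent V) := by
    have : NeZero (Monoid.exponent V) := ⟨Monoid.exponent_ne_zero_of_finite⟩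
    infer_instance
  have hne₁ : ((⟨k₀, h32 hk₀⟩ : A) : V) ≠ 1 := fun h => hk₀3 (by
    have := (QuotientGroup.eq_one_iff _).mp h
    rwa [Subgroup.mem_subgroupOf] at this)
  have hne₂ : ((⟨_, htA⟩ : A) : V) ≠ 1 := fun h => ht (by
    have := (QuotientGroup.eq_one_iff _).mp h
    rwa [Subgroup.mem_subgroupOf] at this)
  obtain ⟨ν₁, hν₁⟩ := CommGroup.exists_apply_ne_one_of_hasEnoughRootsOfUnity V ℂ hne₁
  obtain ⟨ν₂, hν₂⟩ := CommGroup.exists_apply_ne_one_of_hasEnoughRootsOfUnity V ℂ hne₂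
  obtain ⟨ν, h₁', h₂'⟩ : ∃ ν : V →* ℂˣ, ν ((⟨k₀, h32 hk₀⟩ : A) : V) ≠ 1 ∧ ν ((⟨_, htA⟩ : A) : V) ≠ 1 := by
    by_cases h3 : ν₁ ((⟨_, htA⟩ : A) : V) = 1
    · by_cases h4 : ν₂ ((⟨k₀, h32 hk₀⟩ : A) : V) = 1
      · refine ⟨ν₁ * ν₂, ?_, ?_⟩
        · rw [MonoidHom.mul_apply, h4, mul_one]
          exact hν₁
        · rw [MonoidHom.mul_apply, h3, one_mul]
          exact hν₂
      · exact ⟨ν₂, h4, hν₂⟩
    · exact ⟨ν₁, hν₁, h3⟩
  let lam : A →* ℂˣ := ν.comp (QuotientGroup.mk' K₃')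
  have hlam : ∀ x : A, (x : Γ) ∈ K₃ → lam x = 1 := by
    intro x hx
    have : ((x : A) : V) = 1 := (QuotientGroup.eq_one_iff x).mpr (by rwa [Subgroup.mem_subgroupOf])
    change ν ((x : A) : V) = 1
    rw [this, map_one]
  letI : Fintype A := Fintype.ofFinite A
  let θ : A → ℂ := fun x => (lam x : ℂ)
  have hθ : IsIrrCharacter A θ := isIrrCharacter_of_hom lam
  have hinv : ∀ c : Γ, c ∈ inertia hA θ → c ∈ F := by
    intro c hc
    rcases hsr c with h | h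
    · exact hle c h
    · exfalso
      have hc' : ∀ x : A, lam ⟨c * x * c⁻¹, hA.conj_mem x x.2 c⟩ = lam x := by
        intro x
        have h1 := congrFun ((mem_inertia hA θ c).mp hc) x
        simp only [conjOn_apply, θ] at h1
        exact Units.ext h1
      have := trivial_of_fpf hA hK hK₃ h31 h32 hAab lam hlam hc' h ⟨k₀, h32 hk₀⟩ hk₀
      exact h₁' this
  obtain ⟨χ, hχ, hov⟩ := exists_over (G := Γ) hθ
  have hdvd := card_orbit_dvd hA hχ hθ hov
  rw [card_orbit_eq_index] at hdvd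
  have hle2 : inertia hA θ ≤ F := hinv
  have h5 : F.index ∣ (inertia hA θ).index := Subgroup.index_dvd_of_le hle2
  have h6 : F.index ∣ charDegree χ := h5.trans hdvd
  have hχdeg : charDegree χ ∈ charDegrees Γ := ⟨⟨χ, hχ⟩, rfl⟩
  have h7 : ¬ F.index < charDegree χ := fun hlt => hnd _ hα _ hχdeg hα1 hlt h6
  have hpos := charDegree_pos hχ
  have h8 : charDegree χ = F.index := by
    have := Nat.le_of_dvd hpos h6
    omega
  have h9 : (inertia hA θ).index = F.index :=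
    Nat.dvd_antisymm (h8 ▸ hdvd) h5
  have h10 : inertia hA θ = F := by
    have hc1 := (inertia hA θ).card_mul_index
    have hc2 := F.card_mul_index
    rw [h9] at hc1
    have hFpos : 0 < F.index := by omega
    have hcard : Nat.card (inertia hA θ) = Nat.card F :=
      Nat.eq_of_mul_eq_mul_right hFpos (hc1.trans hc2.symm)
    exact Subgroup.eq_of_le_of_card_ge hle2 hcard.ge
  have hfin : f ∈ inertia hA θ := h10 ▸ hf
  have h11 := congrFun ((mem_inertia hA θ f).mp hfin) ⟨a, ha⟩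
  simp only [conjOn_apply, θ] at h11
  have h12 : lam ⟨f * a * f⁻¹, hA.conj_mem a ha f⟩ = lam ⟨a, ha⟩ := Units.ext h11
  apply h₂'
  change lam ⟨f * a * f⁻¹ * a⁻¹, htA⟩ = 1
  have h13 : (⟨f * a * f⁻¹ * a⁻¹, htA⟩ : A) = ⟨f * a * f⁻¹, hA.conj_mem a ha f⟩ * (⟨a, ha⟩ : A)⁻¹ := by
    ext
    simp
  rw [h13, map_mul, map_inv, h12, mul_inv_cancel]

end Cfsg.Agent.Lib.NoDiv.B1
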