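import Cfsg.Agent.Lib.NoDiv.Q78
import Cfsg.Agent.Lib.NoDiv.Mid
import Mathlib.Tactic

/-!
# No divisibility: passing to a quotient in the abelian-section analysis
-/

set_option autoImplicit false
set_option linter.unusedSectionVars false
set_option linter.style.haveILetI false

namespace Cfsg.Agent.Lib.NoDiv.Deep1

open Cfsg Module Cfsg.Agent.Lib.NoDiv.Defs Cfsg.Agent.Lib.NoDiv.XLemma Cfsg.Agent.Lib.NoDiv.Camina
open Cfsg.Agent.Lib.NoDiv.Mid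
open Cfsg.Agent.Lib.NoDiv.Q78
open Cfsg.Agent.Lib.Char.Basic Cfsg.Agent.Lib.Char.Ortho Cfsg.Agent.Lib.Char.Complete
open Cfsg.Agent.Lib.Char.Conj Cfsg.Agent.Lib.Char.Clifford Cfsg.Agent.Lib.Char.Induced
open Cfsg.Agent.Lib.Char.CliffordCorr Cfsg.Agent.Lib.Char.Linear Cfsg.Agent.Lib.Char.Degree
open Cfsg.Agent.Lib.Char.FreeAction Cfsg.Agent.Lib.Char.DegDvd Cfsg.Agent.Lib.Char.GoingDown

universe u

/-- A chief factor below a normal subgroup. -/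
theorem exists_chief {G : Type u} [Group G] [Finite G] {N L : Subgroup G} (hN : N.Normal)
    (hL : L.Normal) (hNL : N ≤ L) (hne : N ≠ L) : ∃ K, N ≤ K ∧ Chief K L := by
  classical
  have hfin : ({K : Subgroup G | K.Normal ∧ N ≤ K ∧ K ≤ L ∧ K ≠ L}).Finite := Set.toFinite _
  obtain ⟨K, hK⟩ := hfin.exists_maximal ⟨N, hN, le_rfl, hNL, hne⟩
  obtain ⟨hKn, hNK, hKL, hKne⟩ := hK.1
  refine ⟨K, hNK, hKn, hL, hKL, hKne, fun M hM hKM hML => ?_⟩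
  by_cases hML' : M = L
  · exact Or.inr hML'
  left
  exact le_antisymm (hK.2 ⟨hM, hNK.trans hKM, hML, hML'⟩ hKM) hKM

/-- The index of an abelian-section subgroup is a degree. -/
theorem index_mem_of {Γ : Type u} [Group Γ] [Fintype Γ] {F Zt : Subgroup Γ}
    (hF : F.Normal) (hZt : Zt.Normal) (hZF : Zt ≤ F) (hne : ∃ f ∈ F, f ∉ Zt)
    (hCZ : ∀ a ∈ F, ∀ b ∈ F, a * b * a⁻¹ * b⁻¹ ∈ Zt)
    (hfpf : ∀ c, c ∉ F → ∀ f ∈ F, c * f * c⁻¹ * f⁻¹ ∈ Zt → f ∈ Zt) :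
    F.index ∈ charDegrees Γ ∧ ∃ δ : F →* ℂˣ, (∀ z : F, (z : Γ) ∈ Zt → δ z = 1) ∧ δ ≠ 1 ∧
      IsIrrCharacter Γ (indFun F (fun c => ((δ c : ℂˣ) : ℂ))) := by
  classical
  letI : Fintype F := Fintype.ofFinite _
  obtain ⟨c, hc, hcZ⟩ := hne
  let Z' : Subgroup F := Zt.subgroupOf F
  have hZ'n : Z'.Normal := hZt.subgroupOf F
  have hab' : ∀ a b : F, a * b * a⁻¹ * b⁻¹ ∈ Z' := fun a b => hCZ a a.2 b b.2
  have hc' : (⟨c, hc⟩ : F) ∉ Z' := hcZ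
  obtain ⟨δ, hβ, hβc⟩ := exists_hom_ne hZ'n hab' hc'
  have hδ1 : δ ≠ 1 := fun h => hβc (by rw [h]; rfl)
  have hδ : ∀ z : F, (z : Γ) ∈ Zt → δ z = 1 := fun z hz => hβ z hz
  have hirr := isIrrCharacter_of_hom δ
  have hin : ∀ g : Γ, conjOn hF g (fun c => ((δ c : ℂˣ) : ℂ)) = (fun c => ((δ c : ℂˣ) : ℂ)) →
      g ∈ F := by
    intro g hg
    by_contra hgC
    apply hδ1
    apply conjHom_fix hF hZt hZF (hfpf g hgC) δ hδ
    refine MonoidHom.ext fun c => ?_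
    have h1 := congrFun hg c
    rw [conjOn_apply] at h1
    exact Units.ext h1
  have hind := isIrrCharacter_indFun_of_inertia_le hF hirr hin
  refine ⟨?_, δ, hδ, hδ1, hind⟩
  have h1 : charDegree (indFun F (fun c => ((δ c : ℂˣ) : ℂ))) = F.index := by
    apply charDegree_eq_of_eq_natCast
    rw [indFun_one]
    simp
  rw [← h1]
  exact charDegree_mem _ hind

/-- No divisibility passes to quotients. -/
theorem noDiv_of_surj {Γ Q : Type u} [Group Γ] [Group Q] (π : Γ →* Q)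
    (hπ : Function.Surjective π) (hnd : NoDiv Γ) : NoDiv Q := by
  have hmem : ∀ a ∈ charDegrees Q, a ∈ charDegrees Γ := by
    rintro a ⟨χ, rfl⟩
    refine ⟨⟨_, Cfsg.Agent.Lib.Char.Linear.isIrrCharacter_comp π hπ χ.2⟩, ?_⟩
    simp [charDegree]
  exact fun a ha b hb h1 h2 => hnd a (hmem a ha) b (hmem b hb) h1 h2

section Quot

variable {Γ : Type u} [Group Γ] {K : Subgroup Γ} [hK : K.Normal]

theorem mk_mem_map {A : Subgroup Γ} (hA : K ≤ A) (c : Γ) :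
    (QuotientGroup.mk' K) c ∈ A.map (QuotientGroup.mk' K) ↔ c ∈ A := by
  constructor
  · rintro ⟨a, ha, hac⟩
    have h1 : a⁻¹ * c ∈ K := QuotientGroup.eq.mp hac
    have h2 := A.mul_mem ha (hA h1)
    simpa using h2
  · intro hc
    exact ⟨c, hc, rfl⟩

theorem map_commutator_mk : (commutator Γ).map (QuotientGroup.mk' K) = commutator (Γ ⧸ K) := by
  rw [commutator_def, commutator_def, Subgroup.map_commutator,
    Subgroup.map_top_of_surjective _ (QuotientGroup.mk'_surjective K)]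

end Quot

/-- The abelian-section analysis modulo a normal subgroup `K₄`. -/
theorem q78_mod {Γ : Type u} [Group Γ] [Fintype Γ] {F Zt E W K₄ : Subgroup Γ}
    (hF : F.Normal) (hZt : Zt.Normal) (hEdef : E = commutator Γ) (hEF : E ≤ F) (hZtF : Zt ≤ F)
    (hFZt : ∀ a ∈ F, ∀ b ∈ F, a * b * a⁻¹ * b⁻¹ ∈ Zt)
    (hfpf : ∀ c, c ∉ F → ∀ f ∈ F, c * f * c⁻¹ * f⁻¹ ∈ Zt → f ∈ Zt)
    (hnd : NoDiv Γ) (hα1 : 1 < F.index)
    (hW : W = ⁅F, F⁆) (hK₄ : K₄.Normal) (hK₄Zt : K₄ ≤ Zt) (hK₄W : K₄ ≤ W) (hne : K₄ ≠ W)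
    (hWE : ∀ w ∈ W, ∀ e ∈ E, w * e * w⁻¹ * e⁻¹ ∈ K₄)
    (hsr : ∀ c : Γ, (∀ w ∈ W, c * w * c⁻¹ * w⁻¹ ∈ K₄) ∨ (∀ w ∈ W, c * w * c⁻¹ * w⁻¹ ∈ K₄ → w ∈ K₄))
    (hEZ : ∃ e ∈ E, e ∉ Zt) (hFEZ : ∀ f ∈ F, ∃ e ∈ E, ∃ ζ ∈ Zt, f = e * ζ) :
    (∀ f ∈ F, ∀ w ∈ W, f * w * f⁻¹ * w⁻¹ ∈ K₄) ∧
    (∀ f ∈ F, f ∉ Zt → ∀ w ∈ W, ∃ e ∈ E, (f * e * f⁻¹ * e⁻¹) * w⁻¹ ∈ K₄) := by
  classical
  haveI := hK₄
  letI : Fintype (Γ ⧸ K₄) := Fintype.ofFinite _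
  let π := QuotientGroup.mk' K₄
  have hπ : Function.Surjective π := QuotientGroup.mk'_surjective K₄
  have hπk : ∀ x, π x = 1 ↔ x ∈ K₄ := fun x => by simp [π]
  have hK₄F : K₄ ≤ F := hK₄Zt.trans hZtF
  let Fb := F.map π
  let Zb := Zt.map π
  let Wb : Subgroup (Γ ⧸ K₄) := ⁅Fb, Fb⁆
  have hmF : ∀ c, π c ∈ Fb ↔ c ∈ F := fun c => mk_mem_map hK₄F c
  have hmZ : ∀ c, π c ∈ Zb ↔ c ∈ Zt := fun c => mk_mem_map hK₄Zt c
  have hWb : Wb = W.map π := by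
    rw [hW, Subgroup.map_commutator]
  have hEb : commutator (Γ ⧸ K₄) = E.map π := by
    rw [hEdef]
    exact map_commutator_mk.symm
  have hFbn : Fb.Normal := hF.map π hπ
  have hZbn : Zb.Normal := hZt.map π hπ
  have hEFb : commutator (Γ ⧸ K₄) ≤ Fb := by
    rw [hEb]
    exact Subgroup.map_mono hEF
  have hZFb : Zb ≤ Fb := Subgroup.map_mono hZtF
  have hFZb : ∀ a ∈ Fb, ∀ b ∈ Fb, a * b * a⁻¹ * b⁻¹ ∈ Zb := by
    rintro _ ⟨a, ha, rfl⟩ _ ⟨b, hb, rfl⟩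
    exact ⟨_, hFZt a ha b hb, by simp only [map_mul, map_inv]⟩
  have hfpfb : ∀ c, c ∉ Fb → ∀ f ∈ Fb, c * f * c⁻¹ * f⁻¹ ∈ Zb → f ∈ Zb := by
    intro c hc f hf hcf
    obtain ⟨c, rfl⟩ := hπ c
    obtain ⟨f, hf', rfl⟩ := hf
    have h1 : c ∉ F := fun h => hc ((hmF c).2 h)
    have h2 : π (c * f * c⁻¹ * f⁻¹) ∈ Zb := by
      simpa only [map_mul, map_inv] using hcf
    exact (hmZ f).2 (hfpf c h1 f hf' ((hmZ _).1 h2))
  have hndb : NoDiv (Γ ⧸ K₄) := noDiv_of_surj π hπ hnd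
  obtain ⟨e, heE, heZ⟩ := hEZ
  have heF := hEF heE
  have hneb : ∃ f ∈ Fb, f ∉ Zb := ⟨π e, (hmF e).2 heF, fun h => heZ ((hmZ e).1 h)⟩
  have hαb := (index_mem_of hFbn hZbn hZFb hneb hFZb hfpfb).1
  have hα1b : 1 < Fb.index := by
    have h0 : Fb.index ≠ 0 := Subgroup.index_ne_zero_of_finite
    have h1 : Fb.index ≠ 1 := by
      intro h
      have h2 : Fb = ⊤ := Subgroup.index_eq_one.mp h
      have h3 : F.index = 1 := by
        apply Subgroup.index_eq_one.mpr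
        rw [eq_top_iff]
        intro c _
        apply (hmF c).1
        rw [h2]
        trivial
      omega
    omega
  have hW1b : Wb ≠ ⊥ := by
    intro h
    apply hne
    apply le_antisymm hK₄W
    intro w hw
    have h1 : π w ∈ Wb := by
      rw [hWb]
      exact ⟨w, hw, rfl⟩
    rw [h] at h1
    exact (hπk w).1 h1
  have hWEb : ∀ w ∈ Wb, ∀ e ∈ commutator (Γ ⧸ K₄), w * e * w⁻¹ * e⁻¹ = 1 := by
    intro w hw e he
    rw [hWb] at hw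
    rw [hEb] at he
    obtain ⟨w, hw, rfl⟩ := hw
    obtain ⟨e, he, rfl⟩ := he
    have h1 := (hπk _).2 (hWE w hw e he)
    simpa only [map_mul, map_inv] using h1
  have hsrb : ∀ c : Γ ⧸ K₄, (∀ w ∈ Wb, c * w * c⁻¹ * w⁻¹ = 1) ∨
      (∀ w ∈ Wb, c * w * c⁻¹ * w⁻¹ = 1 → w = 1) := by
    intro c
    obtain ⟨c, rfl⟩ := hπ c
    rcases hsr c with h1 | h1
    · left
      intro w hw
      rw [hWb] at hw
      obtain ⟨w, hw, rfl⟩ := hw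
      have h2 := (hπk _).2 (h1 w hw)
      simpa only [map_mul, map_inv] using h2
    · right
      intro w hw hcw
      rw [hWb] at hw
      obtain ⟨w, hw, rfl⟩ := hw
      have h2 : π (c * w * c⁻¹ * w⁻¹) = 1 := by
        simpa only [map_mul, map_inv] using hcw
      exact (hπk w).2 (h1 w hw ((hπk _).1 h2))
  have hEZb : ∃ e ∈ commutator (Γ ⧸ K₄), e ∉ Zb :=
    ⟨π e, by rw [hEb]; exact ⟨e, heE, rfl⟩, fun h => heZ ((hmZ e).1 h)⟩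
  have hFEZb : ∀ f ∈ Fb, ∃ e ∈ commutator (Γ ⧸ K₄), ∃ ζ ∈ Zb, f = e * ζ := by
    rintro _ ⟨f, hf, rfl⟩
    obtain ⟨e, he, ζ, hζ, rfl⟩ := hFEZ f hf
    exact ⟨π e, by rw [hEb]; exact ⟨e, he, rfl⟩, π ζ, ⟨ζ, hζ, rfl⟩, map_mul _ _ _⟩
  obtain ⟨O1, O2⟩ := q78 hFbn hZbn rfl hEFb hZFb hFZb hfpfb hndb hαb hα1b rfl hW1b hWEb hsrb hEZb hFEZb
  have hO1 : ∀ f ∈ F, ∀ w ∈ W, f * w * f⁻¹ * w⁻¹ ∈ K₄ := by
    intro f hf w hw
    have h1 := O1 (π f) ((hmF f).2 hf) (π w) (by change π w ∈ Wb; rw [hWb]; exact ⟨w, hw, rfl⟩)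
    apply (hπk _).1
    simpa only [map_mul, map_inv] using h1
  refine ⟨hO1, ?_⟩
  intro f hf hfZ w hw
  by_contra hno
  push Not at hno
  -- the adjoint homomorphism
  have hWbE : Wb ≤ commutator (Γ ⧸ K₄) := by
    rw [commutator_def]
    exact Subgroup.commutator_mono le_top le_top
  have hWbab : ∀ a b : Wb, a * b * a⁻¹ * b⁻¹ = 1 := by
    intro a b
    apply Subtype.ext
    exact hWEb a a.2 b (hWbE b.2)
  have hmemW : ∀ a ∈ commutator (Γ ⧸ K₄), π f * a * (π f)⁻¹ * a⁻¹ ∈ Wb := fun a ha =>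
    Subgroup.commutator_mem_commutator ((hmF f).2 hf) (hEFb ha)
  let φ : commutator (Γ ⧸ K₄) →* Wb :=
    { toFun := fun a => ⟨π f * a * (π f)⁻¹ * (a : Γ ⧸ K₄)⁻¹, hmemW a a.2⟩
      map_one' := by
        apply Subtype.ext
        simp
      map_mul' := by
        intro a b
        apply Subtype.ext
        have h1 := O1 a (hEFb a.2) _ (hmemW b b.2)
        have h2 : (a : Γ ⧸ K₄) * (π f * b * (π f)⁻¹ * (b : Γ ⧸ K₄)⁻¹) * (a : Γ ⧸ K₄)⁻¹ =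
            π f * b * (π f)⁻¹ * (b : Γ ⧸ K₄)⁻¹ := mul_inv_eq_one.mp h1
        simp only [Subgroup.coe_mul, Subgroup.coe_inv]
        calc π f * (↑a * ↑b) * (π f)⁻¹ * (↑a * ↑b)⁻¹
            = (π f * a * (π f)⁻¹ * (a : Γ ⧸ K₄)⁻¹) *
              ((a : Γ ⧸ K₄) * (π f * b * (π f)⁻¹ * (b : Γ ⧸ K₄)⁻¹) * (a : Γ ⧸ K₄)⁻¹) := by group
          _ = _ := by rw [h2] }
  have hwb : π w ∈ Wb := by
    rw [hWb]
    exact ⟨w, hw, rfl⟩
  have hnot : (⟨π w, hwb⟩ : Wb) ∉ φ.range := by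
    rintro ⟨a, ha⟩
    obtain ⟨a, ha'⟩ := a
    rw [hEb] at ha'
    obtain ⟨e', he', rfl⟩ := ha'
    apply hno e' he'
    apply (hπk _).1
    have h1 : π f * π e' * (π f)⁻¹ * (π e')⁻¹ = π w := congrArg Subtype.val ha
    simp only [map_mul, map_inv]
    rw [h1, mul_inv_cancel]
  haveI hrn : φ.range.Normal := by
    constructor
    intro n hn g
    have h1 : g * n * g⁻¹ = n := mul_inv_eq_one.mp (hWbab g n)
    rw [h1]
    exact hn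
  obtain ⟨ρ, hρ, hρw⟩ := exists_hom_ne hrn (fun a b => by rw [hWbab]; exact Subgroup.one_mem _) hnot
  have hρ1 : ρ ≠ 1 := fun h => hρw (by rw [h]; rfl)
  have h1 := O2 ρ hρ1 (π f) ((hmF f).2 hf) (fun e he w' hw' => hρ w' ⟨⟨e, he⟩, by
    apply Subtype.ext
    exact hw'.symm⟩)
  exact hfZ ((hmZ f).1 h1)

end Cfsg.Agent.Lib.NoDiv.Deep1
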