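import Cfsg.Agent.Lib.NoDiv.GLA

/-!
# No divisibility: group theory of the final case, part B
-/

set_option autoImplicit false
set_option linter.unusedSectionVars false
set_option linter.style.haveILetI false

namespace Cfsg.Agent.Lib.NoDiv.GLB

open Cfsg Cfsg.Agent.Lib.NoDiv.Defs Cfsg.Agent.Lib.NoDiv.GLA

universe u

variable {G : Type u} [Group G] [Finite G] {C E : Subgroup G} {g z : G} {o p : ℕ}

/-- An `l`-element acting on a nontrivial normal subgroup of exponent `l` has a nontrivial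
fixed point. -/
theorem exists_fix {Q : Type*} [Group Q] [Finite Q] {l : ℕ} (hl : l.Prime) (A : Subgroup Q)
    (hA : A.Normal) (hAl : ∀ a ∈ A, a ^ l = 1) (hA1 : A ≠ ⊥) (u : Q) (m : ℕ)
    (hu : u ^ l ^ m = 1) : ∃ a ∈ A, a ≠ 1 ∧ u * a * u⁻¹ = a := by
  haveI := hA
  haveI : Fact l.Prime := ⟨hl⟩
  let P := Subgroup.zpowers u
  have hP : IsPGroup l P := by
    rintro ⟨y, k, rfl⟩
    refine ⟨m, ?_⟩
    ext
    simp only [Subgroup.coe_pow, OneMemClass.coe_one]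
    show (u ^ k) ^ l ^ m = 1
    rw [← zpow_natCast, ← zpow_mul, mul_comm, zpow_mul, zpow_natCast, hu, one_zpow]
  let act : P →* MulAut A := (MulAut.conjNormal).comp P.subtype
  letI : MulAction P A := MulAction.compHom A act
  have hsmul : ∀ (v : P) (a : A), ((v • a : A) : Q) = (v : Q) * a * (v : Q)⁻¹ := by
    intro v a
    rfl
  have hdvd : l ∣ Nat.card A := by
    obtain ⟨⟨a, ha⟩, ha1⟩ := (Subgroup.ne_bot_iff_exists_ne_one).1 hA1
    have h1 : orderOf (⟨a, ha⟩ : A) = l := by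
      apply orderOf_eq_prime
      · ext; simpa using hAl a ha
      · exact ha1
    rw [← h1]
    exact orderOf_dvd_natCard _
  have hfix : (1 : A) ∈ MulAction.fixedPoints P A := by
    intro v
    ext
    rw [hsmul]
    simp
  obtain ⟨b, hb, hb1⟩ := hP.exists_fixed_point_of_prime_dvd_card_of_fixed_point A hdvd hfix
  refine ⟨b, b.2, fun h => hb1 (Subtype.ext h.symm), ?_⟩
  have := congrArg Subtype.val (hb ⟨u, Subgroup.mem_zpowers u⟩)
  rwa [hsmul] at this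

theorem top_fpf (h : Cam C E g z o p) {K : Subgroup G} (hc : Chief K E) :
    ∀ w ∈ E, z * w * z⁻¹ * w⁻¹ ∈ K → w ∈ K := by
  haveI := hc.nK
  obtain ⟨l, hl, hlw⟩ := elem h hc le_rfl
  intro w hw hzw
  by_contra hwK
  let π := QuotientGroup.mk' K
  have hmem : ∀ t, π t = 1 ↔ t ∈ K := fun t => by simp [π]
  have hpl : Nat.Coprime p l := by
    rw [Nat.coprime_primes h.hp hl]
    rintro rfl
    have h1 : orderOf (π w) = p := by
      haveI : Fact p.Prime := ⟨h.hp⟩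
      apply orderOf_eq_prime
      · rw [← map_pow]; exact (hmem _).2 (hlw w hw)
      · intro hh; exact hwK ((hmem _).1 hh)
    have h2 : orderOf (π w) ∣ orderOf w := orderOf_map_dvd π w
    have h3 : orderOf w ∣ Nat.card E := Subgroup.orderOf_dvd_natCard E hw
    exact h.hpE (h1 ▸ h2.trans h3)
  exact hwK (fpf_of_coprime h hc.nK h.hz h.hzg h.hzp hw hzw (hlw w hw) hpl)

theorem relCen_normal {K A B : Subgroup G} (hK : K.Normal) (hA : A.Normal) (hB : B.Normal) :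
    (relCen hK A B).Normal := by
  constructor
  rintro a ⟨ha, ha'⟩ y
  refine ⟨hA.conj_mem a ha y, fun b hb => ?_⟩
  have h1 : y⁻¹ * b * y ∈ B := by
    simpa using hB.conj_mem b hb y⁻¹
  have := hK.conj_mem _ (ha' _ h1) y
  have e : y * a * y⁻¹ * b * (y * a * y⁻¹)⁻¹ * b⁻¹
      = y * (a * (y⁻¹ * b * y) * a⁻¹ * (y⁻¹ * b * y)⁻¹) * y⁻¹ := by group
  rw [e]
  exact this

theorem E_le_F (h : Cam C E g z o p) {K : Subgroup G} (hc : Chief K E) :
    E ≤ relCen hc.nK C E :=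
  fun e he => ⟨h.leC he, fun b hb => chief_comm h hc le_rfl e he b hb⟩

theorem K_le_Zt (h : Cam C E g z o p) {K : Subgroup G} (hc : Chief K E) :
    K ≤ relCen hc.nK C C := by
  intro k hk
  refine ⟨h.leC (hc.le hk), fun b _ => ?_⟩
  have h1 : b * k⁻¹ * b⁻¹ ∈ K := hc.nK.conj_mem _ (K.inv_mem hk) b
  exact K.mul_mem hk h1 |> fun h2 => by
    have e : k * b * k⁻¹ * b⁻¹ = k * (b * k⁻¹ * b⁻¹) := by group
    rw [e]; exact h2

/-- `F = E Zt`. -/
theorem F_eq (h : Cam C E g z o p) {K : Subgroup G} (hc : Chief K E) :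
    ∀ f ∈ relCen hc.nK C E, ∃ e ∈ E, ∃ ζ ∈ relCen hc.nK C C, f = e * ζ := by
  haveI := hc.nK
  haveI := h.nE
  let π := QuotientGroup.mk' K
  have hmem : ∀ t, π t = 1 ↔ t ∈ K := fun t => by simp [π]
  rintro f hf
  have hfC : f ∈ C := hf.1
  -- the map `x ↦ [x, z]` on `E / K` is injective, hence surjective
  let Eb : Subgroup (G ⧸ K) := E.map π
  have hEb : ∀ x ∈ Eb, x * π z * x⁻¹ * (π z)⁻¹ ∈ Eb := by
    rintro _ ⟨e, he, rfl⟩
    refine ⟨e * z * e⁻¹ * z⁻¹, ?_, by simp [π]⟩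
    exact h.cE e (h.leC he) z h.hz
  let φ : Eb → Eb := fun x => ⟨x * π z * (x : G ⧸ K)⁻¹ * (π z)⁻¹, hEb x x.2⟩
  have hinj : Function.Injective φ := by
    rintro ⟨x, e, he, rfl⟩ ⟨y, e', he', rfl⟩ hxy
    have h1 : π e * π z * (π e)⁻¹ * (π z)⁻¹ = π e' * π z * (π e')⁻¹ * (π z)⁻¹ :=
      congrArg Subtype.val hxy
    have h2 : π e * π z * (π e)⁻¹ = π e' * π z * (π e')⁻¹ := mul_right_cancel h1
    -- `e'⁻¹ e` is fixed by `z` modulo `K`
    have h3 : π (e'⁻¹ * e) * π z = π z * π (e'⁻¹ * e) := by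
      simp only [map_mul, map_inv]
      have : π e * π z = π e' * π z * (π e')⁻¹ * π e := by
        rw [← h2]; group
      calc (π e')⁻¹ * π e * π z = (π e')⁻¹ * (π e * π z) := by group
        _ = (π e')⁻¹ * (π e' * π z * (π e')⁻¹ * π e) := by rw [this]
        _ = π z * ((π e')⁻¹ * π e) := by group
    have h4 : z * (e'⁻¹ * e) * z⁻¹ * (e'⁻¹ * e)⁻¹ ∈ K :=
      (hmem _).1 (mem_of_comm π h3.symm)
    have h5 := top_fpf h hc _ (E.mul_mem (E.inv_mem he') he) h4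
    have h6 := (hmem _).2 h5
    simp only [map_mul, map_inv] at h6
    apply Subtype.ext
    show π e = π e'
    calc π e = π e' * ((π e')⁻¹ * π e) := by group
      _ = π e' := by rw [h6, mul_one]
  have hsurj : Function.Surjective φ := Finite.injective_iff_surjective.1 hinj
  have htarget : π f * π z * (π f)⁻¹ * (π z)⁻¹ ∈ Eb := by
    refine ⟨f * z * f⁻¹ * z⁻¹, h.cE f hfC z h.hz, by simp [π]⟩
  obtain ⟨⟨x, e, he, rfl⟩, hx⟩ := hsurj ⟨_, htarget⟩
  have h1 : π e * π z * (π e)⁻¹ * (π z)⁻¹ = π f * π z * (π f)⁻¹ * (π z)⁻¹ :=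
    congrArg Subtype.val hx
  have h2 : π e * π z * (π e)⁻¹ = π f * π z * (π f)⁻¹ := mul_right_cancel h1
  refine ⟨e, he, e⁻¹ * f, ?_, by group⟩
  let t := e⁻¹ * f
  have htF : t ∈ relCen hc.nK C E :=
    (relCen hc.nK C E).mul_mem ((relCen hc.nK C E).inv_mem (E_le_F h hc he)) hf
  have htC : t ∈ C := htF.1
  have htz : π t * π z = π z * π t := by
    simp only [t, map_mul, map_inv]
    have : π f * π z = π e * π z * (π e)⁻¹ * π f := by
      rw [h2]; group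
    calc (π e)⁻¹ * π f * π z = (π e)⁻¹ * (π f * π z) := by group
      _ = (π e)⁻¹ * (π e * π z * (π e)⁻¹ * π f) := by rw [this]
      _ = π z * ((π e)⁻¹ * π f) := by group
  refine ⟨htC, fun c hc' => ?_⟩
  -- `d = [t, c]` is fixed by `z` modulo `K`
  set d := t * c * t⁻¹ * c⁻¹ with hd
  have hdE : d ∈ E := h.cE t htC c hc'
  have hzc : z * c * z⁻¹ * c⁻¹ ∈ E := h.cE z h.hz c hc'
  set e' := z * c * z⁻¹ * c⁻¹ with he'
  have h3 : π t * π e' = π e' * π t := comm_of_mem π ((hmem _).2 (htF.2 e' hzc))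
  have h4 : π d * π e' = π e' * π d := comm_of_mem π ((hmem _).2 (chief_comm h hc le_rfl d hdE e' hzc))
  have hzcc : π z * π c * (π z)⁻¹ = π e' * π c := by
    simp only [he', map_mul, map_inv]
    group
  have hdef : π d = π t * π c * (π t)⁻¹ * (π c)⁻¹ := by
    simp only [hd, map_mul, map_inv]
  have h5 : π z * π d * (π z)⁻¹ = π d := by
    have hzt : π z * π t * (π z)⁻¹ = π t := by
      rw [← htz]; group
    have step1 : π z * π d * (π z)⁻¹
        = (π z * π t * (π z)⁻¹) * (π z * π c * (π z)⁻¹) * (π z * π t * (π z)⁻¹)⁻¹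
          * (π z * π c * (π z)⁻¹)⁻¹ := by
      rw [hdef]; group
    rw [step1, hzt, hzcc]
    have h6 : π t * (π e' * π c) * (π t)⁻¹ * (π e' * π c)⁻¹ = π e' * π d * (π e')⁻¹ := by
      rw [hdef]
      calc π t * (π e' * π c) * (π t)⁻¹ * (π e' * π c)⁻¹
          = (π t * π e') * π c * (π t)⁻¹ * (π c)⁻¹ * (π e')⁻¹ := by group
        _ = (π e' * π t) * π c * (π t)⁻¹ * (π c)⁻¹ * (π e')⁻¹ := by rw [h3]
        _ = _ := by group
    rw [h6, ← h4]
    group
  have h6 : z * d * z⁻¹ * d⁻¹ ∈ K := by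
    refine (hmem _).1 ?_
    simp only [map_mul, map_inv]
    rw [h5]
    group
  exact top_fpf h hc d hdE h6

theorem F_comm (h : Cam C E g z o p) {K : Subgroup G} (hc : Chief K E) :
    ∀ a ∈ relCen hc.nK C E, ∀ b ∈ relCen hc.nK C E, a * b * a⁻¹ * b⁻¹ ∈ K := by
  haveI := hc.nK
  let π := QuotientGroup.mk' K
  have hmem : ∀ t, π t = 1 ↔ t ∈ K := fun t => by simp [π]
  intro a ha b hb
  obtain ⟨e₁, he₁, ζ₁, hζ₁, rfl⟩ := F_eq h hc a ha
  obtain ⟨e₂, he₂, ζ₂, hζ₂, rfl⟩ := F_eq h hc b hb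
  refine (hmem _).1 (mem_of_comm π ?_)
  have c1 : Commute (π e₁) (π e₂) :=
    comm_of_mem π ((hmem _).2 (chief_comm h hc le_rfl e₁ he₁ e₂ he₂))
  have c2 : Commute (π ζ₁) (π e₂) :=
    comm_of_mem π ((hmem _).2 (hζ₁.2 e₂ (h.leC he₂)))
  have c3 : Commute (π ζ₂) (π e₁) :=
    comm_of_mem π ((hmem _).2 (hζ₂.2 e₁ (h.leC he₁)))
  have c4 : Commute (π ζ₁) (π ζ₂) :=
    comm_of_mem π ((hmem _).2 (hζ₁.2 ζ₂ hζ₂.1))
  rw [map_mul, map_mul]
  exact ((c1.mul_right c3.symm).mul_left (c2.mul_right c4))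

theorem E_inf_Zt (h : Cam C E g z o p) {K : Subgroup G} (hc : Chief K E) :
    ∀ e ∈ E, e ∈ relCen hc.nK C C → e ∈ K := by
  intro e he hez
  apply top_fpf h hc e he
  have := K.inv_mem (hez.2 z h.hz)
  have e1 : (e * z * e⁻¹ * z⁻¹)⁻¹ = z * e * z⁻¹ * e⁻¹ := by group
  rwa [e1] at this

theorem F_le_U (h : Cam C E g z o p) {K : Subgroup G} (hc : Chief K E) :
    ∀ y : G, ∀ f ∈ relCen hc.nK C E, y * f * y⁻¹ * f⁻¹ ∈ E := by
  haveI := hc.nK
  let π := QuotientGroup.mk' K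
  have hmem : ∀ t, π t = 1 ↔ t ∈ K := fun t => by simp [π]
  intro y f hf
  by_contra hyf
  obtain ⟨e₁, he₁, ζ, hζ, hfe⟩ := F_eq h hc f hf
  have hfC : f ∈ C := hf.1
  have hcomm : ∀ b ∈ C, π ζ * π b = π b * π ζ := fun b hb =>
    comm_of_mem π ((hmem _).2 (hζ.2 b hb))
  obtain ⟨b, hb, hbf⟩ := h.cf1 y f hfC hyf e₁⁻¹ (E.inv_mem he₁)
  have h1 : π (f * e₁⁻¹) = π ζ := by
    rw [hfe, map_mul, map_mul, map_inv, (hcomm e₁ (h.leC he₁)).symm]
    group
  have h2 : π f = π ζ := by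
    have h3 : π b * π f * (π b)⁻¹ = π ζ := by
      rw [← h1, ← hbf]; simp only [map_mul, map_inv]
    calc π f = (π b)⁻¹ * (π b * π f * (π b)⁻¹) * π b := by group
      _ = (π b)⁻¹ * π ζ * π b := by rw [h3]
      _ = (π b)⁻¹ * (π b * π ζ) := by rw [mul_assoc, hcomm b hb]
      _ = π ζ := by group
  obtain ⟨e', he', he'K⟩ : ∃ e' ∈ E, e' ∉ K := by
    by_contra hcon
    push Not at hcon
    exact hc.ne (le_antisymm hc.le hcon)
  obtain ⟨b', hb', hbf'⟩ := h.cf1 y f hfC hyf e' he'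
  apply he'K
  refine (hmem _).1 ?_
  have h3 : π (b' * f * b'⁻¹) = π f := by
    simp only [map_mul, map_inv]
    rw [h2, (hcomm b' hb').symm]
    group
  rw [hbf', map_mul] at h3
  exact mul_left_cancel (a := π f) (by rw [h3, mul_one])

theorem fpf_Zt (h : Cam C E g z o p) {K : Subgroup G} (hc : Chief K E) :
    ∀ c ∈ C, c ∉ relCen hc.nK C E → ∀ f ∈ relCen hc.nK C E,
      c * f * c⁻¹ * f⁻¹ ∈ relCen hc.nK C C → f ∈ relCen hc.nK C C := by
  haveI := hc.nK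
  haveI := h.nE
  let π := QuotientGroup.mk' K
  have hmem : ∀ t, π t = 1 ↔ t ∈ K := fun t => by simp [π]
  intro c hcC hcF f hf hcf
  have hfpf : ∀ w ∈ E, c * w * c⁻¹ * w⁻¹ ∈ K → w ∈ K := by
    rcases semireg h hc le_rfl hcC with h1 | h1
    · exact absurd ⟨hcC, h1⟩ hcF
    · exact h1
  obtain ⟨e, he, ζ, hζ, rfl⟩ := F_eq h hc f hf
  have hcomm : ∀ b ∈ C, π ζ * π b = π b * π ζ := fun b hb =>
    comm_of_mem π ((hmem _).2 (hζ.2 b hb))
  have h1 : π (c * e * c⁻¹ * e⁻¹) = π (c * (e * ζ) * c⁻¹ * (e * ζ)⁻¹) := by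
    simp only [map_mul, map_inv, mul_inv_rev]
    have c1 := hcomm c hcC
    calc π c * π e * (π c)⁻¹ * (π e)⁻¹
        = π c * π e * (π c)⁻¹ * (π ζ * (π ζ)⁻¹) * (π e)⁻¹ := by group
      _ = π c * π e * ((π c)⁻¹ * π ζ) * (π ζ)⁻¹ * (π e)⁻¹ := by group
      _ = π c * π e * (π ζ * (π c)⁻¹) * (π ζ)⁻¹ * (π e)⁻¹ := by
          congr 3
          calc (π c)⁻¹ * π ζ = (π c)⁻¹ * (π ζ * π c) * (π c)⁻¹ := by group
            _ = (π c)⁻¹ * (π c * π ζ) * (π c)⁻¹ := by rw [c1]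
            _ = π ζ * (π c)⁻¹ := by group
      _ = _ := by group
  have hceE : c * e * c⁻¹ * e⁻¹ ∈ E := h.cE c hcC e (h.leC he)
  have hceZ : c * e * c⁻¹ * e⁻¹ ∈ relCen hc.nK C C := by
    refine ⟨h.leC hceE, fun b hb => (hmem _).1 (mem_of_comm π ?_)⟩
    rw [h1]
    exact comm_of_mem π ((hmem _).2 (hcf.2 b hb))
  have heK : e ∈ K := hfpf e he (E_inf_Zt h hc _ hceE hceZ)
  exact (relCen hc.nK C C).mul_mem (K_le_Zt h hc heK) hζ

/-- The elements of `H \ E` act fixed point freely on every chief factor of `G` in `E` of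
exponent `l`, when `l` is the exponent of the top chief factor `E / K`. -/
theorem H_fpf (h : Cam C E g z o p) {K K' L' : Subgroup G} {l : ℕ} (hc : Chief K E)
    (hl : l.Prime) (hEl : ∀ w ∈ E, w ^ l ∈ K) (hc' : Chief K' L') (hL' : L' ≤ E)
    (hl' : ∀ w ∈ L', w ^ l ∈ K') {x : G} (hx : x ∈ h.H) (hxE : x ∉ E) :
    ∀ w ∈ L', x * w * x⁻¹ * w⁻¹ ∈ K' → w ∈ K' := by
  haveI := hc.nK
  haveI := hc'.nK
  haveI := h.nE
  have hxC : x ∈ C := hx.1
  -- the decomposition of the order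
  have hpos : orderOf x ≠ 0 := (orderOf_pos x).ne'
  obtain ⟨a, s, hs, hord⟩ := Nat.exists_eq_pow_mul_and_not_dvd hpos l hl.ne_one
  have hcop : Nat.Coprime s l := ((Nat.Prime.coprime_iff_not_dvd hl).2 hs).symm
  -- the `l`-part
  have hu : x ^ s ∈ E := by
    set u := x ^ s with hudef
    have huH : u ∈ h.H := h.H.pow_mem hx s
    have huC : u ∈ C := huH.1
    have hul : u ^ l ^ a = 1 := by
      rw [hudef, ← pow_mul, mul_comm, ← hord, pow_orderOf_eq_one]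
    let π := QuotientGroup.mk' K
    have hmem : ∀ t, π t = 1 ↔ t ∈ K := fun t => by simp [π]
    have hA : (E.map π).Normal := Subgroup.Normal.map h.nE _ (QuotientGroup.mk'_surjective K)
    have hAl : ∀ a' ∈ E.map π, a' ^ l = 1 := by
      rintro _ ⟨w, hw, rfl⟩
      rw [← map_pow]
      exact (hmem _).2 (hEl w hw)
    have hA1 : E.map π ≠ ⊥ := by
      intro hbot
      apply hc.ne
      apply le_antisymm hc.le
      intro w hw
      have : π w ∈ E.map π := Subgroup.mem_map_of_mem π hw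
      rw [hbot] at this
      exact (hmem _).1 (by simpa using this)
    obtain ⟨b, ⟨w, hw, rfl⟩, hb1, hb⟩ := exists_fix hl (E.map π) hA hAl hA1 (π u) a (by
      rw [← map_pow, hul, map_one])
    have h1 : u * w * u⁻¹ * w⁻¹ ∈ K := by
      refine (hmem _).1 ?_
      simp only [map_mul, map_inv] at hb ⊢
      rw [hb]
      group
    have huF : u ∈ relCen hc.nK C E := by
      refine ⟨huC, ?_⟩
      rcases semireg h hc le_rfl huC with h2 | h2
      · exact h2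
      · exact absurd ((hmem _).2 (h2 w hw h1)) hb1
    exact H_inf_U h huH (F_le_U h hc g u huF)
  -- the `l'`-part
  have hx' : x ^ l ^ a ∉ E := by
    intro hh
    let π := QuotientGroup.mk' E
    have hmem : ∀ t, π t = 1 ↔ t ∈ E := fun t => by simp [π]
    have h1 : π x ^ s = 1 := by rw [← map_pow]; exact (hmem _).2 hu
    have h2 : π x ^ l ^ a = 1 := by rw [← map_pow]; exact (hmem _).2 hh
    have h3 : orderOf (π x) ∣ Nat.gcd s (l ^ a) :=
      Nat.dvd_gcd (orderOf_dvd_of_pow_eq_one h1) (orderOf_dvd_of_pow_eq_one h2)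
    rw [(hcop.pow_right a).gcd_eq_one, Nat.dvd_one, orderOf_eq_one_iff] at h3
    exact hxE ((hmem _).1 h3)
  have hx'H : x ^ l ^ a ∈ h.H := h.H.pow_mem hx _
  have hfix : ∀ w ∈ L', x ^ l ^ a * w * (x ^ l ^ a)⁻¹ * w⁻¹ ∈ K' → w ∈ K' := by
    intro w hw hww
    refine fpf_of_coprime h hc'.nK (x := x ^ l ^ a) (y := g) (s := s) (t := l) hx'H.1 ?_ ?_
      (hL' hw) hww (hl' w hw) hcop
    · intro hg
      exact hx' (H_inf_U h hx'H hg)
    · rw [← pow_mul, ← hord, pow_orderOf_eq_one]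
  rcases semireg h hc' hL' hxC with h1 | h1
  · exfalso
    apply hc'.ne
    apply le_antisymm hc'.le
    intro w hw
    apply hfix w hw
    let π := QuotientGroup.mk' K'
    have hmem : ∀ t, π t = 1 ↔ t ∈ K' := fun t => by simp [π]
    refine (hmem _).1 (mem_of_comm π ?_)
    have c1 : Commute (π x) (π w) := comm_of_mem π ((hmem _).2 (h1 w hw))
    rw [map_pow]
    exact c1.pow_left _
  · exact h1

end Cfsg.Agent.Lib.NoDiv.GLB
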