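import Cfsg.Agent.Lib.NoDiv.Deep1
import Cfsg.Agent.Lib.NoDiv.GLB
import Mathlib.Tactic

/-!
# No divisibility: the section `F` of `C` centralising the top chief factor is abelian
-/

set_option autoImplicit false
set_option linter.unusedSectionVars false
set_option linter.style.haveILetI false

namespace Cfsg.Agent.Lib.NoDiv.Deep2

open Cfsg Module Cfsg.Agent.Lib.NoDiv.Defs Cfsg.Agent.Lib.NoDiv.XLemma Cfsg.Agent.Lib.NoDiv.Camina
open Cfsg.Agent.Lib.NoDiv.Mid Cfsg.Agent.Lib.NoDiv.Deep1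
open Cfsg.Agent.Lib.NoDiv.GLA Cfsg.Agent.Lib.NoDiv.GLB
open Cfsg.Agent.Lib.Char.Basic Cfsg.Agent.Lib.Char.Ortho Cfsg.Agent.Lib.Char.Complete
open Cfsg.Agent.Lib.Char.Conj Cfsg.Agent.Lib.Char.Clifford Cfsg.Agent.Lib.Char.Induced
open Cfsg.Agent.Lib.Char.CliffordCorr Cfsg.Agent.Lib.Char.Linear Cfsg.Agent.Lib.Char.Degree

universe u

/-- Arithmetic of the final contradiction. -/
theorem arith {n A D : ℕ} (hA : 1 < A) (hD : 1 < D) (h1 : n ∣ A - 1) (h2 : n ∣ A * D - 1)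
    (h3 : A * D < n ^ 2) : False := by
  obtain ⟨a, rfl⟩ : ∃ a, A = a + 2 := ⟨A - 2, by omega⟩
  obtain ⟨d, rfl⟩ : ∃ d, D = d + 2 := ⟨D - 2, by omega⟩
  have e1 : a + 2 - 1 = a + 1 := by omega
  have e2 : (a + 2) * (d + 2) - 1 = (a + 1) * (d + 2) + (d + 1) := by
    have : (a + 2) * (d + 2) = (a + 1) * (d + 2) + (d + 1) + 1 := by ring
    omega
  rw [e1] at h1
  rw [e2] at h2
  have h4 : n ∣ d + 1 := (Nat.dvd_add_right (h1.mul_right _)).mp h2
  have h5 : n ≤ a + 1 := Nat.le_of_dvd (by omega) h1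
  have h6 : n ≤ d + 1 := Nat.le_of_dvd (by omega) h4
  nlinarith

theorem mem_commutator_subgroupOf {G : Type u} [Group G] {C A : Subgroup G} (hAC : A ≤ C) (c : C) :
    c ∈ (⁅A.subgroupOf C, A.subgroupOf C⁆ : Subgroup C) ↔ (c : G) ∈ (⁅A, A⁆ : Subgroup G) := by
  have h1 : (⁅A.subgroupOf C, A.subgroupOf C⁆ : Subgroup C).map C.subtype = ⁅A, A⁆ := by
    rw [Subgroup.map_commutator, Subgroup.map_subgroupOf_eq_of_le hAC]
  rw [← h1]
  constructor
  · intro h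
    exact ⟨c, h, rfl⟩
  · rintro ⟨y, hy, hyc⟩
    have : y = c := Subtype.ext hyc
    rwa [← this]

section Main

variable {G : Type u} [Group G] [Fintype G] {C E : Subgroup G} [Fintype C] {g z : G} {o p : ℕ}

theorem mem_E_iff (h : Cam C E g z o p) (c : C) : (c : G) ∈ E ↔ c ∈ commutator C := by
  rw [h.hE]
  exact mem_comm_iff c

theorem E_le_F (h : Cam C E g z o p) {K : Subgroup G} (hc : Chief K E) : E ≤ relCen hc.nK C E :=
  fun e he => ⟨h.leC he, fun b hb => chief_comm h hc le_rfl e he b hb⟩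

theorem Zt_le_F (h : Cam C E g z o p) {K : Subgroup G} (hc : Chief K E) :
    relCen hc.nK C C ≤ relCen hc.nK C E :=
  fun a ha => ⟨ha.1, fun b hb => ha.2 b (h.leC hb)⟩

theorem K_le_Zt (h : Cam C E g z o p) {K : Subgroup G} (hc : Chief K E) : K ≤ relCen hc.nK C C := by
  intro k hk
  refine ⟨h.leC (hc.le hk), fun b _ => ?_⟩
  have h1 := K.mul_mem hk (hc.nK.conj_mem _ (K.inv_mem hk) b)
  have h2 : k * b * k⁻¹ * b⁻¹ = k * (b * k⁻¹ * b⁻¹) := by group
  rw [h2]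
  exact h1

theorem z_not_mem_F (h : Cam C E g z o p) {K : Subgroup G} (hc : Chief K E) :
    z ∉ relCen hc.nK C E := by
  intro hz
  apply hc.ne
  apply le_antisymm hc.le
  intro w hw
  exact top_fpf h hc w hw (hz.2 w hw)

theorem exists_E_not_K {K : Subgroup G} (hc : Chief K E) : ∃ e ∈ E, e ∉ K := by
  by_contra hcon
  push Not at hcon
  exact hc.ne (le_antisymm hc.le hcon)

theorem exists_E_not_Zt (h : Cam C E g z o p) {K : Subgroup G} (hc : Chief K E) :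
    ∃ e ∈ E, e ∉ relCen hc.nK C C := by
  obtain ⟨e, he, heK⟩ := exists_E_not_K hc
  exact ⟨e, he, fun hz => heK (E_inf_Zt h hc e he hz)⟩

/-- The data of the section `F`, seen in `C`. -/
theorem F_data (h : Cam C E g z o p) {K : Subgroup G} (hc : Chief K E) :
    ((relCen hc.nK C E).subgroupOf C).Normal ∧ ((relCen hc.nK C C).subgroupOf C).Normal ∧
    (relCen hc.nK C C).subgroupOf C ≤ (relCen hc.nK C E).subgroupOf C ∧
    (∀ a b : C, a * b * a⁻¹ * b⁻¹ ∈ (relCen hc.nK C E).subgroupOf C) ∧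
    (∀ a ∈ (relCen hc.nK C E).subgroupOf C, ∀ b ∈ (relCen hc.nK C E).subgroupOf C,
      a * b * a⁻¹ * b⁻¹ ∈ (relCen hc.nK C C).subgroupOf C) ∧
    (∀ c, c ∉ (relCen hc.nK C E).subgroupOf C → ∀ f ∈ (relCen hc.nK C E).subgroupOf C,
      c * f * c⁻¹ * f⁻¹ ∈ (relCen hc.nK C C).subgroupOf C → f ∈ (relCen hc.nK C C).subgroupOf C) ∧
    (∃ f ∈ (relCen hc.nK C E).subgroupOf C, f ∉ (relCen hc.nK C C).subgroupOf C) ∧
    1 < ((relCen hc.nK C E).subgroupOf C).index := by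
  refine ⟨(relCen_normal hc.nK h.hC h.nE).subgroupOf C, (relCen_normal hc.nK h.hC h.hC).subgroupOf C,
    ?_, ?_, ?_, ?_, ?_, ?_⟩
  · intro a ha
    exact Zt_le_F h hc ha
  · intro a b
    exact E_le_F h hc (h.cE a a.2 b b.2)
  · intro a ha b hb
    exact K_le_Zt h hc (F_comm h hc a ha b hb)
  · intro c hc' f hf hcf
    exact fpf_Zt h hc c c.2 hc' f hf hcf
  · obtain ⟨e, he, heZ⟩ := exists_E_not_Zt h hc
    exact ⟨⟨e, h.leC he⟩, E_le_F h hc he, heZ⟩
  · have h0 : ((relCen hc.nK C E).subgroupOf C).index ≠ 0 := Subgroup.index_ne_zero_of_finite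
    have h1 : ((relCen hc.nK C E).subgroupOf C).index ≠ 1 := by
      intro h1
      have h2 := Subgroup.index_eq_one.mp h1
      apply z_not_mem_F h hc
      have h3 : (⟨z, h.hz⟩ : C) ∈ (relCen hc.nK C E).subgroupOf C := by
        rw [h2]
        trivial
      exact h3
    omega

/-- The adjoint data modulo a chief factor `W / K₄`, where `W = F'`. -/
theorem adj_data (h : Cam C E g z o p) (hnd : NoDiv C) {K K₄ : Subgroup G} (hc : Chief K E)
    (hc₄ : Chief K₄ ⁅relCen hc.nK C E, relCen hc.nK C E⁆) :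
    (∀ f ∈ relCen hc.nK C E, ∀ w ∈ (⁅relCen hc.nK C E, relCen hc.nK C E⁆ : Subgroup G),
      f * w * f⁻¹ * w⁻¹ ∈ K₄) ∧
    (∀ f ∈ relCen hc.nK C E, f ∉ relCen hc.nK C C →
      ∀ w ∈ (⁅relCen hc.nK C E, relCen hc.nK C E⁆ : Subgroup G),
        ∃ e ∈ E, (f * e * f⁻¹ * e⁻¹) * w⁻¹ ∈ K₄) := by
  classical
  set F := relCen hc.nK C E with hF
  set Zt := relCen hc.nK C C with hZt
  obtain ⟨hFn, hZn, hZF, hab, hCZ, hfpf, hne, hα1⟩ := F_data h hc
  have hFC : F ≤ C := fun a ha => ha.1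
  have hWE : (⁅F, F⁆ : Subgroup G) ≤ E := by
    rw [h.hE]
    exact Subgroup.commutator_mono hFC hFC
  have hWK : (⁅F, F⁆ : Subgroup G) ≤ K := by
    rw [Subgroup.commutator_le]
    intro a ha b hb
    rw [commutatorElement_def]
    exact F_comm h hc a ha b hb
  have hWC : (⁅F, F⁆ : Subgroup G) ≤ C := hWE.trans h.leC
  have hK₄Zt : K₄ ≤ Zt := hc₄.le.trans (hWK.trans (K_le_Zt h hc))
  have hK₄C : K₄ ≤ C := hK₄Zt.trans fun a ha => ha.1
  have hmemW := mem_commutator_subgroupOf (C := C) hFC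
  have hEdef : (commutator C) ≤ F.subgroupOf C := by
    intro c hc'
    exact E_le_F h hc ((mem_E_iff h c).2 hc')
  obtain ⟨O1, O2⟩ := q78_mod (F := F.subgroupOf C) (Zt := Zt.subgroupOf C) (E := commutator C)
    (W := ⁅F.subgroupOf C, F.subgroupOf C⁆) (K₄ := K₄.subgroupOf C)
    hFn hZn rfl hEdef hZF hCZ hfpf hnd hα1 rfl (hc₄.nK.subgroupOf C)
    (fun k hk => hK₄Zt hk)
    (fun k hk => (hmemW k).2 (hc₄.le hk))
    (by
      intro he
      apply hc₄.ne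
      apply le_antisymm hc₄.le
      intro w hw
      have h1 : (⟨w, hWC hw⟩ : C) ∈ ⁅F.subgroupOf C, F.subgroupOf C⁆ := (hmemW _).2 hw
      rw [← he] at h1
      exact h1)
    (by
      intro w hw e he
      exact chief_comm h hc₄ hWE w ((hmemW w).1 hw) e ((mem_E_iff h e).2 he))
    (by
      intro c
      rcases semireg h hc₄ hWE c.2 with h1 | h1
      · left
        intro w hw
        exact h1 w ((hmemW w).1 hw)
      · right
        intro w hw hcw
        exact h1 w ((hmemW w).1 hw) hcw)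
    (by
      obtain ⟨e, he, heZ⟩ := exists_E_not_Zt h hc
      exact ⟨⟨e, h.leC he⟩, (mem_E_iff h _).1 he, heZ⟩)
    (by
      intro f hf
      obtain ⟨e, he, ζ, hζ, hfe⟩ := F_eq h hc f hf
      refine ⟨⟨e, h.leC he⟩, (mem_E_iff h _).1 he, ⟨ζ, hζ.1⟩, hζ, ?_⟩
      apply Subtype.ext
      exact hfe)
  constructor
  · intro f hf w hw
    exact O1 ⟨f, hFC hf⟩ hf ⟨w, hWC hw⟩ ((hmemW _).2 hw)
  · intro f hf hfZ w hw
    obtain ⟨e, he, hew⟩ := O2 ⟨f, hFC hf⟩ hf hfZ ⟨w, hWC hw⟩ ((hmemW _).2 hw)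
    exact ⟨e, (mem_E_iff h e).2 he, hew⟩

end Main

end Cfsg.Agent.Lib.NoDiv.Deep2
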