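import Cfsg.Agent.Lib.NoDiv.Q9

/-!
# No divisibility: group theory of the final case, part C (counting)
-/

set_option autoImplicit false
set_option linter.unusedSectionVars false
set_option linter.unusedVariables false
set_option linter.style.haveILetI false

namespace Cfsg.Agent.Lib.NoDiv.GLC

open Cfsg Cfsg.Agent.Lib.NoDiv.Defs
open Cfsg.Agent.Lib.NoDiv.GLA Cfsg.Agent.Lib.NoDiv.GLB Cfsg.Agent.Lib.NoDiv.Q9

universe u

/-- A group action all of whose stabilizers have index `f`. -/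
theorem dvd_card_of_index {H X : Type*} [Group H] [Finite H] [MulAction H X] [Finite X]
    (f : ℕ) (hf : ∀ x : X, (MulAction.stabilizer H x).index = f) : f ∣ Nat.card X := by
  classical
  letI := Fintype.ofFinite X
  letI := Fintype.ofFinite H
  letI := Fintype.ofFinite (MulAction.orbitRel.Quotient H X)
  rw [Nat.card_congr (MulAction.selfEquivSigmaOrbits H X), Nat.card_sigma]
  apply Finset.dvd_sum
  intro ω _
  have h2 := MulAction.index_stabilizer H (Quotient.out ω)
  rw [hf] at h2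
  rw [h2, Nat.card_coe_set_eq]

variable {G : Type u} [Group G] [Finite G] {C E : Subgroup G} {g z : G} {o p : ℕ}

/-- `n` divides `|L' : K'| - 1`. -/
theorem n_dvd (h : Cam C E g z o p) {K K' L' : Subgroup G} {l : ℕ} (hc : Chief K E)
    (hl : l.Prime) (hEl : ∀ w ∈ E, w ^ l ∈ K) (hc' : Chief K' L') (hL' : L' ≤ E)
    (hl' : ∀ w ∈ L', w ^ l ∈ K') :
    E.relIndex h.H ∣ K'.relIndex L' - 1 := by
  classical
  haveI hKn := hc'.nK
  haveI hLn := hc'.nL
  let π := QuotientGroup.mk' K'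
  have hπ : ∀ t, π t = 1 ↔ t ∈ K' := fun t => by simp [π]
  let S : Set (G ⧸ K') := (L'.map π : Set (G ⧸ K'))
  let Y : Set (G ⧸ K') := S \ {1}
  have hact : ∀ (a : G), ∀ y ∈ Y, π a * y * (π a)⁻¹ ∈ Y := by
    rintro a y ⟨hy, hy1⟩
    obtain ⟨w, hw, rfl⟩ := Subgroup.mem_map.1 hy
    refine ⟨Subgroup.mem_map.2 ⟨a * w * a⁻¹, hLn.conj_mem w hw a, ?_⟩, ?_⟩
    · simp only [map_mul, map_inv]
    · intro h1
      apply hy1
      have h2 : π a * π w * (π a)⁻¹ = 1 := h1
      have h3 : π w = (π a)⁻¹ * (π a * π w * (π a)⁻¹) * π a := by group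
      rw [h3, h2]
      simp
  letI : MulAction h.H Y :=
    { smul := fun a y => ⟨π (a : G) * y * (π (a : G))⁻¹, hact a y y.2⟩
      one_smul := by
        intro y
        apply Subtype.ext
        change π ((1 : h.H) : G) * y * (π ((1 : h.H) : G))⁻¹ = y
        simp
      mul_smul := by
        intro a b y
        apply Subtype.ext
        change π ((a * b : h.H) : G) * y * (π ((a * b : h.H) : G))⁻¹ =
          π (a : G) * (π (b : G) * y * (π (b : G))⁻¹) * (π (a : G))⁻¹
        simp only [Subgroup.coe_mul, map_mul]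
        group }
  have hsmul : ∀ (a : h.H) (y : Y), ((a • y : Y) : G ⧸ K') = π (a : G) * y * (π (a : G))⁻¹ :=
    fun _ _ => rfl
  have hst : ∀ y : Y, MulAction.stabilizer h.H y = E.subgroupOf h.H := by
    rintro ⟨y, hy, hy1⟩
    obtain ⟨w, hw, rfl⟩ := Subgroup.mem_map.1 hy
    have hwK : w ∉ K' := fun hwK => hy1 ((hπ w).2 hwK)
    ext ⟨a, ha⟩
    rw [MulAction.mem_stabilizer_iff, Subgroup.mem_subgroupOf]
    constructor
    · intro hfix
      by_contra haE
      have h1 := H_fpf h hc hl hEl hc' hL' hl' ha haE w hw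
      apply hwK
      apply h1
      rw [← hπ]
      have h2 := congrArg Subtype.val hfix
      have h3 : π a * π w * (π a)⁻¹ = π w := h2
      simp only [map_mul, map_inv]
      rw [h3, mul_inv_cancel]
    · intro haE
      apply Subtype.ext
      change π a * π w * (π a)⁻¹ = π w
      have h1 := chief_comm h hc' hL' w hw a haE
      have h2 : π (w * a * w⁻¹ * a⁻¹) = 1 := (hπ _).2 h1
      simp only [map_mul, map_inv] at h2
      have h3 : π w * π a = π a * π w := by
        calc π w * π a = (π w * π a * (π w)⁻¹ * (π a)⁻¹) * (π a * π w) := by group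
          _ = π a * π w := by rw [h2, one_mul]
      rw [← h3]
      group
  have h1 : E.relIndex h.H ∣ Nat.card Y := by
    apply dvd_card_of_index (H := h.H) (X := Y)
    intro y
    rw [hst y]
    rfl
  have h2 : Nat.card Y = Nat.card (L'.map π) - 1 := by
    rw [Nat.card_coe_set_eq]
    have : Y = S \ {1} := rfl
    rw [this, Set.ncard_sdiff_singleton_of_mem (show (1 : G ⧸ K') ∈ S from (L'.map π).one_mem)]
    rw [← Nat.card_coe_set_eq]
    rfl
  have h3 : Nat.card (L'.map π) = K'.relIndex L' := by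
    have e1 : (π.comp L'.subtype).ker = K'.subgroupOf L' := by
      ext x
      rw [MonoidHom.mem_ker, Subgroup.mem_subgroupOf]
      exact hπ _
    have e2 : (π.comp L'.subtype).range = L'.map π := by
      rw [MonoidHom.range_comp, Subgroup.range_subtype]
    rw [Subgroup.relIndex, ← e1, Subgroup.index_ker, e2]
  rw [← h3, ← h2]
  exact h1

/-- The fixed points of `t` on `E / K`. -/
def fixS {K : Subgroup G} (hK : K.Normal) (E : Subgroup G) (t : G) : Subgroup G where
  carrier := {e | e ∈ E ∧ t * e * t⁻¹ * e⁻¹ ∈ K}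
  one_mem' := ⟨E.one_mem, by simp [K.one_mem]⟩
  mul_mem' := by
    rintro a b ⟨ha, ha'⟩ ⟨hb, hb'⟩
    refine ⟨E.mul_mem ha hb, ?_⟩
    have : t * (a * b) * t⁻¹ * (a * b)⁻¹ = (t * a * t⁻¹ * a⁻¹) * (a * (t * b * t⁻¹ * b⁻¹) * a⁻¹) := by
      group
    rw [this]
    exact K.mul_mem ha' (hK.conj_mem _ hb' a)
  inv_mem' := by
    rintro a ⟨ha, ha'⟩
    refine ⟨E.inv_mem ha, ?_⟩
    have h1 := hK.conj_mem _ (K.inv_mem ha') a⁻¹
    have : t * a⁻¹ * t⁻¹ * a⁻¹⁻¹ = a⁻¹ * (t * a * t⁻¹ * a⁻¹)⁻¹ * a⁻¹⁻¹ := by group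
    rw [this]
    exact h1

theorem mem_fixS {K : Subgroup G} (hK : K.Normal) (E : Subgroup G) (t e : G) :
    e ∈ fixS hK E t ↔ e ∈ E ∧ t * e * t⁻¹ * e⁻¹ ∈ K := Iff.rfl

theorem fixS_map {K : Subgroup G} (hK : K.Normal) {E : Subgroup G} (hE : E.Normal) (t b : G) :
    (fixS hK E t).map (MulAut.conj b).toMonoidHom = fixS hK E (b * t * b⁻¹) := by
  ext x
  simp only [Subgroup.mem_map, MulEquiv.coe_toMonoidHom, MulAut.conj_apply, mem_fixS]
  constructor
  · rintro ⟨e, ⟨he, he'⟩, rfl⟩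
    refine ⟨hE.conj_mem e he b, ?_⟩
    have : b * t * b⁻¹ * (b * e * b⁻¹) * (b * t * b⁻¹)⁻¹ * (b * e * b⁻¹)⁻¹ =
        b * (t * e * t⁻¹ * e⁻¹) * b⁻¹ := by group
    rw [this]
    exact hK.conj_mem _ he' b
  · rintro ⟨hx, hx'⟩
    refine ⟨b⁻¹ * x * b, ⟨?_, ?_⟩, by group⟩
    · have := hE.conj_mem x hx b⁻¹
      simpa using this
    · have := hK.conj_mem _ hx' b⁻¹
      have e : t * (b⁻¹ * x * b) * t⁻¹ * (b⁻¹ * x * b)⁻¹ =
          b⁻¹ * (b * t * b⁻¹ * x * (b * t * b⁻¹)⁻¹ * x⁻¹) * b⁻¹⁻¹ := by group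
      rw [e]
      exact this

theorem map_conj_normal {K : Subgroup G} (hK : K.Normal) (b : G) :
    K.map (MulAut.conj b).toMonoidHom = K := by
  ext x
  simp only [Subgroup.mem_map, MulEquiv.coe_toMonoidHom, MulAut.conj_apply]
  constructor
  · rintro ⟨k, hk, rfl⟩
    exact hK.conj_mem k hk b
  · intro hx
    refine ⟨b⁻¹ * x * b, ?_, by group⟩
    have := hK.conj_mem x hx b⁻¹
    simpa using this

theorem card_filter_diff [Fintype G] {K S : Subgroup G}
    [DecidablePred fun x : G => x ∈ S ∧ x ∉ K] (hKS : K ≤ S) :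
    (Finset.univ.filter (fun x : G => x ∈ S ∧ x ∉ K)).card = Nat.card S - Nat.card K := by
  classical
  have h1 : Finset.univ.filter (fun x : G => x ∈ S ∧ x ∉ K) =
      (Finset.univ.filter (fun x : G => x ∈ S)) \ (Finset.univ.filter (fun x : G => x ∈ K)) := by
    ext x
    simp
  rw [h1, Finset.card_sdiff_of_subset (fun x hx => by
    simp only [Finset.mem_filter, Finset.mem_univ, true_and] at hx ⊢
    exact hKS hx)]
  have h2 : ∀ T : Subgroup G, (Finset.univ.filter (fun x : G => x ∈ T)).card = Nat.card T := by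
    intro T
    rw [Nat.card_eq_fintype_card, Fintype.card_subtype]
  rw [h2, h2]

theorem arith {N n q : ℕ} (hNgt : 1 < N) (hqpos : 0 < q) (hcount : N - 1 ≤ n * (q - 1))
    (hsq : q * q ≤ N) : N < n ^ 2 := by
  have hq2 : 2 ≤ q := by
    by_contra hq1
    have : q = 1 := by omega
    subst this
    simp at hcount
    omega
  obtain ⟨r, rfl⟩ : ∃ r, q = r + 2 := ⟨q - 2, by omega⟩
  have e : r + 2 - 1 = r + 1 := by omega
  rw [e] at hcount
  have h1 : (r + 3) * (r + 1) ≤ n * (r + 1) := by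
    have : (r + 3) * (r + 1) + 1 = (r + 2) * (r + 2) := by ring
    omega
  have hn : r + 3 ≤ n := Nat.le_of_mul_le_mul_right h1 (by omega)
  obtain ⟨m, rfl⟩ : ∃ m, n = r + 3 + m := ⟨n - (r + 3), by omega⟩
  have h2 : N ≤ (r + 3 + m) * (r + 1) + 1 := by omega
  nlinarith

/-- The size of the top chief factor. -/
theorem size_lt (h : Cam C E g z o p) {K : Subgroup G} {l : ℕ} (hc : Chief K E)
    (hl : l.Prime) (hEl : ∀ w ∈ E, w ^ l ∈ K)
    (hcop : Nat.Coprime ((relCen hc.nK C E).relIndex C) o) :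
    K.relIndex E < (E.relIndex h.H) ^ 2 := by
  classical
  letI : Fintype G := Fintype.ofFinite G
  haveI hEn := h.nE
  haveI hCn := h.hC
  haveI hKn := hc.nK
  have hEC := h.leC
  have hKE := hc.le
  have hHC : ∀ t ∈ h.H, t ∈ C := fun t ht => ht.1
  -- quotients
  let πK := QuotientGroup.mk' K
  have hπK : ∀ t, πK t = 1 ↔ t ∈ K := fun t => by simp [πK]
  let π₀ := QuotientGroup.mk' E
  have hπ₀ : ∀ t, π₀ t = 1 ↔ t ∈ E := fun t => by simp [π₀]
  let D₁ := relCen hc.nK (⊤ : Subgroup G) E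
  haveI hD₁ : D₁.Normal := relCen_normal hc.nK inferInstance h.nE
  have hED₁ : E ≤ D₁ := fun e he => ⟨trivial, fun b hb => chief_comm h hc le_rfl e he b hb⟩
  let ρ := QuotientGroup.mk' D₁
  have hρ : ∀ t, ρ t = 1 ↔ t ∈ D₁ := fun t => by simp [ρ]
  have hρcomm : ∀ a ∈ C, ∀ b ∈ C, ρ a * ρ b = ρ b * ρ a := by
    intro a ha b hb
    have h1 : ρ (a * b * a⁻¹ * b⁻¹) = 1 := (hρ _).2 (hED₁ (h.cE a ha b hb))
    simp only [map_mul, map_inv] at h1
    calc ρ a * ρ b = (ρ a * ρ b * (ρ a)⁻¹ * (ρ b)⁻¹) * (ρ b * ρ a) := by group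
      _ = ρ b * ρ a := by rw [h1, one_mul]
  -- the action on `E / K` only depends on the image in `G / D₁`
  have hact : ∀ s t, ρ s = ρ t → ∀ e ∈ E, πK (s * e * s⁻¹) = πK (t * e * t⁻¹) := by
    intro s t hst e he
    have h1 : t⁻¹ * s ∈ D₁ := by
      rw [← hρ, map_mul, map_inv, hst, inv_mul_cancel]
    have h2 := h1.2 e he
    have h3 : πK ((t⁻¹ * s) * e * (t⁻¹ * s)⁻¹ * e⁻¹) = 1 := (hπK _).2 h2
    have h4 : πK ((t⁻¹ * s) * e * (t⁻¹ * s)⁻¹) = πK e := by
      rw [map_mul _ _ e⁻¹, map_inv] at h3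
      exact mul_inv_eq_one.1 h3
    have h5 : s * e * s⁻¹ = t * ((t⁻¹ * s) * e * (t⁻¹ * s)⁻¹) * t⁻¹ := by group
    rw [h5, map_mul, map_mul, h4, ← map_mul, ← map_mul]
  have hmemS : ∀ t e, e ∈ E → πK (t * e * t⁻¹) = πK e → e ∈ fixS hc.nK E t := by
    intro t e he h1
    refine ⟨he, ?_⟩
    rw [← hπK, map_mul, map_inv, h1, mul_inv_cancel]
  have hSmem : ∀ t e, e ∈ fixS hc.nK E t → πK (t * e * t⁻¹) = πK e := by
    intro t e he
    have h1 : πK (t * e * t⁻¹ * e⁻¹) = 1 := (hπK _).2 he.2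
    rw [map_mul _ _ e⁻¹, map_inv] at h1
    exact mul_inv_eq_one.1 h1
  -- the element `η`
  obtain ⟨e₀, he₀, he₀K⟩ : ∃ s ∈ E, s ∉ K := by
    by_contra hne
    push Not at hne
    exact hc.ne (le_antisymm hKE hne)
  obtain ⟨b₀, hb₀, hb₀e⟩ := h.cf2 g e₀ (hEC he₀) (E.mul_mem (hEn.conj_mem e₀ he₀ g) (E.inv_mem he₀))
  set η := b₀⁻¹ * g with hη
  have hηe : η * e₀ * η⁻¹ = e₀ := by
    have : η * e₀ * η⁻¹ = b₀⁻¹ * (g * e₀ * g⁻¹) * b₀ := by simp only [hη]; group
    rw [this, ← hb₀e]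
    group
  let F := relCen hc.nK C E
  haveI hFn : F.Normal := relCen_normal hc.nK h.hC h.nE
  have hFD : F ≤ D₁ := fun f hf => ⟨trivial, hf.2⟩
  -- semiregularity
  have hsem : ∀ c ∈ C, ∀ e ∈ E, e ∉ K → πK (c * e * c⁻¹) = πK e → c ∈ F := by
    intro c hc' e he heK h1
    have h2 : c * e * c⁻¹ * e⁻¹ ∈ K := by
      rw [← hπK, map_mul, map_inv, h1, mul_inv_cancel]
    rcases semireg h hc le_rfl hc' with h3 | h3
    · exact ⟨hc', h3⟩
    · exact absurd (h3 e he h2) heK
  -- `η ^ o ∈ F`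
  have hηoC : η ^ o ∈ C := by
    let πC := QuotientGroup.mk' C
    have hπC : ∀ t, πC t = 1 ↔ t ∈ C := fun t => by simp [πC]
    rw [← hπC, map_pow, hη, map_mul, map_inv, (hπC b₀).2 hb₀, inv_one, one_mul, ← map_pow,
      hπC]
    exact h.hgo
  have hηoF : η ^ o ∈ F := by
    apply hsem _ hηoC e₀ he₀ he₀K
    have hc1 : Commute η e₀ := by
      have : η * e₀ = e₀ * η := by
        calc η * e₀ = η * e₀ * η⁻¹ * η := by group
          _ = e₀ * η := by rw [hηe]
      exact this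
    have : η ^ o * e₀ * (η ^ o)⁻¹ = e₀ := by
      have h2 : η ^ o * e₀ = e₀ * η ^ o := (hc1.pow_left o).eq
      rw [h2]
      group
    rw [this]
  -- modulo `E`
  have hcommη : ∀ b ∈ C, π₀ (b * η * b⁻¹ * η⁻¹) = π₀ (g * b⁻¹ * g⁻¹ * b) := by
    intro b hb
    have h1 : g * b⁻¹ * g⁻¹ ∈ C := hCn.conj_mem _ (C.inv_mem hb) g
    have c1 := comm_of_E h h1 hb₀
    have c2 := comm_of_E h h1 hb
    have e : b * η * b⁻¹ * η⁻¹ = b * b₀⁻¹ * (g * b⁻¹ * g⁻¹) * b₀ := by simp only [hη]; group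
    rw [e]
    have c1' : π₀ (g * b⁻¹ * g⁻¹) * π₀ b₀ = π₀ b₀ * π₀ (g * b⁻¹ * g⁻¹) := c1
    have c2' : π₀ (g * b⁻¹ * g⁻¹) * π₀ b = π₀ b * π₀ (g * b⁻¹ * g⁻¹) := c2
    rw [map_mul _ _ b, map_mul _ _ b₀, map_mul _ _ (g * b⁻¹ * g⁻¹), map_mul _ b, map_inv]
    calc π₀ b * (π₀ b₀)⁻¹ * π₀ (g * b⁻¹ * g⁻¹) * π₀ b₀
        = π₀ b * (π₀ b₀)⁻¹ * (π₀ (g * b⁻¹ * g⁻¹) * π₀ b₀) := by group
      _ = π₀ b * π₀ (g * b⁻¹ * g⁻¹) := by rw [c1']; group
      _ = π₀ (g * b⁻¹ * g⁻¹) * π₀ b := c2'.symm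
  -- covering
  have hcover : ∀ e ∈ E, e ∉ K → ∃ b ∈ h.H, e ∈ fixS hc.nK E (b * η * b⁻¹) := by
    intro e he heK
    obtain ⟨c, hcC, hce⟩ := h.cf2 η e (hEC he) (E.mul_mem (hEn.conj_mem e he η) (E.inv_mem he))
    -- split `c = u * x`
    have hdc : g * c * g⁻¹ * c⁻¹ ∈ h.H := by
      refine ⟨h.hGC g c, c, hcC, ?_⟩
      rw [inv_mul_cancel]
      exact E.one_mem
    obtain ⟨x, hx, hxd⟩ := exists_d h hdc
    have hxC := hHC x hx
    set u := c * x⁻¹ with hu
    have huC : u ∈ C := C.mul_mem hcC (C.inv_mem hxC)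
    have hgu : g * u * g⁻¹ * u⁻¹ ∈ E := by
      apply comm_div h hcC hxC
      have h1 : π₀ ((g * c * g⁻¹ * c⁻¹)⁻¹ * (g * x * g⁻¹ * x⁻¹)) = 1 := (hπ₀ _).2 hxd
      rw [map_mul, map_inv] at h1
      exact inv_mul_eq_one.1 h1
    have hcux : c = u * x := by simp only [hu]; group
    -- choose `b`
    have hxi : x⁻¹ ∈ h.H := (h.H).inv_mem hx
    obtain ⟨y, hy, hyd⟩ := exists_d h hxi
    have hyC := hHC y hy
    set b := y⁻¹ with hb
    have hbH : b ∈ h.H := (h.H).inv_mem hy
    have hbC := hHC b hbH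
    refine ⟨b, hbH, ?_⟩
    set η' := b * η * b⁻¹ with hη'
    set w := b * η * b⁻¹ * η⁻¹ with hw
    have hw0 : π₀ w = (π₀ x)⁻¹ := by
      rw [hw, hcommη b hbC]
      have h1 : π₀ ((x⁻¹)⁻¹ * (g * y * g⁻¹ * y⁻¹)) = 1 := (hπ₀ _).2 hyd
      rw [map_mul, map_inv, map_inv, inv_inv] at h1
      have h2 : π₀ x * π₀ (g * y * g⁻¹ * y⁻¹) = 1 := h1
      have h3 : g * b⁻¹ * g⁻¹ * b = g * y * g⁻¹ * y⁻¹ := by simp only [hb, inv_inv]
      rw [h3]
      exact eq_inv_of_mul_eq_one_right h2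
    have hwρ : ρ w = (ρ x)⁻¹ := by
      have h1 : w * x ∈ E := by
        rw [← hπ₀, map_mul, hw0, inv_mul_cancel]
      have h2 : ρ (w * x) = 1 := (hρ _).2 (hED₁ h1)
      rw [map_mul] at h2
      exact eq_inv_of_mul_eq_one_left h2
    have hwC : w ∈ C := h.hGC _ _
    -- `η'` acts on `e` like `u`
    have hact1 : πK (η' * e * η'⁻¹) = πK (u * e * u⁻¹) := by
      have e1 : η' * e * η'⁻¹ = (w * c) * e * (w * c)⁻¹ := by
        have : η' * e * η'⁻¹ = w * (η * e * η⁻¹) * w⁻¹ := by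
          simp only [hη', hw]
          group
        rw [this, ← hce]
        group
      rw [e1]
      apply hact _ _ _ e he
      rw [map_mul, hwρ, hcux, map_mul]
      have c1 := hρcomm u huC x hxC
      rw [c1]
      group
    -- `η'` and `u` commute modulo `D₁`
    have hcomm' : ρ η' * ρ u = ρ u * ρ η' := by
      have c1 : Commute (ρ g) (ρ u) := by
        have h1 : ρ (g * u * g⁻¹ * u⁻¹) = 1 := (hρ _).2 (hED₁ hgu)
        simp only [map_mul, map_inv] at h1
        show ρ g * ρ u = ρ u * ρ g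
        calc ρ g * ρ u = (ρ g * ρ u * (ρ g)⁻¹ * (ρ u)⁻¹) * (ρ u * ρ g) := by group
          _ = ρ u * ρ g := by rw [h1, one_mul]
      have c2 : Commute (ρ b₀) (ρ u) := hρcomm b₀ hb₀ u huC
      have c3 : Commute (ρ b) (ρ u) := hρcomm b hbC u huC
      have c4 : Commute (ρ η') (ρ u) := by
        simp only [hη', hη, map_mul, map_inv]
        exact ((c3.mul_left (c2.inv_left.mul_left c1)).mul_left c3.inv_left)
      exact c4
    -- powers
    have hpow : ∀ k : ℕ, πK (η' ^ k * e * (η' ^ k)⁻¹) = πK (u ^ k * e * (u ^ k)⁻¹) := by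
      intro k
      induction k with
      | zero => simp
      | succ k ih =>
        have hconj : η' ^ k * e * (η' ^ k)⁻¹ ∈ E := hEn.conj_mem e he _
        have c1 : ρ (η' ^ k * u) = ρ (u * η' ^ k) := by
          simp only [map_mul, map_pow]
          exact ((show Commute (ρ η') (ρ u) from hcomm').pow_left k).eq
        have e1 := hact _ _ c1 e he
        calc πK (η' ^ (k + 1) * e * (η' ^ (k + 1))⁻¹)
            = πK (η' ^ k) * πK (η' * e * η'⁻¹) * (πK (η' ^ k))⁻¹ := by
              simp only [pow_succ, map_mul, map_inv, mul_inv_rev]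
              group
          _ = πK (η' ^ k) * πK (u * e * u⁻¹) * (πK (η' ^ k))⁻¹ := by rw [hact1]
          _ = πK ((η' ^ k * u) * e * (η' ^ k * u)⁻¹) := by
              simp only [map_mul, map_inv, mul_inv_rev]
              group
          _ = πK ((u * η' ^ k) * e * (u * η' ^ k)⁻¹) := e1
          _ = πK u * πK (η' ^ k * e * (η' ^ k)⁻¹) * (πK u)⁻¹ := by
              simp only [map_mul, map_inv, mul_inv_rev]
              group
          _ = πK u * πK (u ^ k * e * (u ^ k)⁻¹) * (πK u)⁻¹ := by rw [ih]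
          _ = πK (u ^ (k + 1) * e * (u ^ (k + 1))⁻¹) := by
              simp only [pow_succ', map_mul, map_inv, mul_inv_rev]
              group
    have hη'o : η' ^ o ∈ F := by
      have : η' ^ o = b * η ^ o * b⁻¹ := by
        simp only [hη', conj_pow]
      rw [this]
      exact hFn.conj_mem _ hηoF b
    have hη'oρ : ρ (η' ^ o) = ρ 1 := by
      rw [map_one, hρ]
      exact hFD hη'o
    have huo : u ^ o ∈ F := by
      apply hsem _ (C.pow_mem huC o) e he heK
      rw [← hpow o]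
      have := hact _ _ hη'oρ e he
      simpa using this
    have huF : u ∈ F := by
      let πF := QuotientGroup.mk' F
      have hπF : ∀ t, πF t = 1 ↔ t ∈ F := fun t => by simp [πF]
      have h1 : πF u ^ o = 1 := by
        rw [← map_pow, hπF]
        exact huo
      have h2 : πF u ^ (F.relIndex C) = 1 := by
        rw [← map_pow, hπF]
        haveI hFC : (F.subgroupOf C).Normal := Subgroup.Normal.subgroupOf hFn C
        have := Subgroup.pow_index_mem (F.subgroupOf C) (⟨u, huC⟩ : C)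
        rw [Subgroup.mem_subgroupOf] at this
        simpa [Subgroup.relIndex] using this
      have h3 : πF u ^ Nat.gcd (F.relIndex C) o = 1 := pow_gcd_eq_one.2 ⟨h2, h1⟩
      rw [hcop.gcd_eq_one, pow_one] at h3
      exact (hπF u).1 h3
    have huρ : ρ u = ρ 1 := by
      rw [map_one, hρ]
      exact hFD huF
    apply hmemS _ _ he
    rw [hact1]
    have := hact _ _ huρ e he
    simpa using this
  -- the family
  have hrne : ∀ A B : Subgroup G, A.relIndex B ≠ 0 := fun A B => by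
    rw [Subgroup.relIndex]
    exact Subgroup.index_ne_zero_of_finite
  haveI hfin : ∀ A B : Subgroup G, A.IsFiniteRelIndex B := fun A B => ⟨hrne A B⟩
  set S₁ := fixS hc.nK E η with hS₁
  have hKS : ∀ t, K ≤ fixS hc.nK E t := by
    intro t k hk
    refine ⟨hKE hk, ?_⟩
    exact K.mul_mem (hKn.conj_mem k hk t) (K.inv_mem hk)
  have hSE : ∀ t, fixS hc.nK E t ≤ E := fun t e he => he.1
  set q := K.relIndex S₁ with hq
  set N := K.relIndex E with hN
  set n := E.relIndex h.H with hn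
  have hri : ∀ b, K.relIndex (fixS hc.nK E (b * η * b⁻¹)) = q := by
    intro b
    have := Subgroup.relIndex_map_map_of_injective (f := (MulAut.conj b).toMonoidHom) K
      (fixS hc.nK E η) (MulAut.conj b).injective
    rw [map_conj_normal hKn b, fixS_map hc.nK hEn η b] at this
    exact this
  have hcardeq : ∀ {A B : Subgroup G}, A ≤ B → Nat.card B = Nat.card A * A.relIndex B := by
    intro A B hAB
    have h1 := Subgroup.card_mul_index (A.subgroupOf B)
    rw [Subgroup.relIndex, ← h1]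
    congr 1
    exact Nat.card_congr (Subgroup.subgroupOfEquivOfLe hAB).toEquiv
  have hcardK : 0 < Nat.card K := Nat.card_pos
  -- covering count
  have hcount : N - 1 ≤ n * (q - 1) := by
    let ι := (h.H) ⧸ (E.subgroupOf h.H)
    letI : Fintype ι := Fintype.ofFinite ι
    let r : ι → G := fun ω => ((Quotient.out ω : h.H) : G)
    have hcov : (Finset.univ.filter (fun x : G => x ∈ E ∧ x ∉ K)) ⊆
        Finset.univ.biUnion (fun ω : ι =>
          Finset.univ.filter (fun x : G => x ∈ fixS hc.nK E (r ω * η * (r ω)⁻¹) ∧ x ∉ K)) := by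
      intro e he
      simp only [Finset.mem_filter, Finset.mem_univ, true_and] at he
      obtain ⟨b, hb, heb⟩ := hcover e he.1 he.2
      simp only [Finset.mem_biUnion, Finset.mem_univ, true_and, Finset.mem_filter]
      let ω : ι := QuotientGroup.mk (⟨b, hb⟩ : h.H)
      refine ⟨ω, ?_, he.2⟩
      obtain ⟨e', he'⟩ := QuotientGroup.mk_out_eq_mul (E.subgroupOf h.H) (⟨b, hb⟩ : h.H)
      have hr : r ω = b * ((e' : h.H) : G) := by
        show ((Quotient.out ω : h.H) : G) = _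
        have := congrArg (Subtype.val) he'
        simpa using this
      have he'E : ((e' : h.H) : G) ∈ E := Subgroup.mem_subgroupOf.1 e'.2
      apply hmemS _ _ he.1
      have h1 : ρ (r ω * η * (r ω)⁻¹) = ρ (b * η * b⁻¹) := by
        rw [hr]
        have h2 : ρ ((e' : h.H) : G) = 1 := (hρ _).2 (hED₁ he'E)
        simp only [map_mul, map_inv, mul_inv_rev, h2, mul_one, one_mul, inv_one]
      rw [hact _ _ h1 e he.1]
      exact hSmem _ _ heb
    have h1 := Finset.card_le_card hcov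
    have h2 := Finset.card_biUnion_le (s := Finset.univ) (t := fun ω : ι =>
      Finset.univ.filter (fun x : G => x ∈ fixS hc.nK E (r ω * η * (r ω)⁻¹) ∧ x ∉ K))
    have h3 := h1.trans h2
    rw [card_filter_diff hKE] at h3
    have h4 : ∀ ω : ι, (Finset.univ.filter
        (fun x : G => x ∈ fixS hc.nK E (r ω * η * (r ω)⁻¹) ∧ x ∉ K)).card =
        Nat.card K * q - Nat.card K := by
      intro ω
      rw [card_filter_diff (hKS _), hcardeq (hKS _), hri]
    simp only [h4, Finset.sum_const, Finset.card_univ, smul_eq_mul] at h3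
    have h5 : Fintype.card ι = n := by
      rw [← Nat.card_eq_fintype_card]
      rfl
    rw [h5, hcardeq hKE, ← hN] at h3
    have hqpos : 0 < q := Nat.pos_of_ne_zero (hrne _ _)
    have hNpos : 0 < N := Nat.pos_of_ne_zero (hrne _ _)
    have e1 : Nat.card K * N - Nat.card K = Nat.card K * (N - 1) := by
      rw [Nat.mul_sub, mul_one]
    have e2 : Nat.card K * q - Nat.card K = Nat.card K * (q - 1) := by
      rw [Nat.mul_sub, mul_one]
    rw [e1, e2] at h3
    have h6 : Nat.card K * (N - 1) ≤ Nat.card K * (n * (q - 1)) := by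
      calc Nat.card K * (N - 1) ≤ n * (Nat.card K * (q - 1)) := h3
        _ = Nat.card K * (n * (q - 1)) := by ring
    exact Nat.le_of_mul_le_mul_left h6 hcardK
  -- `q² ≤ N`
  have hsq : q * q ≤ N := by
    set b := g * z * g⁻¹ * z⁻¹ with hb
    have hbH : b ∈ h.H := by
      refine ⟨h.hGC g z, z, h.hz, ?_⟩
      rw [inv_mul_cancel]
      exact E.one_mem
    have hbE : b ∉ E := h.hzg
    have hbC := hHC b hbH
    set S₂ := fixS hc.nK E (b * η * b⁻¹) with hS₂
    have hinf : S₁ ⊓ S₂ = K := by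
      apply le_antisymm
      · rintro e ⟨he1, he2⟩
        have heE : e ∈ E := he1.1
        set x₀ := b * η * b⁻¹ * η⁻¹ with hx₀
        -- `x₀ ∈ H \ E`
        have hbi : b⁻¹ ∈ h.H := (h.H).inv_mem hbH
        have hx₀π := hcommη b hbC
        have hx₀H : x₀ ∈ h.H := by
          refine ⟨h.hGC _ _, b⁻¹, C.inv_mem hbC, ?_⟩
          rw [← hπ₀, map_mul, map_inv, hx₀π]
          simp only [map_mul, map_inv, inv_inv]
          group
        have hx₀E : x₀ ∉ E := by
          intro hx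
          have h1 : g * b⁻¹ * g⁻¹ * b ∈ E := by
            rw [← hπ₀, ← hx₀π, hπ₀]
            exact hx
          have h2 : g * b⁻¹ * g⁻¹ * b⁻¹⁻¹ ∈ E := by simpa using h1
          have h3 := H_inf_U h hbi h2
          exact hbE (by simpa using E.inv_mem h3)
        have hfpf := H_fpf h hc hl hEl hc le_rfl hEl hx₀H hx₀E
        apply hfpf e heE
        rw [← hπK]
        have h1 : πK (η * e * η⁻¹) = πK e := hSmem _ _ he1
        have h2 : πK ((b * η * b⁻¹) * e * (b * η * b⁻¹)⁻¹) = πK e := hSmem _ _ he2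
        have h3 : πK (η⁻¹ * e * η) = πK e := by
          have : πK e = πK η⁻¹ * πK (η * e * η⁻¹) * πK η := by
            simp only [map_mul, map_inv]
            group
          rw [h1] at this
          simp only [map_mul, map_inv] at this ⊢
          exact this.symm
        have e1 : x₀ * e * x₀⁻¹ = (b * η * b⁻¹) * (η⁻¹ * e * η) * (b * η * b⁻¹)⁻¹ := by
          simp only [hx₀]
          group
        rw [map_mul, map_inv, e1, map_mul, map_mul, h3, ← map_mul, ← map_mul, h2, mul_inv_cancel]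
      · exact le_inf (hKS _) (hKS _)
    have h1 : S₁.relIndex S₂ ≤ S₁.relIndex E :=
      Subgroup.relIndex_le_of_le_right (hSE _) (hrne _ _)
    have h2 : S₁.relIndex S₂ = q := by
      rw [← Subgroup.inf_relIndex_right, hinf]
      exact hri b
    have h3 : q * S₁.relIndex E = N := Subgroup.relIndex_mul_relIndex _ _ _ (hKS _) (hSE _)
    calc q * q ≤ q * S₁.relIndex E := Nat.mul_le_mul_left q (h2 ▸ h1)
      _ = N := h3
  -- arithmetic
  have hNgt : 1 < N := by
    have hne : N ≠ 1 := by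
      intro h1
      rw [hN] at h1
      have := Subgroup.relIndex_eq_one.1 h1
      exact hc.ne (le_antisymm hKE this)
    have hNpos : 0 < N := Nat.pos_of_ne_zero (hrne _ _)
    omega
  exact arith hNgt (Nat.pos_of_ne_zero (hrne _ _)) hcount hsq

end Cfsg.Agent.Lib.NoDiv.GLC
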