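import Cfsg.Agent.Lib.NoDiv.GLA
import Cfsg.Agent.Lib.NoDiv.GLB

set_option autoImplicit false
set_option linter.unusedSectionVars false
set_option linter.unusedVariables false
set_option linter.style.haveILetI false

namespace Cfsg.Agent.Lib.NoDiv.Q9

open Cfsg.Agent.Lib.NoDiv.Defs
open Cfsg.Agent.Lib.NoDiv.GLA Cfsg.Agent.Lib.NoDiv.GLB

universe u

theorem lem1 {Q : Type*} [Group Q] {a b c d : Q} (hab : a * b = b * a) (hac : a * c = c * a)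
    (hbc : b * c = c * b) (hbd : b * d = d * b) : a * b * c * a⁻¹ * d⁻¹ * b⁻¹ = c * d⁻¹ := by
  have h1 : a * b * c * a⁻¹ = b * c := by
    calc a * b * c * a⁻¹ = b * a * c * a⁻¹ := by rw [hab]
      _ = b * (a * c) * a⁻¹ := by group
      _ = b * (c * a) * a⁻¹ := by rw [hac]
      _ = b * c := by group
  have h2 : b * d⁻¹ = d⁻¹ * b := (Commute.inv_right (show Commute b d from hbd)).eq
  rw [h1, hbc]
  calc c * b * d⁻¹ * b⁻¹ = c * (b * d⁻¹) * b⁻¹ := by group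
    _ = c * (d⁻¹ * b) * b⁻¹ := by rw [h2]
    _ = c * d⁻¹ := by group

variable {G : Type u} [Group G] [Finite G] {C E : Subgroup G} {g z : G} {o p : ℕ}

theorem comm_of_E [hEn : E.Normal] (h : Cam C E g z o p) {a b : G} (ha : a ∈ C) (hb : b ∈ C) :
    (QuotientGroup.mk' E) a * (QuotientGroup.mk' E) b =
      (QuotientGroup.mk' E) b * (QuotientGroup.mk' E) a := by
  have hm : ∀ t, (QuotientGroup.mk' E) t = 1 ↔ t ∈ E := fun t => by simp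
  have h1 : (QuotientGroup.mk' E) (a * b * a⁻¹ * b⁻¹) = 1 := (hm _).2 (h.cE a ha b hb)
  simp only [map_mul, map_inv] at h1
  calc (QuotientGroup.mk' E) a * (QuotientGroup.mk' E) b
      = ((QuotientGroup.mk' E) a * (QuotientGroup.mk' E) b * ((QuotientGroup.mk' E) a)⁻¹ *
          ((QuotientGroup.mk' E) b)⁻¹) * ((QuotientGroup.mk' E) b * (QuotientGroup.mk' E) a) := by
        group
    _ = _ := by rw [h1, one_mul]

/-- `[g, y * y'⁻¹] ∈ E` if `[g, y] ≡ [g, y']` modulo `E`. -/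
theorem comm_div [hEn : E.Normal] (h : Cam C E g z o p) {y y' : G} (hy : y ∈ C) (hy' : y' ∈ C)
    (hdd' : (QuotientGroup.mk' E) (g * y * g⁻¹ * y⁻¹) = (QuotientGroup.mk' E) (g * y' * g⁻¹ * y'⁻¹)) :
    g * (y * y'⁻¹) * g⁻¹ * (y * y'⁻¹)⁻¹ ∈ E := by
  haveI hCn := h.hC
  let π₀ := QuotientGroup.mk' E
  have hm : ∀ t, π₀ t = 1 ↔ t ∈ E := fun t => by simp [π₀]
  have hgy : g * y * g⁻¹ ∈ C := hCn.conj_mem y hy g
  have hgy' : g * y' * g⁻¹ ∈ C := hCn.conj_mem y' hy' g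
  have c3 := comm_of_E h hgy' hy
  have c4 := comm_of_E h hgy' hy'
  have c5 := comm_of_E h hy hy'
  simp only [map_mul, map_inv] at c3 c4 hdd'
  rw [← hm]
  simp only [π₀, map_mul, map_inv, mul_inv_rev, inv_inv]
  set Y := (QuotientGroup.mk' E) y
  set Y' := (QuotientGroup.mk' E) y'
  set Γ := (QuotientGroup.mk' E) g
  have e1 : Γ * Y * Γ⁻¹ = (Γ * Y' * Γ⁻¹ * Y'⁻¹) * Y := by
    have : Γ * Y * Γ⁻¹ = (Γ * Y * Γ⁻¹ * Y⁻¹) * Y := by group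
    rw [this, hdd']
  have hA : Γ * (Y * Y'⁻¹) * Γ⁻¹ = (Γ * Y * Γ⁻¹) * (Γ * Y' * Γ⁻¹)⁻¹ := by group
  have hc4 : Γ * Y' * Γ⁻¹ * Y' = Y' * (Γ * Y' * Γ⁻¹) := c4
  have hc3 : Γ * Y' * Γ⁻¹ * Y = Y * (Γ * Y' * Γ⁻¹) := c3
  set W := Γ * Y' * Γ⁻¹ with hW
  have e2 : Γ * Y * Γ⁻¹ = W * Y'⁻¹ * Y := e1
  calc Γ * (Y * Y'⁻¹) * Γ⁻¹ * (Y' * Y⁻¹) = (Γ * Y * Γ⁻¹) * W⁻¹ * (Y' * Y⁻¹) := by rw [hA]
    _ = (W * Y'⁻¹ * Y) * W⁻¹ * (Y' * Y⁻¹) := by rw [e2]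
    _ = W * Y'⁻¹ * (Y * W⁻¹) * (Y' * Y⁻¹) := by group
    _ = W * Y'⁻¹ * (W⁻¹ * Y) * (Y' * Y⁻¹) := by
          have : Y * W⁻¹ = W⁻¹ * Y := by
            have := (Commute.inv_right (show Commute Y W from hc3.symm))
            exact this.eq
          rw [this]
    _ = W * (Y'⁻¹ * W⁻¹) * (Y * Y') * Y⁻¹ := by group
    _ = W * (W⁻¹ * Y'⁻¹) * (Y' * Y) * Y⁻¹ := by
          have h1 : Y'⁻¹ * W⁻¹ = W⁻¹ * Y'⁻¹ := by
            have h2 : Commute Y' W := (show W * Y' = Y' * W from hc4).symm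
            exact (Commute.inv_inv h2).eq
          have h3 : Y * Y' = Y' * Y := c5
          rw [h1, h3]
    _ = 1 := by group

/-- `d` is bijective on `H / E`. -/
theorem exists_d (h : Cam C E g z o p) {x : G} (hx : x ∈ h.H) :
    ∃ y ∈ h.H, x⁻¹ * (g * y * g⁻¹ * y⁻¹) ∈ E := by
  classical
  haveI hEn := h.nE
  haveI hCn := h.hC
  let π₀ := QuotientGroup.mk' E
  have hm : ∀ t, π₀ t = 1 ↔ t ∈ E := fun t => by simp [π₀]
  let X : Subgroup (G ⧸ E) := (h.H).map π₀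
  have hHC : ∀ t ∈ h.H, t ∈ C := fun t ht => ht.1
  have hdmem : ∀ c ∈ C, (g * c * g⁻¹ * c⁻¹) ∈ h.H := by
    intro c hc
    refine ⟨h.hGC g c, c, hc, ?_⟩
    rw [inv_mul_cancel]
    exact E.one_mem
  let d : X → X := fun ξ => ⟨π₀ g * ξ.1 * (π₀ g)⁻¹ * ξ.1⁻¹, by
    obtain ⟨y, hy, hyξ⟩ := Subgroup.mem_map.1 ξ.2
    refine Subgroup.mem_map.2 ⟨g * y * g⁻¹ * y⁻¹, hdmem y (hHC y hy), ?_⟩
    rw [← hyξ]
    simp only [map_mul, map_inv]⟩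
  have hinj : Function.Injective d := by
    rintro ⟨ξ, hξ⟩ ⟨ξ', hξ'⟩ hdd
    obtain ⟨y, hy, rfl⟩ := Subgroup.mem_map.1 hξ
    obtain ⟨y', hy', rfl⟩ := Subgroup.mem_map.1 hξ'
    have hdd' : π₀ g * π₀ y * (π₀ g)⁻¹ * (π₀ y)⁻¹ = π₀ g * π₀ y' * (π₀ g)⁻¹ * (π₀ y')⁻¹ :=
      congrArg Subtype.val hdd
    have hyy : y * y'⁻¹ ∈ h.H := (h.H).mul_mem hy ((h.H).inv_mem hy')
    have key : g * (y * y'⁻¹) * g⁻¹ * (y * y'⁻¹)⁻¹ ∈ E := by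
      apply comm_div h (hHC y hy) (hHC y' hy')
      simpa only [map_mul, map_inv] using hdd'
    have := H_inf_U h hyy key
    apply Subtype.ext
    have h1 : π₀ (y * y'⁻¹) = 1 := (hm _).2 this
    simp only [map_mul, map_inv] at h1
    exact mul_inv_eq_one.1 h1
  have hsurj : Function.Surjective d := Finite.surjective_of_injective hinj
  obtain ⟨⟨ξ, hξ⟩, hdξ⟩ := hsurj ⟨π₀ x, Subgroup.mem_map.2 ⟨x, hx, rfl⟩⟩
  obtain ⟨y, hy, rfl⟩ := Subgroup.mem_map.1 hξ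
  have hdξ' : π₀ g * π₀ y * (π₀ g)⁻¹ * (π₀ y)⁻¹ = π₀ x := congrArg Subtype.val hdξ
  refine ⟨y, hy, ?_⟩
  rw [← hm]
  simp only [map_mul, map_inv]
  rw [hdξ', inv_mul_cancel]

/-- Every `x ∈ H` is `[g, [g, a]]` modulo `E`. -/
theorem exists_double (h : Cam C E g z o p) {x : G} (hx : x ∈ h.H) :
    ∃ a ∈ C, x⁻¹ * (g * (g * a * g⁻¹ * a⁻¹) * g⁻¹ * (g * a * g⁻¹ * a⁻¹)⁻¹) ∈ E := by
  classical
  haveI hEn := h.nE
  obtain ⟨y, hy, hxy⟩ := exists_d h hx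
  obtain ⟨a, ha, hya⟩ := hy.2
  let π₀ := QuotientGroup.mk' E
  have hm : ∀ t, π₀ t = 1 ↔ t ∈ E := fun t => by simp [π₀]
  have hya' : π₀ y = π₀ (g * a * g⁻¹ * a⁻¹) := by
    have h1 : π₀ (y⁻¹ * (g * a * g⁻¹ * a⁻¹)) = 1 := (hm _).2 hya
    rw [map_mul, map_inv] at h1
    exact inv_mul_eq_one.1 h1
  refine ⟨a, ha, ?_⟩
  rw [← hm]
  have h1 : π₀ (x⁻¹ * (g * y * g⁻¹ * y⁻¹)) = 1 := (hm _).2 hxy
  rw [map_mul, map_inv] at h1
  have h2 : π₀ x = π₀ (g * y * g⁻¹ * y⁻¹) := inv_mul_eq_one.1 h1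
  rw [map_mul, map_inv, h2]
  have e1 : π₀ (g * y * g⁻¹ * y⁻¹) = π₀ g * π₀ y * (π₀ g)⁻¹ * (π₀ y)⁻¹ := by
    simp only [map_mul, map_inv]
  have e2 : π₀ (g * (g * a * g⁻¹ * a⁻¹) * g⁻¹ * (g * a * g⁻¹ * a⁻¹)⁻¹) =
      π₀ g * π₀ (g * a * g⁻¹ * a⁻¹) * (π₀ g)⁻¹ * (π₀ (g * a * g⁻¹ * a⁻¹))⁻¹ := by
    simp only [map_mul, map_inv]
  rw [e1, e2, hya', inv_mul_cancel]

/-- `Lib/NoDiv/Q9.lean` : the Frattini quotient of the top is irreducible. Here `hb1` is the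
conclusion of `b1` (transported to `G`). -/
theorem q9 (h : Cam C E g z o p) {K K₃ : Subgroup G} {l : ℕ} (hc : Chief K E) (hc₃ : Chief K₃ K)
    (hl : l.Prime) (hEl : ∀ w ∈ E, w ^ l ∈ K₃) (hEab : ∀ a ∈ E, ∀ b ∈ E, a * b * a⁻¹ * b⁻¹ ∈ K₃)
    (hb1 : (∀ c ∈ C, (∀ w ∈ K, c * w * c⁻¹ * w⁻¹ ∈ K₃) → c ∈ relCen hc.nK C E) →
      ∀ f ∈ relCen hc.nK C E, ∀ a ∈ E, f * a * f⁻¹ * a⁻¹ ∈ K₃) : False := by
  classical
  haveI hEn := h.nE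
  haveI hCn := h.hC
  have hEC := h.leC
  haveI hKn := hc.nK
  haveI hK3n := hc₃.nK
  have hKE := hc.le
  have hK3K := hc₃.le
  -- the quotient modulo `K₃`
  let q := QuotientGroup.mk' K₃
  have hqm : ∀ t, q t = 1 ↔ t ∈ K₃ := fun t => by simp [q]
  have hqcomm : ∀ a ∈ E, ∀ b ∈ E, q a * q b = q b * q a := by
    intro a ha b hb
    have h1 : q (a * b * a⁻¹ * b⁻¹) = 1 := (hqm _).2 (hEab a ha b hb)
    simp only [map_mul, map_inv] at h1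
    calc q a * q b = (q a * q b * (q a)⁻¹ * (q b)⁻¹) * (q b * q a) := by group
      _ = q b * q a := by rw [h1, one_mul]
  have hconjcomm : ∀ a ∈ E, ∀ b, q (b * a * b⁻¹) = q b * q a * (q b)⁻¹ := by
    intro a ha b
    simp only [map_mul, map_inv]
  -- Step 1
  obtain ⟨u, huE, huK, huF⟩ : ∃ u ∈ E, u ∉ K ∧
      ∀ f ∈ relCen hc.nK C E, f * u * f⁻¹ * u⁻¹ ∈ K₃ := by
    have hsex : ∃ s ∈ E, s ∉ K := by
      by_contra hne
      push Not at hne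
      exact hc.ne (le_antisymm hKE hne)
    obtain ⟨s, hsE, hsK⟩ := hsex
    by_cases hprem : ∀ c ∈ C, (∀ w ∈ K, c * w * c⁻¹ * w⁻¹ ∈ K₃) → c ∈ relCen hc.nK C E
    · exact ⟨s, hsE, hsK, fun f hf => hb1 hprem f hf s hsE⟩
    · push Not at hprem
      obtain ⟨c₁, hc₁, hc₁K, hc₁F⟩ := hprem
      have hfpf : ∀ w ∈ E, c₁ * w * c₁⁻¹ * w⁻¹ ∈ K → w ∈ K := by
        rcases semireg h hc le_rfl hc₁ with h1 | h1
        · exact absurd ((mem_relCen hc.nK C E c₁).2 ⟨hc₁, h1⟩) hc₁F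
        · exact h1
      refine ⟨c₁ * s * c₁⁻¹ * s⁻¹, ?_, ?_, ?_⟩
      · exact E.mul_mem (hEn.conj_mem s hsE c₁) (E.inv_mem hsE)
      · exact fun hk => hsK (hfpf s hsE hk)
      · intro f hf
        have hfC : f ∈ C := hf.1
        have hk : f * s * f⁻¹ * s⁻¹ ∈ K := hf.2 s hsE
        set k := f * s * f⁻¹ * s⁻¹ with hkdef
        have he : f * c₁ * f⁻¹ * c₁⁻¹ ∈ E := h.cE f hfC c₁ hc₁
        set e := f * c₁ * f⁻¹ * c₁⁻¹ with hedef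
        rw [← hqm]
        have hkE := hKE hk
        have hv : c₁ * s * c₁⁻¹ ∈ E := hEn.conj_mem s hsE c₁
        have hck : q (c₁ * k * c₁⁻¹) = q k := by
          have h1 : q (c₁ * k * c₁⁻¹ * k⁻¹) = 1 := (hqm _).2 (hc₁K k hk)
          rw [map_mul, map_inv] at h1
          exact mul_inv_eq_one.1 h1
        have e1 : f * (c₁ * s * c₁⁻¹ * s⁻¹) * f⁻¹ * (c₁ * s * c₁⁻¹ * s⁻¹)⁻¹ =
            (e * (c₁ * k * c₁⁻¹) * (c₁ * s * c₁⁻¹) * e⁻¹ * s⁻¹ * k⁻¹) *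
              (c₁ * s * c₁⁻¹ * s⁻¹)⁻¹ := by
          simp only [hkdef, hedef]
          group
        rw [e1, map_mul, map_inv]
        have e2 : q (e * (c₁ * k * c₁⁻¹) * (c₁ * s * c₁⁻¹) * e⁻¹ * s⁻¹ * k⁻¹) =
            q e * q k * q (c₁ * s * c₁⁻¹) * (q e)⁻¹ * (q s)⁻¹ * (q k)⁻¹ := by
          rw [map_mul, map_mul, map_mul, map_mul, map_mul, map_inv, map_inv, map_inv, hck]
        rw [e2, lem1 (hqcomm e he k hkE) (hqcomm e he _ hv) (hqcomm k hkE _ hv)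
          (hqcomm k hkE s hsE)]
        simp only [map_mul, map_inv]
        group
  -- Step 2
  obtain ⟨b₀, hb₀, hb₀u⟩ := h.cf2 g u (hEC huE) (by
    exact E.mul_mem (hEn.conj_mem u huE g) (E.inv_mem huE))
  set γ := b₀⁻¹ * g with hγ
  have hγu : γ * u * γ⁻¹ = u := by
    have : γ * u * γ⁻¹ = b₀⁻¹ * (g * u * g⁻¹) * b₀ := by simp only [hγ]; group
    rw [this, ← hb₀u]
    group
  have hstar : ∀ m ∈ K, ∃ f ∈ relCen hc.nK C E, q (γ * m * γ⁻¹) = q (f * m * f⁻¹) := by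
    intro m hm
    have hmE := hKE hm
    obtain ⟨c, hcC, hcum⟩ := h.cf2 γ (u * m) (hEC (E.mul_mem huE hmE)) (by
      exact E.mul_mem (hEn.conj_mem _ (E.mul_mem huE hmE) γ) (E.inv_mem (E.mul_mem huE hmE)))
    have e1 : γ * (u * m) * γ⁻¹ = u * (γ * m * γ⁻¹) := by
      calc γ * (u * m) * γ⁻¹ = (γ * u * γ⁻¹) * (γ * m * γ⁻¹) := by group
        _ = u * (γ * m * γ⁻¹) := by rw [hγu]
    have hm' : γ * m * γ⁻¹ ∈ K := hKn.conj_mem m hm γ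
    have hcm : c * m * c⁻¹ ∈ K := hKn.conj_mem m hm c
    have e2 : c * u * c⁻¹ * u⁻¹ = u * ((γ * m * γ⁻¹) * (c * m * c⁻¹)⁻¹) * u⁻¹ := by
      have : c * u * c⁻¹ = u * (γ * m * γ⁻¹) * (c * m * c⁻¹)⁻¹ := by
        rw [← e1, ← hcum]
        group
      rw [this]
      group
    have hcuK : c * u * c⁻¹ * u⁻¹ ∈ K := by
      rw [e2]
      exact hKn.conj_mem _ (K.mul_mem hm' (K.inv_mem hcm)) u
    have hcF : c ∈ relCen hc.nK C E := by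
      rcases semireg h hc le_rfl hcC with h1 | h1
      · exact (mem_relCen hc.nK C E c).2 ⟨hcC, h1⟩
      · exact absurd (h1 u huE hcuK) huK
    refine ⟨c, hcF, ?_⟩
    have hcu : q (c * u * c⁻¹) = q u := by
      have h1 : q (c * u * c⁻¹ * u⁻¹) = 1 := (hqm _).2 (huF c hcF)
      rw [map_mul, map_inv] at h1
      exact mul_inv_eq_one.1 h1
    have e3 : q (c * (u * m) * c⁻¹) = q u * q (γ * m * γ⁻¹) := by
      rw [hcum, e1, map_mul]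
    have e4 : c * (u * m) * c⁻¹ = (c * u * c⁻¹) * (c * m * c⁻¹) := by group
    rw [e4, map_mul, hcu] at e3
    exact (mul_left_cancel e3).symm
  -- the subgroup acting trivially on `K / K₃`
  let D := relCen hc₃.nK (⊤ : Subgroup G) K
  haveI hDn : D.Normal := relCen_normal hc₃.nK inferInstance hc.nK
  have hED : E ≤ D := fun e he => ⟨trivial, fun b hb => hEab e he b (hKE hb)⟩
  let π := QuotientGroup.mk' D
  have hπm : ∀ t, π t = 1 ↔ t ∈ D := fun t => by simp [π]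
  have hπcomm : ∀ a ∈ C, ∀ b ∈ C, π a * π b = π b * π a := by
    intro a ha b hb
    have h1 : π (a * b * a⁻¹ * b⁻¹) = 1 := (hπm _).2 (hED (h.cE a ha b hb))
    simp only [map_mul, map_inv] at h1
    calc π a * π b = (π a * π b * (π a)⁻¹ * (π b)⁻¹) * (π b * π a) := by group
      _ = π b * π a := by rw [h1, one_mul]
  have hγC : ∀ c ∈ C, π (γ * c * γ⁻¹ * c⁻¹) = π (g * c * g⁻¹ * c⁻¹) := by
    intro c hc'
    have hgc : g * c * g⁻¹ ∈ C := hCn.conj_mem c hc' g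
    have : γ * c * γ⁻¹ * c⁻¹ = b₀⁻¹ * (g * c * g⁻¹) * b₀ * c⁻¹ := by
      simp only [hγ]
      group
    rw [this]
    have c1 := hπcomm _ hgc _ hb₀
    simp only [map_mul, map_inv] at c1 ⊢
    have c2 : (π b₀)⁻¹ * (π g * π c * (π g)⁻¹) * π b₀ = π g * π c * (π g)⁻¹ := by
      calc (π b₀)⁻¹ * (π g * π c * (π g)⁻¹) * π b₀
          = (π b₀)⁻¹ * (π g * π c * (π g)⁻¹ * π b₀) := by group
        _ = (π b₀)⁻¹ * (π b₀ * (π g * π c * (π g)⁻¹)) := by rw [c1]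
        _ = π g * π c * (π g)⁻¹ := by group
    rw [c2]
  -- Step 3
  obtain ⟨m₀, hm₀, hm₀3⟩ : ∃ m ∈ K, m ∉ K₃ := by
    by_contra hne
    push Not at hne
    exact hc₃.ne (le_antisymm hK3K hne)
  have hstep3 : ∀ a ∈ C, π (γ * (γ * a * γ⁻¹ * a⁻¹) * γ⁻¹ * (γ * a * γ⁻¹ * a⁻¹)⁻¹) = 1 := by
    intro a ha
    have hm₁ : a * m₀ * a⁻¹ ∈ K := hKn.conj_mem m₀ hm₀ a
    obtain ⟨f₀, hf₀, e₀⟩ := hstar m₀ hm₀
    obtain ⟨f₁, hf₁, e₁⟩ := hstar _ hm₁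
    have hf₀C : f₀ ∈ C := hf₀.1
    have hf₁C : f₁ ∈ C := hf₁.1
    have hγa : γ * a * γ⁻¹ ∈ C := hCn.conj_mem a ha γ
    set y := (f₁ * a)⁻¹ * ((γ * a * γ⁻¹) * f₀) with hy
    have hyC : y ∈ C := C.mul_mem (C.inv_mem (C.mul_mem hf₁C ha)) (C.mul_mem hγa hf₀C)
    have hym : y * m₀ * y⁻¹ * m₀⁻¹ ∈ K₃ := by
      rw [← hqm]
      -- q (γ a m₀ a⁻¹ γ⁻¹) computed in two ways
      have e2 : q (γ * (a * m₀ * a⁻¹) * γ⁻¹) =
          q (γ * a * γ⁻¹) * q (γ * m₀ * γ⁻¹) * (q (γ * a * γ⁻¹))⁻¹ := by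
        simp only [map_mul, map_inv]
        group
      rw [e₀, e₁] at e2
      simp only [map_mul, map_inv] at e2 ⊢
      simp only [hy, map_mul, map_inv, mul_inv_rev, inv_inv]
      -- now a group computation from e2
      have e3 : (q f₁ * q a) * q m₀ * (q f₁ * q a)⁻¹ =
          (q γ * q a * (q γ)⁻¹ * q f₀) * q m₀ * (q γ * q a * (q γ)⁻¹ * q f₀)⁻¹ := by
        simp only [mul_inv_rev, inv_inv]
        have := e2
        simp only [mul_assoc, mul_inv_rev, inv_inv] at this ⊢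
        exact this
      have e4 : (q f₁ * q a)⁻¹ * ((q γ * q a * (q γ)⁻¹ * q f₀) * q m₀ *
          (q γ * q a * (q γ)⁻¹ * q f₀)⁻¹) * (q f₁ * q a) = q m₀ := by
        rw [← e3]
        group
      have e5 : (q a)⁻¹ * (q f₁)⁻¹ * (q γ * q a * (q γ)⁻¹ * q f₀) * q m₀ *
          ((q f₀)⁻¹ * (q γ * (q a)⁻¹ * (q γ)⁻¹) * (q f₁ * q a)) * (q m₀)⁻¹ = 1 := by
        have : (q a)⁻¹ * (q f₁)⁻¹ * (q γ * q a * (q γ)⁻¹ * q f₀) * q m₀ *
            ((q f₀)⁻¹ * (q γ * (q a)⁻¹ * (q γ)⁻¹) * (q f₁ * q a)) =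
            (q f₁ * q a)⁻¹ * ((q γ * q a * (q γ)⁻¹ * q f₀) * q m₀ *
            (q γ * q a * (q γ)⁻¹ * q f₀)⁻¹) * (q f₁ * q a) := by group
        rw [this, e4]
        group
      simpa only [mul_assoc] using e5
    have hyD : y ∈ D := by
      rcases semireg h hc₃ hKE hyC with h1 | h1
      · exact ⟨trivial, h1⟩
      · exact absurd (h1 m₀ hm₀ hym) hm₀3
    have hπy : π y = 1 := (hπm _).2 hyD
    have e6 : π (γ * a * γ⁻¹) = π f₁ * π a * (π f₀)⁻¹ := by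
      simp only [hy, map_mul, map_inv] at hπy
      have : (π a)⁻¹ * (π f₁)⁻¹ * (π γ * π a * (π γ)⁻¹ * π f₀) = 1 := by
        simpa only [mul_inv_rev, mul_assoc] using hπy
      have h2 : π γ * π a * (π γ)⁻¹ * π f₀ = π f₁ * π a := by
        calc π γ * π a * (π γ)⁻¹ * π f₀ = (π f₁ * π a) *
              ((π a)⁻¹ * (π f₁)⁻¹ * (π γ * π a * (π γ)⁻¹ * π f₀)) := by group
          _ = π f₁ * π a := by rw [this, mul_one]
      simp only [map_mul, map_inv]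
      rw [← h2]
      group
    set f := f₁ * f₀⁻¹ with hf
    have hfF : f ∈ relCen hc.nK C E :=
      (relCen hc.nK C E).mul_mem hf₁ ((relCen hc.nK C E).inv_mem hf₀)
    have e7 : π (γ * a * γ⁻¹ * a⁻¹) = π f := by
      rw [map_mul, e6, hf, map_mul, map_inv, map_inv]
      have c1 := hπcomm a ha f₀ hf₀C
      have c2 : (π f₀)⁻¹ * (π a)⁻¹ = (π a)⁻¹ * (π f₀)⁻¹ := by
        have : Commute (π a) (π f₀) := c1
        exact (Commute.inv_inv this).eq.symm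
      calc π f₁ * π a * (π f₀)⁻¹ * (π a)⁻¹ = π f₁ * π a * ((π f₀)⁻¹ * (π a)⁻¹) := by group
        _ = π f₁ * π a * ((π a)⁻¹ * (π f₀)⁻¹) := by rw [c2]
        _ = π f₁ * (π f₀)⁻¹ := by group
    have e8 : π (γ * f * γ⁻¹ * f⁻¹) = 1 := (hπm _).2 (hED (F_le_U h hc γ f hfF))
    rw [map_mul, map_mul, map_mul, map_inv, map_inv, e7]
    simpa only [map_mul, map_inv] using e8
  -- Step 4
  have hHD : ∀ x ∈ h.H, x ∈ D := by
    intro x hx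
    obtain ⟨a, ha, hxa⟩ := exists_double h hx
    have h1 : π (x⁻¹ * (g * (g * a * g⁻¹ * a⁻¹) * g⁻¹ * (g * a * g⁻¹ * a⁻¹)⁻¹)) = 1 :=
      (hπm _).2 (hED hxa)
    rw [map_mul, map_inv] at h1
    have h2 : π x = π (g * (g * a * g⁻¹ * a⁻¹) * g⁻¹ * (g * a * g⁻¹ * a⁻¹)⁻¹) := by
      exact inv_mul_eq_one.1 h1
    rw [← hπm, h2]
    have ht : γ * a * γ⁻¹ * a⁻¹ ∈ C := h.hGC γ a
    have e1 := hγC a ha
    have e2 := hγC _ ht
    have e3 := hstep3 a ha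
    have e4 : π (g * (g * a * g⁻¹ * a⁻¹) * g⁻¹ * (g * a * g⁻¹ * a⁻¹)⁻¹) =
        π g * π (g * a * g⁻¹ * a⁻¹) * (π g)⁻¹ * (π (g * a * g⁻¹ * a⁻¹))⁻¹ := by
      simp only [map_mul, map_inv]
    rw [e4, ← e1]
    have e5 : π (g * (γ * a * γ⁻¹ * a⁻¹) * g⁻¹ * (γ * a * γ⁻¹ * a⁻¹)⁻¹) =
        π g * π (γ * a * γ⁻¹ * a⁻¹) * (π g)⁻¹ * (π (γ * a * γ⁻¹ * a⁻¹))⁻¹ := by
      simp only [map_mul, map_inv]
    rw [← e5, ← e2]
    exact e3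
  -- the contradiction
  have hxH : (g * z * g⁻¹ * z⁻¹) ∈ h.H := by
    refine ⟨h.hGC g z, z, h.hz, ?_⟩
    rw [inv_mul_cancel]
    exact E.one_mem
  have hEl' : ∀ w ∈ E, w ^ l ∈ K := fun w hw => hK3K (hEl w hw)
  have hl' : ∀ w ∈ K, w ^ l ∈ K₃ := fun w hw => hEl w (hKE hw)
  have hfpf := H_fpf h hc hl hEl' hc₃ hKE hl' hxH h.hzg
  exact hm₀3 (hfpf m₀ hm₀ ((hHD _ hxH).2 m₀ hm₀))

end Cfsg.Agent.Lib.NoDiv.Q9
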