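import Cfsg.Agent.Lib.NoDiv.Deep2
import Cfsg.Agent.Lib.NoDiv.GLC
import Cfsg.Agent.Lib.NoDiv.Q9
import Cfsg.Agent.Lib.NoDiv.B1
import Mathlib.Tactic

/-!
# No divisibility: the section `F` of `C` centralising the top chief factor is abelian (end)
-/

set_option autoImplicit false
set_option linter.unusedSectionVars false
set_option linter.style.haveILetI false

namespace Cfsg.Agent.Lib.NoDiv.Deep3

open Cfsg Module Cfsg.Agent.Lib.NoDiv.Defs Cfsg.Agent.Lib.NoDiv.XLemma Cfsg.Agent.Lib.NoDiv.Camina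
open Cfsg.Agent.Lib.NoDiv.Mid Cfsg.Agent.Lib.NoDiv.Deep1 Cfsg.Agent.Lib.NoDiv.Deep2
open Cfsg.Agent.Lib.NoDiv.GLA Cfsg.Agent.Lib.NoDiv.GLB Cfsg.Agent.Lib.NoDiv.GLC
open Cfsg.Agent.Lib.NoDiv.Q9 Cfsg.Agent.Lib.NoDiv.B1
open Cfsg.Agent.Lib.Char.Basic Cfsg.Agent.Lib.Char.Ortho Cfsg.Agent.Lib.Char.Complete
open Cfsg.Agent.Lib.Char.Conj Cfsg.Agent.Lib.Char.Clifford Cfsg.Agent.Lib.Char.Induced
open Cfsg.Agent.Lib.Char.CliffordCorr Cfsg.Agent.Lib.Char.Linear Cfsg.Agent.Lib.Char.Degree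

universe u

/-- Power of a commutator in a class two situation. -/
theorem comm_pow {X : Type*} [Group X] {x y : X} (hc : Commute (x * y * x⁻¹ * y⁻¹) x) (n : ℕ) :
    x ^ n * y * (x ^ n)⁻¹ * y⁻¹ = (x * y * x⁻¹ * y⁻¹) ^ n := by
  set c := x * y * x⁻¹ * y⁻¹ with hcdef
  have h1 : x * y * x⁻¹ = c * y := by
    rw [hcdef]
    group
  have key : ∀ n : ℕ, x ^ n * y * (x ^ n)⁻¹ = c ^ n * y := by
    intro n
    induction n with
    | zero => simp
    | succ k ih =>
      have h2 : Commute (c ^ k) x := hc.pow_left k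
      calc x ^ (k + 1) * y * (x ^ (k + 1))⁻¹ = x * (x ^ k * y * (x ^ k)⁻¹) * x⁻¹ := by
            rw [pow_succ']
            group
        _ = x * (c ^ k * y) * x⁻¹ := by rw [ih]
        _ = (x * c ^ k) * y * x⁻¹ := by group
        _ = (c ^ k * x) * y * x⁻¹ := by rw [h2.eq.symm]
        _ = c ^ k * (x * y * x⁻¹) := by group
        _ = c ^ k * (c * y) := by rw [h1]
        _ = c ^ (k + 1) * y := by rw [pow_succ]; group
  rw [key n]
  group

section Main

variable {G : Type u} [Group G] [Fintype G] {C E : Subgroup G} [Fintype C] {g z : G} {o p : ℕ}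

/-- `F` is abelian. -/
theorem F_abelian (h : Cam C E g z o p) (hnd : NoDiv C) {K : Subgroup G} {l : ℕ} (hc : Chief K E)
    (hl : l.Prime) (hEl : ∀ w ∈ E, w ^ l ∈ K)
    (hcop : Nat.Coprime ((relCen hc.nK C E).relIndex C) o) :
    (⁅relCen hc.nK C E, relCen hc.nK C E⁆ : Subgroup G) = ⊥ := by
  classical
  by_contra hW1
  set F := relCen hc.nK C E with hF
  set Zt := relCen hc.nK C C with hZt
  set W : Subgroup G := ⁅F, F⁆ with hW
  have hFn : F.Normal := relCen_normal hc.nK h.hC h.nE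
  have hWn : W.Normal := by
    haveI := hFn
    exact Subgroup.commutator_normal F F
  have hFC : F ≤ C := fun a ha => ha.1
  have hWE : W ≤ E := by
    rw [h.hE]
    exact Subgroup.commutator_mono hFC hFC
  have hWK : W ≤ K := by
    rw [hW, Subgroup.commutator_le]
    intro a ha b hb
    rw [commutatorElement_def]
    exact F_comm h hc a ha b hb
  have hEF := Deep2.E_le_F h hc
  obtain ⟨K₄, -, hc₄⟩ := exists_chief (inferInstance : (⊥ : Subgroup G).Normal) hWn bot_le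
    (Ne.symm hW1)
  obtain ⟨O1, O2⟩ := adj_data h hnd hc hc₄
  obtain ⟨r, hr, hWr⟩ := elem h hc₄ hWE
  obtain ⟨w₀, hw₀, hw₀K⟩ : ∃ w ∈ W, w ∉ K₄ := by
    by_contra hcon
    push Not at hcon
    exact hc₄.ne (le_antisymm hc₄.le hcon)
  have hK₄n := hc₄.nK
  haveI := hK₄n
  let π := QuotientGroup.mk' K₄
  have hπ : ∀ x, π x = 1 ↔ x ∈ K₄ := fun x => by simp [π]
  have hcm : ∀ a ∈ F, ∀ b ∈ F, a * b * a⁻¹ * b⁻¹ ∈ W := fun a ha b hb =>
    Subgroup.commutator_mem_commutator ha hb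
  -- commutators are central modulo `K₄`
  have hcent : ∀ a ∈ F, ∀ b ∈ F, ∀ f ∈ F, Commute (π (a * b * a⁻¹ * b⁻¹)) (π f) := by
    intro a ha b hb f hf
    have h1 := (hπ _).2 (O1 f hf _ (hcm a ha b hb))
    have h2 : π f * π (a * b * a⁻¹ * b⁻¹) = π (a * b * a⁻¹ * b⁻¹) * π f := by
      simp only [map_mul, map_inv] at h1 ⊢
      calc _ = (π f * (π a * π b * (π a)⁻¹ * (π b)⁻¹) * (π f)⁻¹ * (π a * π b * (π a)⁻¹ * (π b)⁻¹)⁻¹) *
            ((π a * π b * (π a)⁻¹ * (π b)⁻¹) * π f) := by group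
        _ = _ := by rw [h1, one_mul]
    exact h2.symm
  -- nontriviality: the elements central in `E` modulo `K₄` lie in `K`
  have hZE : ∀ e ∈ E, (∀ e' ∈ E, e * e' * e⁻¹ * e'⁻¹ ∈ K₄) → e ∈ K := by
    intro e he hall
    by_contra heK
    have heZ : e ∉ Zt := fun hz => heK (E_inf_Zt h hc e he hz)
    obtain ⟨e', he', hew⟩ := O2 e (hEF he) heZ w₀ hw₀
    apply hw₀K
    have h1 := K₄.mul_mem (K₄.inv_mem hew) (hall e' he')
    have h2 : ((e * e' * e⁻¹ * e'⁻¹) * w₀⁻¹)⁻¹ * (e * e' * e⁻¹ * e'⁻¹) = w₀ := by group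
    rwa [h2] at h1
  -- powers
  have hpow : ∀ e ∈ E, ∀ e' ∈ E, e ^ r * e' * (e ^ r)⁻¹ * e'⁻¹ ∈ K₄ := by
    intro e he e' he'
    have h1 := comm_pow (x := π e) (y := π e') (by
      have := hcent e (hEF he) e' (hEF he') e (hEF he)
      simpa only [map_mul, map_inv] using this) r
    apply (hπ _).1
    simp only [map_mul, map_inv, map_pow]
    rw [h1]
    have h2 := (hπ _).2 (hWr _ (hcm e (hEF he) e' (hEF he')))
    simpa only [map_mul, map_inv, map_pow] using h2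
  have hrK : ∀ e ∈ E, e ^ r ∈ K := fun e he => hZE _ (E.pow_mem he r) (hpow e he)
  have hrl : r = l := by
    by_contra hne
    have hcp : Nat.Coprime r l := (Nat.coprime_primes hr hl).mpr hne
    apply hc.ne
    apply le_antisymm hc.le
    intro e he
    haveI := hc.nK
    have h1 : (QuotientGroup.mk' K e) ^ r = 1 := by
      rw [← map_pow]
      exact (QuotientGroup.eq_one_iff _).2 (hrK e he)
    have h2 : (QuotientGroup.mk' K e) ^ l = 1 := by
      rw [← map_pow]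
      exact (QuotientGroup.eq_one_iff _).2 (hEl e he)
    have h3 := pow_gcd_eq_one.mpr ⟨h1, h2⟩
    rw [Nat.Coprime.gcd_eq_one hcp, pow_one] at h3
    simpa using h3
  subst hrl
  -- the commutators of `E`
  obtain ⟨hF'n, hZ'n, hZ'F', hab', hCZ', hfpf', hne', hα1'⟩ := F_data h hc
  have hα' := (index_mem_of hF'n hZ'n hZ'F' hne' hCZ' hfpf').1
  -- `K` is central in `E` modulo `K₄`
  have hKcent : ∀ k ∈ K, ∀ e ∈ E, k * e * k⁻¹ * e⁻¹ ∈ K₄ := by
    by_contra hcon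
    have hZEn : (relCen hK₄n E E).Normal := relCen_normal hK₄n h.nE h.nE
    have hZEle : relCen hK₄n E E ≤ K := fun e he => hZE e he.1 he.2
    have hZEne : relCen hK₄n E E ≠ K := by
      intro heq
      apply hcon
      intro k hk e he
      rw [← heq] at hk
      exact hk.2 e he
    obtain ⟨K₃, hZK₃, hc₃⟩ := exists_chief hZEn hc.nK hZEle hZEne
    have hK₃C : K₃ ≤ C := hc₃.le.trans (hc.le.trans h.leC)
    have hKE' : K ≤ E := hc.le
    have hEl₃ : ∀ w ∈ E, w ^ r ∈ K₃ := fun w hw => hZK₃ ⟨E.pow_mem hw r, hpow w hw⟩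
    have hEab₃ : ∀ a ∈ E, ∀ b ∈ E, a * b * a⁻¹ * b⁻¹ ∈ K₃ := by
      intro a ha b hb
      apply hZK₃
      refine ⟨h.cE a (h.leC ha) b (h.leC hb), fun e' he' => ?_⟩
      have h1 := O1 e' (hEF he') _ (hcm a (hEF ha) b (hEF hb))
      have h2 := K₄.inv_mem h1
      set w := a * b * a⁻¹ * b⁻¹ with hw
      have h3 : (e' * w * e'⁻¹ * w⁻¹)⁻¹ = w * e' * w⁻¹ * e'⁻¹ := by group
      rwa [h3] at h2
    refine q9 h hc hc₃ hl hEl₃ hEab₃ ?_
    intro hle f hf a ha
    have hres := b1 (F := F.subgroupOf C) (A := commutator C) (K := K.subgroupOf C)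
      (K₃ := K₃.subgroupOf C) hF'n inferInstance (hc.nK.subgroupOf C) (hc₃.nK.subgroupOf C)
      (fun x hx => hc₃.le hx)
      (fun x hx => (mem_E_iff h x).1 (hc.le hx))
      (by
        intro he
        apply hc₃.ne
        apply le_antisymm hc₃.le
        intro w hw
        have h1 : (⟨w, h.leC (hc.le hw)⟩ : C) ∈ K.subgroupOf C := hw
        rw [← he] at h1
        exact h1)
      (by
        intro x hx y hy
        exact hEab₃ x ((mem_E_iff h x).2 hx) y ((mem_E_iff h y).2 hy))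
      hα' hα1' hnd
      (by
        intro c
        rcases semireg h hc₃ hKE' c.2 with h1 | h1
        · left
          intro w hw
          exact h1 w hw
        · right
          intro w hw hcw
          exact h1 w hw hcw)
      (by
        intro c hcw
        exact hle c c.2 (fun w hw => hcw ⟨w, h.leC (hc.le hw)⟩ hw))
    exact hres ⟨f, hFC hf⟩ hf ⟨a, h.leC ha⟩ ((mem_E_iff h _).1 ha)
  -- counting
  obtain ⟨e₀, he₀, he₀K⟩ := exists_E_not_K hc
  let K₄' : Subgroup W := K₄.subgroupOf W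
  haveI hK₄'n : K₄'.Normal := hK₄n.subgroupOf W
  have hmemW : ∀ a : E, e₀ * a * e₀⁻¹ * (a : G)⁻¹ ∈ W := fun a => hcm e₀ (hEF he₀) a (hEF a.2)
  have hmkeq : ∀ x y : W, (x : W ⧸ K₄') = y ↔ π x = π y := by
    intro x y
    rw [QuotientGroup.eq]
    constructor
    · intro hxy
      have h1 : (x : G)⁻¹ * (y : G) ∈ K₄ := hxy
      have h2 := (hπ _).2 h1
      rw [map_mul, map_inv, inv_mul_eq_one] at h2
      exact h2
    · intro hxy
      change (x : G)⁻¹ * (y : G) ∈ K₄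
      apply (hπ _).1
      rw [map_mul, map_inv, inv_mul_eq_one]
      exact hxy
  let Φ : E →* (W ⧸ K₄') :=
    { toFun := fun a => ((⟨e₀ * a * e₀⁻¹ * (a : G)⁻¹, hmemW a⟩ : W) : W ⧸ K₄')
      map_one' := by
        have h1 : (⟨e₀ * ((1 : E) : G) * e₀⁻¹ * ((1 : E) : G)⁻¹, hmemW 1⟩ : W) = 1 := by
          apply Subtype.ext
          simp
        rw [h1]
        rfl
      map_mul' := by
        intro a b
        rw [← QuotientGroup.mk_mul, hmkeq]
        have h1 := (hπ _).2 (O1 a (hEF a.2) _ (hmemW b))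
        simp only [map_mul, map_inv] at h1
        simp only [Subgroup.coe_mul, map_mul, map_inv, mul_inv_rev]
        calc π e₀ * (π a * π b) * (π e₀)⁻¹ * ((π b)⁻¹ * (π a)⁻¹)
            = π e₀ * π a * (π e₀)⁻¹ * (π a)⁻¹ *
              ((π a * (π e₀ * π b * (π e₀)⁻¹ * (π b)⁻¹) * (π a)⁻¹ *
                (π e₀ * π b * (π e₀)⁻¹ * (π b)⁻¹)⁻¹) * (π e₀ * π b * (π e₀)⁻¹ * (π b)⁻¹)) := by group
          _ = _ := by rw [h1, one_mul] }
  have hΦ : ∀ a : E, Φ a = ((⟨e₀ * a * e₀⁻¹ * (a : G)⁻¹, hmemW a⟩ : W) : W ⧸ K₄') := fun _ => rfl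
  have hΦsurj : Function.Surjective Φ := by
    intro y
    obtain ⟨w, rfl⟩ := QuotientGroup.mk_surjective y
    have he₀Z : e₀ ∉ Zt := fun hz => he₀K (E_inf_Zt h hc e₀ he₀ hz)
    obtain ⟨e', he', hew⟩ := O2 e₀ (hEF he₀) he₀Z w w.2
    refine ⟨⟨e', he'⟩, ?_⟩
    rw [hΦ, hmkeq]
    have h1 := (hπ _).2 hew
    rw [map_mul, map_inv, mul_inv_eq_one] at h1
    exact h1
  have hkerY : ∀ a : E, a ∈ Φ.ker ↔ e₀ * a * e₀⁻¹ * (a : G)⁻¹ ∈ K₄ := by
    intro a
    rw [MonoidHom.mem_ker, hΦ]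
    have h1 : (1 : W ⧸ K₄') = ((1 : W) : W ⧸ K₄') := rfl
    rw [h1, hmkeq]
    simp only [OneMemClass.coe_one, map_one]
    exact hπ _
  have hYidx : Φ.ker.index = K₄.relIndex W := by
    have h1 := Subgroup.index_ker Φ
    rw [MonoidHom.range_eq_top.mpr hΦsurj] at h1
    rw [h1]
    exact Nat.card_congr Subgroup.topEquiv.toEquiv
  have hKY : K.subgroupOf E ≤ Φ.ker := by
    intro k hk
    rw [hkerY]
    have h1 := K₄.inv_mem (hKcent k hk e₀ he₀)
    have h2 : ((k : G) * e₀ * (k : G)⁻¹ * e₀⁻¹)⁻¹ = e₀ * k * e₀⁻¹ * (k : G)⁻¹ := by group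
    rwa [h2] at h1
  have he₀Y : (⟨e₀, he₀⟩ : E) ∈ Φ.ker := by
    rw [hkerY]
    simp [K₄.one_mem]
  have hrel := Subgroup.relIndex_mul_index hKY
  have hB : (K.subgroupOf E).index = K.relIndex E := rfl
  rw [hYidx, hB] at hrel
  have hB0 : K.relIndex E ≠ 0 := Subgroup.index_ne_zero_of_finite
  have hD1 : 1 < (K.subgroupOf E).relIndex Φ.ker := by
    have h0 : (K.subgroupOf E).relIndex Φ.ker ≠ 0 := by
      intro h0
      rw [h0, zero_mul] at hrel
      exact hB0 hrel.symm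
    have h1 : (K.subgroupOf E).relIndex Φ.ker ≠ 1 := by
      intro h1
      have h2 := Subgroup.relIndex_eq_one.mp h1 he₀Y
      exact he₀K h2
    omega
  have hA1 : 1 < K₄.relIndex W := by
    have h0 : K₄.relIndex W ≠ 0 := Subgroup.index_ne_zero_of_finite
    have h1 : K₄.relIndex W ≠ 1 := by
      intro h1
      exact hw₀K (Subgroup.relIndex_eq_one.mp h1 hw₀)
    omega
  have hd1 := n_dvd h hc hl hEl hc₄ hWE hWr
  have hd2 := n_dvd h hc hl hEl hc le_rfl hEl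
  have hlt := size_lt h hc hl hEl hcop
  rw [← hrel, mul_comm] at hd2 hlt
  exact arith hA1 hD1 hd1 hd2 hlt

end Main

end Cfsg.Agent.Lib.NoDiv.Deep3
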