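import Cfsg.Prelude.Def_DegreeGraph
import Cfsg.Agent.Lib.Char.Conj
import Cfsg.Agent.Lib.Char.Ortho
import Mathlib.GroupTheory.Nilpotent
import Mathlib.Tactic

/-!
# No divisibility among character degrees: definitions shared by the modules of `Lib/NoDiv`

Commutators are written out as `a * b * a⁻¹ * b⁻¹`.
-/

set_option autoImplicit false
set_option linter.unusedSectionVars false
set_option linter.style.haveILetI false

namespace Cfsg.Agent.Lib.NoDiv.Defs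

open Cfsg

universe u

/-- No nontrivial degree divides a larger one. -/
def NoDiv (G : Type u) [Group G] : Prop :=
  ∀ a ∈ charDegrees G, ∀ b ∈ charDegrees G, 1 < a → a < b → ¬ a ∣ b

variable {G : Type u} [Group G]

/-- `L / K` is a chief factor of `G`. -/
structure Chief (K L : Subgroup G) : Prop where
  nK : K.Normal
  nL : L.Normal
  le : K ≤ L
  ne : K ≠ L
  min : ∀ N : Subgroup G, N.Normal → K ≤ N → N ≤ L → N = K ∨ N = L

/-- `{a ∈ A | ∀ b ∈ B, [a, b] ∈ K}`, for normal `K`. -/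
def relCen {K : Subgroup G} (hK : K.Normal) (A B : Subgroup G) : Subgroup G where
  carrier := {a | a ∈ A ∧ ∀ b ∈ B, a * b * a⁻¹ * b⁻¹ ∈ K}
  one_mem' := ⟨A.one_mem, fun b _ => by simp [K.one_mem]⟩
  mul_mem' := by
    rintro x y ⟨hx, hx'⟩ ⟨hy, hy'⟩
    refine ⟨A.mul_mem hx hy, fun b hb => ?_⟩
    have h1 := hK.conj_mem _ (hy' b hb) x
    have h2 := K.mul_mem h1 (hx' b hb)
    have : x * y * b * (x * y)⁻¹ * b⁻¹ = x * (y * b * y⁻¹ * b⁻¹) * x⁻¹ * (x * b * x⁻¹ * b⁻¹) := by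
      group
    rw [this]
    exact h2
  inv_mem' := by
    rintro x ⟨hx, hx'⟩
    refine ⟨A.inv_mem hx, fun b hb => ?_⟩
    have h1 := hK.conj_mem _ (K.inv_mem (hx' b hb)) x⁻¹
    have : x⁻¹ * b * x⁻¹⁻¹ * b⁻¹ = x⁻¹ * (x * b * x⁻¹ * b⁻¹)⁻¹ * x⁻¹⁻¹ := by group
    rw [this]
    exact h1

theorem mem_relCen {K : Subgroup G} (hK : K.Normal) (A B : Subgroup G) (a : G) :
    a ∈ relCen hK A B ↔ a ∈ A ∧ ∀ b ∈ B, a * b * a⁻¹ * b⁻¹ ∈ K := Iff.rfl

/-- `H / E` is the image of `c ↦ [g, c]` on `C / E`. -/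
def Hs (C E : Subgroup G) (hE : E.Normal) (hCE : ∀ a ∈ C, ∀ b ∈ C, a * b * a⁻¹ * b⁻¹ ∈ E)
    (hC : C.Normal) (hEC : E ≤ C) (g : G) : Subgroup G where
  carrier := {x | x ∈ C ∧ ∃ c ∈ C, x⁻¹ * (g * c * g⁻¹ * c⁻¹) ∈ E}
  one_mem' := ⟨C.one_mem, 1, C.one_mem, by simp [E.one_mem]⟩
  mul_mem' := by
    rintro x y ⟨hx, c, hc, hxc⟩ ⟨hy, d, hd, hyd⟩
    refine ⟨C.mul_mem hx hy, c * d, C.mul_mem hc hd, ?_⟩
    -- modulo `E` everything in `C` commutes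
    let π := QuotientGroup.mk' E
    have hmem : ∀ t, π t = 1 ↔ t ∈ E := fun t => by simp [π]
    have hcomm : ∀ a ∈ C, ∀ b ∈ C, π a * π b = π b * π a := by
      intro a ha b hb
      have h1 : π (a * b * a⁻¹ * b⁻¹) = 1 := (hmem _).2 (hCE a ha b hb)
      simp only [map_mul, map_inv] at h1
      calc π a * π b = (π a * π b * (π a)⁻¹ * (π b)⁻¹) * (π b * π a) := by group
        _ = π b * π a := by rw [h1, one_mul]
    have h1 : π (x⁻¹ * (g * c * g⁻¹ * c⁻¹)) = 1 := (hmem _).2 hxc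
    have h2 : π (y⁻¹ * (g * d * g⁻¹ * d⁻¹)) = 1 := (hmem _).2 hyd
    refine (hmem _).1 ?_
    have hgc : ∀ t ∈ C, g * t * g⁻¹ ∈ C := fun t ht => hC.conj_mem t ht g
    have e1 : π (g * c * g⁻¹ * c⁻¹) = π x := by
      simp only [map_mul, map_inv] at h1 ⊢
      calc _ = π x * ((π x)⁻¹ * (π g * π c * (π g)⁻¹ * (π c)⁻¹)) := by group
        _ = π x := by rw [h1, mul_one]
    have e2 : π (g * d * g⁻¹ * d⁻¹) = π y := by
      simp only [map_mul, map_inv] at h2 ⊢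
      calc _ = π y * ((π y)⁻¹ * (π g * π d * (π g)⁻¹ * (π d)⁻¹)) := by group
        _ = π y := by rw [h2, mul_one]
    have e3 : g * (c * d) * g⁻¹ * (c * d)⁻¹ =
        (g * c * g⁻¹) * (g * d * g⁻¹) * d⁻¹ * c⁻¹ := by group
    have hA := hgc c hc
    have hB := hgc d hd
    have hD := C.inv_mem hd
    have hCi := C.inv_mem hc
    rw [show (x * y)⁻¹ * (g * (c * d) * g⁻¹ * (c * d)⁻¹) =
      y⁻¹ * x⁻¹ * ((g * c * g⁻¹) * (g * d * g⁻¹) * d⁻¹ * c⁻¹) by group]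
    have e4 : π (g * c * g⁻¹) = π x * π c := by
      rw [← e1]
      simp only [map_mul, map_inv]
      group
    have e5 : π (g * d * g⁻¹) = π y * π d := by
      rw [← e2]
      simp only [map_mul, map_inv]
      group
    rw [map_mul, map_mul, map_mul, map_mul, map_mul, e4, e5, map_inv, map_inv, map_inv, map_inv]
    have c1 := hcomm c hc y hy
    calc (π y)⁻¹ * (π x)⁻¹ * (π x * π c * (π y * π d) * (π d)⁻¹ * (π c)⁻¹)
        = (π y)⁻¹ * (π c * π y) * (π c)⁻¹ := by group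
      _ = (π y)⁻¹ * (π y * π c) * (π c)⁻¹ := by rw [c1]
      _ = 1 := by group
  inv_mem' := by
    rintro x ⟨hx, c, hc, hxc⟩
    refine ⟨C.inv_mem hx, c⁻¹, C.inv_mem hc, ?_⟩
    let π := QuotientGroup.mk' E
    have hmem : ∀ t, π t = 1 ↔ t ∈ E := fun t => by simp [π]
    have hcomm : ∀ a ∈ C, ∀ b ∈ C, π a * π b = π b * π a := by
      intro a ha b hb
      have h1 : π (a * b * a⁻¹ * b⁻¹) = 1 := (hmem _).2 (hCE a ha b hb)
      simp only [map_mul, map_inv] at h1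
      calc π a * π b = (π a * π b * (π a)⁻¹ * (π b)⁻¹) * (π b * π a) := by group
        _ = π b * π a := by rw [h1, one_mul]
    have h1 : π (x⁻¹ * (g * c * g⁻¹ * c⁻¹)) = 1 := (hmem _).2 hxc
    refine (hmem _).1 ?_
    have e1 : π (g * c * g⁻¹) = π x * π c := by
      have : π (g * c * g⁻¹) = π x * π (x⁻¹ * (g * c * g⁻¹ * c⁻¹)) * π c := by
        simp only [map_mul, map_inv]
        group
      rw [this, h1, mul_one]
    have e2 : π (g * c⁻¹ * g⁻¹) = (π c)⁻¹ * (π x)⁻¹ := by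
      have : g * c⁻¹ * g⁻¹ = (g * c * g⁻¹)⁻¹ := by group
      rw [this, map_inv, e1, mul_inv_rev]
    have c1 := hcomm x hx c hc
    have e3 : x⁻¹⁻¹ * (g * c⁻¹ * g⁻¹ * c⁻¹⁻¹) = x * (g * c⁻¹ * g⁻¹) * c := by group
    rw [e3, map_mul, map_mul, e2]
    calc π x * ((π c)⁻¹ * (π x)⁻¹) * π c = π x * (π c)⁻¹ * (π x)⁻¹ * π c := by group
      _ = (π c)⁻¹ * (π c * π x) * (π c)⁻¹ * (π x)⁻¹ * π c := by group
      _ = (π c)⁻¹ * (π x * π c) * (π c)⁻¹ * (π x)⁻¹ * π c := by rw [c1]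
      _ = 1 := by group

theorem mem_Hs (C E : Subgroup G) (hE : E.Normal) (hCE : ∀ a ∈ C, ∀ b ∈ C, a * b * a⁻¹ * b⁻¹ ∈ E)
    (hC : C.Normal) (hEC : E ≤ C) (g x : G) :
    x ∈ Hs C E hE hCE hC hEC g ↔ x ∈ C ∧ ∃ c ∈ C, x⁻¹ * (g * c * g⁻¹ * c⁻¹) ∈ E := Iff.rfl

/-- The group-theoretic data of the final case: `C` normal in `G` with `G / C` abelian, `E = C'`,
and the class structure coming from "every nonlinear irreducible character of `C` is `G`-invariant".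
`g ∉ C` is a fixed element, with `g ^ o ∈ C`. `z ∈ C` has prime order `p ∤ |E|` and is moved by `g`
modulo `E`; `E` is nilpotent. -/
structure Cam (C E : Subgroup G) (g z : G) (o p : ℕ) : Prop where
  hC : C.Normal
  hE : E = ⁅C, C⁆
  hGC : ∀ a b : G, a * b * a⁻¹ * b⁻¹ ∈ C
  cf1 : ∀ h c, c ∈ C → h * c * h⁻¹ * c⁻¹ ∉ E → ∀ e ∈ E, ∃ b ∈ C, b * c * b⁻¹ = c * e
  cf2 : ∀ h c, c ∈ C → h * c * h⁻¹ * c⁻¹ ∈ E → ∃ b ∈ C, b * c * b⁻¹ = h * c * h⁻¹
  hg : g ∉ C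
  ho : 0 < o
  hgo : g ^ o ∈ C
  hk : ∃ k : ℕ, Nat.Coprime k o ∧ ∀ c ∈ C, (g * c * g⁻¹ * c⁻¹) ^ k ∈ E
  hp : p.Prime
  hpE : ¬ p ∣ Nat.card E
  hz : z ∈ C
  hzp : z ^ p = 1
  hzg : g * z * g⁻¹ * z⁻¹ ∉ E
  hnil : Group.IsNilpotent E

namespace Cam

variable {C E : Subgroup G} {g z : G} {o p : ℕ}

theorem nE (h : Cam C E g z o p) : E.Normal := by
  rw [h.hE]
  haveI := h.hC
  exact Subgroup.commutator_normal C C

theorem leC (h : Cam C E g z o p) : E ≤ C := by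
  rw [h.hE]
  haveI := h.hC
  exact Subgroup.commutator_le_left C C

theorem cE (h : Cam C E g z o p) : ∀ a ∈ C, ∀ b ∈ C, a * b * a⁻¹ * b⁻¹ ∈ E := by
  intro a ha b hb
  rw [h.hE]
  exact Subgroup.commutator_mem_commutator ha hb

/-- `H / E = [C / E, g]`. -/
def H (h : Cam C E g z o p) : Subgroup G := Hs C E h.nE h.cE h.hC h.leC g

end Cam

end Cfsg.Agent.Lib.NoDiv.Defs
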